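import Mathlib
import Cfsg.Agent.Lib.Helper16.SpinCD

/-!
Cartan--Dieudonne in characteristic two: over a perfect field of characteristic two, every
isometry of a quadratic form with nondegenerate polar form is a product of orthogonal
transvections ("reflections"), except in dimension four over the field with two elements.
Also: transitivity on vectors of a given nonzero norm by products of two reflections.
-/

set_option autoImplicit false
set_option linter.unusedSectionVars false

namespace Cfsg.Agent.Lib.Helper17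

open Cfsg.Agent.Lib.Helper16
open scoped commutatorElement

section CDChar2

variable {F : Type*} [Field F] [CharP F 2] {ι : Type} [Fintype ι] [DecidableEq ι]
variable (Q : QuadraticForm F (ι → F))

theorem c2_vadd_self (x : ι → F) : x + x = 0 := by
  funext i
  exact CharTwo.add_self_eq_zero (x i)

theorem c2_polar_self (x : ι → F) : QuadraticMap.polar ⇑Q x x = 0 := by
  rw [cd_polar_self, CharTwo.two_eq_zero, zero_mul]

theorem c2_Q_add (a b : ι → F) : Q (a + b) = Q a + Q b + QuadraticMap.polar ⇑Q a b :=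
  QuadraticMap.map_add (⇑Q) a b

theorem c2_Q_add_of_eq (a b : ι → F) (hab : Q a = Q b) :
    Q (a + b) = QuadraticMap.polar ⇑Q a b := by
  rw [c2_Q_add, hab, CharTwo.add_self_eq_zero, zero_add]

/-- The characteristic two form of the action of a reflection. -/
theorem c2_reflG_act (v : ι → F) (hv : Q v ≠ 0) (x : ι → F) :
    cdAct Q (reflG Q v hv) x = x + ((Q v)⁻¹ * QuadraticMap.polar ⇑Q v x) • v := by
  rw [cdAct_refl Q (reflG Q v hv) v rfl, sub_eq_add_neg]
  congr 1
  exact neg_eq_of_add_eq_zero_left (c2_vadd_self _)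

theorem c2_reflG_fix (v : ι → F) (hv : Q v ≠ 0) (x : ι → F)
    (h : QuadraticMap.polar ⇑Q v x = 0) : cdAct Q (reflG Q v hv) x = x := by
  rw [c2_reflG_act, h, mul_zero, zero_smul, add_zero]

theorem c2_reflG_move (a b : ι → F) (hab : Q a = Q b) (h : Q (a + b) ≠ 0) :
    cdAct Q (reflG Q (a + b) h) a = b := by
  rw [c2_reflG_act]
  have e : QuadraticMap.polar ⇑Q (a + b) a = Q (a + b) := by
    rw [c2_Q_add_of_eq Q a b hab, QuadraticMap.polar_add_left, c2_polar_self, zero_add,
      QuadraticMap.polar_comm]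
  rw [e, inv_mul_cancel₀ h, one_smul, ← add_assoc, c2_vadd_self, zero_add]

/-- Reflections in vectors of `W` orthogonal to `u`. -/
def c2R (W : Submodule F (ι → F)) (u : ι → F) : Set ↥(Cfsg.isometryGroup F ⇑Q) :=
  {g | ∃ w ∈ W, QuadraticMap.polar ⇑Q w u = 0 ∧ ∃ hw : Q w ≠ 0, g = reflG Q w hw}

theorem c2R_sub_cdR (W : Submodule F (ι → F)) (u : ι → F) : c2R Q W u ⊆ cdR Q := by
  rintro g ⟨w, _, _, hw, rfl⟩
  exact ⟨w, hw, rfl⟩

theorem c2R_mono {W W' : Submodule F (ι → F)} (h : W ≤ W') (u : ι → F) :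
    c2R Q W u ⊆ c2R Q W' u := by
  rintro g ⟨w, hwW, hwu, hw, rfl⟩
  exact ⟨w, h hwW, hwu, hw, rfl⟩

theorem c2_closure_fix (S : Set ↥(Cfsg.isometryGroup F ⇑Q)) (x : ι → F)
    (hS : ∀ g ∈ S, cdAct Q g x = x) (g : ↥(Cfsg.isometryGroup F ⇑Q))
    (hg : g ∈ Subgroup.closure S) : cdAct Q g x = x := by
  induction hg using Subgroup.closure_induction with
  | mem g hg => exact hS g hg
  | one => exact cdAct_one Q x
  | mul a b _ _ ha hb => rw [cdAct_mul, hb, ha]
  | inv a _ ha =>
    calc cdAct Q a⁻¹ x = cdAct Q a⁻¹ (cdAct Q a x) := by rw [ha]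
      _ = x := cdAct_inv_act Q a x

theorem c2R_fix_u (W : Submodule F (ι → F)) (u : ι → F) (g : ↥(Cfsg.isometryGroup F ⇑Q))
    (hg : g ∈ Subgroup.closure (c2R Q W u)) : cdAct Q g u = u := by
  apply c2_closure_fix Q _ u _ g hg
  rintro r ⟨w, _, hwu, hw, rfl⟩
  exact c2_reflG_fix Q w hw u hwu

theorem c2R_fix_perp (W : Submodule F (ι → F)) (u : ι → F) (g : ↥(Cfsg.isometryGroup F ⇑Q))
    (hg : g ∈ Subgroup.closure (c2R Q W u)) (x : ι → F)
    (hx : ∀ w ∈ W, QuadraticMap.polar ⇑Q x w = 0) : cdAct Q g x = x := by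
  apply c2_closure_fix Q _ x _ g hg
  rintro r ⟨w, hwW, _, hw, rfl⟩
  apply c2_reflG_fix Q w hw x
  rw [QuadraticMap.polar_comm]
  exact hx w hwW

theorem c2_move0 (W : Submodule F (ι → F)) (u a b : ι → F) (ha : a ∈ W) (hb : b ∈ W)
    (hau : QuadraticMap.polar ⇑Q a u = 0) (hbu : QuadraticMap.polar ⇑Q b u = 0)
    (hab : Q a = Q b) (hf : QuadraticMap.polar ⇑Q a b ≠ 0) :
    ∃ r ∈ c2R Q W u, cdAct Q r a = b ∧
      ∀ x, QuadraticMap.polar ⇑Q a x = QuadraticMap.polar ⇑Q b x → cdAct Q r x = x := by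
  have h : Q (a + b) ≠ 0 := by
    rw [c2_Q_add_of_eq Q a b hab]
    exact hf
  refine ⟨reflG Q (a + b) h, ⟨a + b, W.add_mem ha hb, ?_, h, rfl⟩, c2_reflG_move Q a b hab h, ?_⟩
  · rw [QuadraticMap.polar_add_left, hau, hbu, add_zero]
  · intro x hx
    apply c2_reflG_fix
    rw [QuadraticMap.polar_add_left, hx, CharTwo.add_self_eq_zero]

theorem c2_move1 (hsq : ∀ a : F, ∃ b, b * b = a) (W : Submodule F (ι → F)) (u a b z₀ : ι → F)
    (hu : u ∈ W) (hQu : Q u ≠ 0) (ha : a ∈ W) (hb : b ∈ W) (hz : z₀ ∈ W)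
    (hau : QuadraticMap.polar ⇑Q a u = 0) (hbu : QuadraticMap.polar ⇑Q b u = 0)
    (hzu : QuadraticMap.polar ⇑Q z₀ u = 0)
    (hab : Q a = Q b) (haz : QuadraticMap.polar ⇑Q a z₀ ≠ 0)
    (hbz : QuadraticMap.polar ⇑Q b z₀ ≠ 0) :
    ∃ ρ ∈ Subgroup.closure (c2R Q W u), cdAct Q ρ a = b := by
  by_cases hf : QuadraticMap.polar ⇑Q a b = 0
  · obtain ⟨s, hs⟩ := hsq ((Q a + Q z₀) / Q u)
    have hzW : z₀ + s • u ∈ W := W.add_mem hz (W.smul_mem _ hu)
    have hQz : Q (z₀ + s • u) = Q a := by
      rw [c2_Q_add, QuadraticMap.map_smul, QuadraticMap.polar_smul_right, hzu, smul_zero,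
        add_zero, smul_eq_mul, hs, div_mul_cancel₀ _ hQu, add_comm (Q a), ← add_assoc,
        CharTwo.add_self_eq_zero, zero_add]
    have hzu' : QuadraticMap.polar ⇑Q (z₀ + s • u) u = 0 := by
      rw [QuadraticMap.polar_add_left, hzu, QuadraticMap.polar_smul_left, c2_polar_self,
        smul_zero, add_zero]
    have haz' : QuadraticMap.polar ⇑Q a (z₀ + s • u) ≠ 0 := by
      rw [QuadraticMap.polar_add_right, QuadraticMap.polar_smul_right, hau, smul_zero, add_zero]
      exact haz
    have hzb' : QuadraticMap.polar ⇑Q (z₀ + s • u) b ≠ 0 := by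
      rw [QuadraticMap.polar_comm, QuadraticMap.polar_add_right, QuadraticMap.polar_smul_right,
        hbu, smul_zero, add_zero]
      exact hbz
    obtain ⟨r₁, hr₁, hr₁a, -⟩ := c2_move0 Q W u a (z₀ + s • u) ha hzW hau hzu' hQz.symm haz'
    obtain ⟨r₂, hr₂, hr₂z, -⟩ :=
      c2_move0 Q W u (z₀ + s • u) b hzW hb hzu' hbu (hQz.trans hab) hzb'
    exact ⟨r₂ * r₁, Subgroup.mul_mem _ (Subgroup.subset_closure hr₂)
      (Subgroup.subset_closure hr₁), by rw [cdAct_mul, hr₁a, hr₂z]⟩
  · obtain ⟨r, hr, hra, -⟩ := c2_move0 Q W u a b ha hb hau hbu hab hf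
    exact ⟨r, Subgroup.subset_closure hr, hra⟩

theorem c2_move2 (hsq : ∀ a : F, ∃ b, b * b = a) (W : Submodule F (ι → F)) (u x y y₁ : ι → F)
    (hu : u ∈ W) (hQu : Q u ≠ 0) (hx : x ∈ W) (hy : y ∈ W) (hy₁ : y₁ ∈ W)
    (hxu : QuadraticMap.polar ⇑Q x u = 0) (hyu : QuadraticMap.polar ⇑Q y u = 0)
    (hy₁u : QuadraticMap.polar ⇑Q y₁ u = 0)
    (hxy : QuadraticMap.polar ⇑Q x y = 1) (hxy₁ : QuadraticMap.polar ⇑Q x y₁ = 1)
    (hQy : Q y₁ = Q y) :
    ∃ σ ∈ Subgroup.closure (c2R Q W u), cdAct Q σ y₁ = y ∧ cdAct Q σ x = x := by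
  have hpc : ∀ a b : ι → F, QuadraticMap.polar ⇑Q a b = QuadraticMap.polar ⇑Q b a :=
    fun a b => QuadraticMap.polar_comm _ a b
  by_cases hf : QuadraticMap.polar ⇑Q y₁ y = 0
  · obtain ⟨β, hβ⟩ := hsq ((Q x + 1) / Q u)
    have hzW : y + x + β • u ∈ W := W.add_mem (W.add_mem hy hx) (W.smul_mem _ hu)
    have hQz : Q (y + x + β • u) = Q y := by
      rw [c2_Q_add, c2_Q_add, QuadraticMap.map_smul, QuadraticMap.polar_smul_right,
        QuadraticMap.polar_add_left, hyu, hxu, add_zero, smul_zero, add_zero, smul_eq_mul, hβ,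
        div_mul_cancel₀ _ hQu, hpc y x, hxy]
      have h2 := CharTwo.add_self_eq_zero (Q x + 1)
      linear_combination h2
    have hzu : QuadraticMap.polar ⇑Q (y + x + β • u) u = 0 := by
      rw [QuadraticMap.polar_add_left, QuadraticMap.polar_add_left, hyu, hxu,
        QuadraticMap.polar_smul_left, c2_polar_self, smul_zero, add_zero, add_zero]
    have hzy : QuadraticMap.polar ⇑Q (y + x + β • u) y = 1 := by
      rw [QuadraticMap.polar_add_left, QuadraticMap.polar_add_left, c2_polar_self, hxy,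
        QuadraticMap.polar_smul_left, hpc u y, hyu, smul_zero, add_zero, zero_add]
    have hzy₁ : QuadraticMap.polar ⇑Q y₁ (y + x + β • u) = 1 := by
      rw [QuadraticMap.polar_add_right, QuadraticMap.polar_add_right, hf, hpc y₁ x, hxy₁,
        QuadraticMap.polar_smul_right, hy₁u, smul_zero, add_zero, zero_add]
    have hzx : QuadraticMap.polar ⇑Q (y + x + β • u) x = 1 := by
      rw [QuadraticMap.polar_add_left, QuadraticMap.polar_add_left, c2_polar_self, hpc y x, hxy,
        QuadraticMap.polar_smul_left, hpc u x, hxu, smul_zero, add_zero, add_zero]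
    obtain ⟨r₁, hr₁, hr₁a, hr₁x⟩ := c2_move0 Q W u y₁ (y + x + β • u) hy₁ hzW hy₁u hzu
      (hQy.trans hQz.symm) (by rw [hzy₁]; exact one_ne_zero)
    obtain ⟨r₂, hr₂, hr₂a, hr₂x⟩ := c2_move0 Q W u (y + x + β • u) y hzW hy hzu hyu hQz
      (by rw [hzy]; exact one_ne_zero)
    refine ⟨r₂ * r₁, Subgroup.mul_mem _ (Subgroup.subset_closure hr₂)
      (Subgroup.subset_closure hr₁), by rw [cdAct_mul, hr₁a, hr₂a], ?_⟩
    rw [cdAct_mul, hr₁x x (by rw [hpc y₁ x, hxy₁, hzx]), hr₂x x (by rw [hzx, hpc y x, hxy])]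
  · obtain ⟨r, hr, hra, hrx⟩ := c2_move0 Q W u y₁ y hy₁ hy hy₁u hyu hQy hf
    exact ⟨r, Subgroup.subset_closure hr, hra, hrx x (by rw [hpc y₁ x, hxy₁, hpc y x, hxy])⟩

theorem c2_stab (hQ : (QuadraticMap.polarBilin Q).Nondegenerate) (W : Submodule F (ι → F))
    (g : ↥(Cfsg.isometryGroup F ⇑Q))
    (hfix : ∀ x, (∀ w ∈ W, QuadraticMap.polar ⇑Q x w = 0) → cdAct Q g x = x)
    (v : ι → F) (hvW : v ∈ W) : cdAct Q g v ∈ W := by
  have hpc : ∀ a b : ι → F, QuadraticMap.polar ⇑Q a b = QuadraticMap.polar ⇑Q b a :=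
    fun a b => QuadraticMap.polar_comm _ a b
  have hrefl : (QuadraticMap.polarBilin Q).IsRefl := by
    intro a b hab
    change QuadraticMap.polar ⇑Q b a = 0
    rw [hpc]
    exact hab
  have hoo := LinearMap.BilinForm.orthogonal_orthogonal hQ hrefl W
  rw [← hoo, LinearMap.BilinForm.mem_orthogonal_iff]
  intro x hx
  rw [LinearMap.BilinForm.mem_orthogonal_iff] at hx
  have hxfix : cdAct Q g x = x := by
    apply hfix
    intro w hw
    have h3 := hx w hw
    change QuadraticMap.polar ⇑Q w x = 0 at h3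
    rw [hpc]
    exact h3
  have h4 : QuadraticMap.polar ⇑Q x v = 0 := by
    have h3 := hx v hvW
    change QuadraticMap.polar ⇑Q v x = 0 at h3
    rw [hpc]
    exact h3
  change QuadraticMap.polar ⇑Q x (cdAct Q g v) = 0
  calc QuadraticMap.polar ⇑Q x (cdAct Q g v)
      = QuadraticMap.polar ⇑Q (cdAct Q g x) (cdAct Q g v) := by rw [hxfix]
    _ = QuadraticMap.polar ⇑Q x v := cdAct_polar Q g x v
    _ = 0 := h4

theorem c2_aux (hQ : (QuadraticMap.polarBilin Q).Nondegenerate)
    (hsq : ∀ a : F, ∃ b, b * b = a) :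
    ∀ (k : ℕ) (W : Submodule F (ι → F)), Module.finrank F W ≤ k →
      (∀ w ∈ W, (∀ w' ∈ W, QuadraticMap.polar ⇑Q w w' = 0) → w = 0) →
      ∀ u ∈ W, Q u ≠ 0 →
      ∀ g : ↥(Cfsg.isometryGroup F ⇑Q),
        (∀ x, (∀ w ∈ W, QuadraticMap.polar ⇑Q x w = 0) → cdAct Q g x = x) →
        cdAct Q g u = u →
        g ∈ Subgroup.closure (c2R Q W u) := by
  have hpc : ∀ a b : ι → F, QuadraticMap.polar ⇑Q a b = QuadraticMap.polar ⇑Q b a :=
    fun a b => QuadraticMap.polar_comm _ a b
  intro k
  induction k with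
  | zero =>
    intro W hk hnd u hu hQu g hfix hgu
    have hW := Submodule.finrank_eq_zero.mp (Nat.le_zero.mp hk)
    rw [hW, Submodule.mem_bot] at hu
    rw [hu, map_zero] at hQu
    exact absurd rfl hQu
  | succ k ih =>
    intro W hk hnd u hu hQu g hfix hgu
    obtain ⟨u', hu'W, huu'⟩ : ∃ u' ∈ W, QuadraticMap.polar ⇑Q u u' = 1 := by
      by_contra hcon
      push Not at hcon
      have hu0 : u = 0 := by
        apply hnd u hu
        intro w' hw'
        by_contra hne
        apply hcon ((QuadraticMap.polar ⇑Q u w')⁻¹ • w') (W.smul_mem _ hw')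
        rw [QuadraticMap.polar_smul_right, smul_eq_mul, inv_mul_cancel₀ hne]
      rw [hu0, map_zero] at hQu
      exact hQu rfl
    have hu'u : QuadraticMap.polar ⇑Q u' u = 1 := by rw [hpc]; exact huu'
    by_cases hA : ∀ x ∈ W, QuadraticMap.polar ⇑Q u x = 0 → ∃ c : F, x = c • u
    · -- the two-dimensional case
      have hone : ∀ h : ↥(Cfsg.isometryGroup F ⇑Q),
          (∀ x, (∀ w ∈ W, QuadraticMap.polar ⇑Q x w = 0) → cdAct Q h x = x) →
          cdAct Q h u = u → cdAct Q h u' = u' → h = 1 := by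
        intro h hhfix hhu hhu'
        apply cd_eq_one_of_act
        intro z
        have hz₀u : QuadraticMap.polar ⇑Q (z + (QuadraticMap.polar ⇑Q z u' • u
            + QuadraticMap.polar ⇑Q z u • u')) u = 0 := by
          rw [QuadraticMap.polar_add_left, QuadraticMap.polar_add_left,
            QuadraticMap.polar_smul_left, QuadraticMap.polar_smul_left, c2_polar_self, hu'u,
            smul_zero, zero_add, smul_eq_mul, mul_one, CharTwo.add_self_eq_zero]
        have hz₀u' : QuadraticMap.polar ⇑Q (z + (QuadraticMap.polar ⇑Q z u' • u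
            + QuadraticMap.polar ⇑Q z u • u')) u' = 0 := by
          rw [QuadraticMap.polar_add_left, QuadraticMap.polar_add_left,
            QuadraticMap.polar_smul_left, QuadraticMap.polar_smul_left, c2_polar_self, huu',
            smul_zero, add_zero, smul_eq_mul, mul_one, CharTwo.add_self_eq_zero]
        have hz₀W : ∀ w ∈ W, QuadraticMap.polar ⇑Q (z + (QuadraticMap.polar ⇑Q z u' • u
            + QuadraticMap.polar ⇑Q z u • u')) w = 0 := by
          intro w hw
          obtain ⟨c, hc⟩ := hA (w + QuadraticMap.polar ⇑Q u w • u')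
            (W.add_mem hw (W.smul_mem _ hu'W)) (by
              rw [QuadraticMap.polar_add_right, QuadraticMap.polar_smul_right, huu', smul_eq_mul,
                mul_one, CharTwo.add_self_eq_zero])
          have hw' : w = c • u + QuadraticMap.polar ⇑Q u w • u' := by
            rw [← hc, add_assoc, c2_vadd_self, add_zero]
          rw [hw', QuadraticMap.polar_add_right, QuadraticMap.polar_smul_right,
            QuadraticMap.polar_smul_right, hz₀u, hz₀u', smul_zero, smul_zero, add_zero]
        have hzdec : z = (z + (QuadraticMap.polar ⇑Q z u' • u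
            + QuadraticMap.polar ⇑Q z u • u')) + (QuadraticMap.polar ⇑Q z u' • u
            + QuadraticMap.polar ⇑Q z u • u') := by
          rw [add_assoc, c2_vadd_self, add_zero]
        calc cdAct Q h z = cdAct Q h ((z + (QuadraticMap.polar ⇑Q z u' • u
              + QuadraticMap.polar ⇑Q z u • u')) + (QuadraticMap.polar ⇑Q z u' • u
              + QuadraticMap.polar ⇑Q z u • u')) := congrArg _ hzdec
          _ = (z + (QuadraticMap.polar ⇑Q z u' • u
              + QuadraticMap.polar ⇑Q z u • u')) + (QuadraticMap.polar ⇑Q z u' • u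
              + QuadraticMap.polar ⇑Q z u • u') := by
              rw [cdAct_add, cdAct_add _ _ (_ • u), cdAct_smul, cdAct_smul, hhfix _ hz₀W, hhu,
                hhu']
          _ = z := hzdec.symm
      have hgu'W : cdAct Q g u' ∈ W := c2_stab Q hQ W g hfix u' hu'W
      obtain ⟨s, hs⟩ := hA (cdAct Q g u' + u') (W.add_mem hgu'W hu'W) (by
        have e := cdAct_polar Q g u u'
        rw [hgu] at e
        rw [QuadraticMap.polar_add_right, e, huu', CharTwo.add_self_eq_zero])
      have hgu' : cdAct Q g u' = u' + s • u := by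
        rw [← hs, add_comm (cdAct Q g u') u', ← add_assoc, c2_vadd_self, zero_add]
      have hs2 : s * (s * Q u + 1) = 0 := by
        have e := cdAct_iso Q g u'
        rw [hgu', c2_Q_add, QuadraticMap.map_smul, QuadraticMap.polar_smul_right, hu'u,
          smul_eq_mul, smul_eq_mul, mul_one] at e
        linear_combination e
      rcases mul_eq_zero.mp hs2 with h0 | h1
      · have hg1 : g = 1 := hone g hfix hgu (by rw [hgu', h0, zero_smul, add_zero])
        rw [hg1]
        exact Subgroup.one_mem _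
      · have hs' : s = (Q u)⁻¹ := by
          have e : s * Q u = 1 := by
            have h2 := CharTwo.add_self_eq_zero (1 : F)
            linear_combination h1 - h2
          exact eq_inv_of_mul_eq_one_left e
        have hrc : reflG Q u hQu ∈ Subgroup.closure (c2R Q W u) :=
          Subgroup.subset_closure ⟨u, hu, c2_polar_self Q u, hQu, rfl⟩
        have hru' : cdAct Q (reflG Q u hQu) u' = u' + s • u := by
          rw [c2_reflG_act, huu', mul_one, hs']
        have h1 : (reflG Q u hQu)⁻¹ * g = 1 := by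
          apply hone
          · intro x hx
            rw [cdAct_mul, hfix x hx]
            calc cdAct Q (reflG Q u hQu)⁻¹ x
                = cdAct Q (reflG Q u hQu)⁻¹ (cdAct Q (reflG Q u hQu) x) := by
                  rw [c2R_fix_perp Q W u _ hrc x hx]
              _ = x := cdAct_inv_act Q _ x
          · rw [cdAct_mul, hgu]
            calc cdAct Q (reflG Q u hQu)⁻¹ u
                = cdAct Q (reflG Q u hQu)⁻¹ (cdAct Q (reflG Q u hQu) u) := by
                  rw [c2R_fix_u Q W u _ hrc]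
              _ = u := cdAct_inv_act Q _ u
          · rw [cdAct_mul, hgu', ← hru', cdAct_inv_act]
        have hg1 : g = reflG Q u hQu := (inv_mul_eq_one.mp h1).symm
        rw [hg1]
        exact hrc
    · -- the general case
      push Not at hA
      obtain ⟨x, hxW, hux, hxne⟩ := hA
      obtain ⟨y, hyW, huy, hxy⟩ : ∃ y ∈ W, QuadraticMap.polar ⇑Q u y = 0 ∧
          QuadraticMap.polar ⇑Q x y = 1 := by
        by_contra hcon
        push Not at hcon
        have hzero : ∀ y' ∈ W, QuadraticMap.polar ⇑Q u y' = 0 →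
            QuadraticMap.polar ⇑Q x y' = 0 := by
          intro y' hy' huy'
          by_contra hne
          apply hcon ((QuadraticMap.polar ⇑Q x y')⁻¹ • y') (W.smul_mem _ hy')
          · rw [QuadraticMap.polar_smul_right, huy', smul_zero]
          · rw [QuadraticMap.polar_smul_right, smul_eq_mul, inv_mul_cancel₀ hne]
        have hrad : x + QuadraticMap.polar ⇑Q x u' • u = 0 := by
          apply hnd _ (W.add_mem hxW (W.smul_mem _ hu))
          intro w hw
          have h1 := hzero (w + QuadraticMap.polar ⇑Q u w • u')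
            (W.add_mem hw (W.smul_mem _ hu'W)) (by
              rw [QuadraticMap.polar_add_right, QuadraticMap.polar_smul_right, huu', smul_eq_mul,
                mul_one, CharTwo.add_self_eq_zero])
          rw [QuadraticMap.polar_add_right, QuadraticMap.polar_smul_right, smul_eq_mul] at h1
          rw [QuadraticMap.polar_add_left, QuadraticMap.polar_smul_left, smul_eq_mul]
          linear_combination h1
        apply hxne (QuadraticMap.polar ⇑Q x u')
        calc x = x + (x + QuadraticMap.polar ⇑Q x u' • u) := by rw [hrad, add_zero]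
          _ = QuadraticMap.polar ⇑Q x u' • u := by rw [← add_assoc, c2_vadd_self, zero_add]
      have hxu : QuadraticMap.polar ⇑Q x u = 0 := by rw [hpc]; exact hux
      have hyu : QuadraticMap.polar ⇑Q y u = 0 := by rw [hpc]; exact huy
      have hyx : QuadraticMap.polar ⇑Q y x = 1 := by rw [hpc]; exact hxy
      have hstab := c2_stab Q hQ W g hfix
      -- Step 1: move `g x` back to `x`
      obtain ⟨ρ, hρ, hρx⟩ : ∃ ρ ∈ Subgroup.closure (c2R Q W u),
          cdAct Q ρ (cdAct Q g x) = x := by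
        have hgp : ∀ a, QuadraticMap.polar ⇑Q (cdAct Q g a) u = QuadraticMap.polar ⇑Q a u := by
          intro a
          have e := cdAct_polar Q g a u
          rw [hgu] at e
          exact e
        have hgyW := hstab y hyW
        have hgxW := hstab x hxW
        have hgxu : QuadraticMap.polar ⇑Q (cdAct Q g x) u = 0 := (hgp x).trans hxu
        have hgyu : QuadraticMap.polar ⇑Q (cdAct Q g y) u = 0 := (hgp y).trans hyu
        have hgxgy : QuadraticMap.polar ⇑Q (cdAct Q g x) (cdAct Q g y) = 1 :=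
          (cdAct_polar Q g x y).trans hxy
        by_cases h1 : QuadraticMap.polar ⇑Q (cdAct Q g x) y = 0
        · by_cases h2 : QuadraticMap.polar ⇑Q x (cdAct Q g y) = 0
          · refine c2_move1 Q hsq W u (cdAct Q g x) x (y + cdAct Q g y) hu hQu hgxW hxW
              (W.add_mem hyW hgyW) hgxu hxu ?_ (cdAct_iso Q g x) ?_ ?_
            · rw [QuadraticMap.polar_add_left, hyu, hgyu, add_zero]
            · rw [QuadraticMap.polar_add_right, h1, hgxgy, zero_add]
              exact one_ne_zero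
            · rw [QuadraticMap.polar_add_right, hxy, h2, add_zero]
              exact one_ne_zero
          · refine c2_move1 Q hsq W u (cdAct Q g x) x (cdAct Q g y) hu hQu hgxW hxW hgyW hgxu
              hxu hgyu (cdAct_iso Q g x) ?_ h2
            rw [hgxgy]
            exact one_ne_zero
        · refine c2_move1 Q hsq W u (cdAct Q g x) x y hu hQu hgxW hxW hyW hgxu hxu hyu
            (cdAct_iso Q g x) h1 ?_
          rw [hxy]
          exact one_ne_zero
      have hg₁fix : ∀ z, (∀ w ∈ W, QuadraticMap.polar ⇑Q z w = 0) →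
          cdAct Q (ρ * g) z = z := by
        intro z hz
        rw [cdAct_mul, hfix z hz, c2R_fix_perp Q W u ρ hρ z hz]
      have hg₁u : cdAct Q (ρ * g) u = u := by rw [cdAct_mul, hgu, c2R_fix_u Q W u ρ hρ]
      have hg₁x : cdAct Q (ρ * g) x = x := by rw [cdAct_mul, hρx]
      have hg₁yW := c2_stab Q hQ W (ρ * g) hg₁fix y hyW
      -- Step 2: move `ρ g y` back to `y`, fixing `x`
      obtain ⟨σ, hσ, hσy, hσx⟩ := c2_move2 Q hsq W u x y (cdAct Q (ρ * g) y) hu hQu hxW hyW
        hg₁yW hxu hyu
        (by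
          have e := cdAct_polar Q (ρ * g) y u
          rw [hg₁u] at e
          rw [e]
          exact hyu)
        hxy
        (by
          have e := cdAct_polar Q (ρ * g) x y
          rw [hg₁x] at e
          rw [e]
          exact hxy)
        (cdAct_iso Q (ρ * g) y)
      have hg₂fix : ∀ z, (∀ w ∈ W, QuadraticMap.polar ⇑Q z w = 0) →
          cdAct Q (σ * (ρ * g)) z = z := by
        intro z hz
        rw [cdAct_mul, hg₁fix z hz, c2R_fix_perp Q W u σ hσ z hz]
      have hg₂u : cdAct Q (σ * (ρ * g)) u = u := by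
        rw [cdAct_mul, hg₁u, c2R_fix_u Q W u σ hσ]
      have hg₂x : cdAct Q (σ * (ρ * g)) x = x := by rw [cdAct_mul, hg₁x, hσx]
      have hg₂y : cdAct Q (σ * (ρ * g)) y = y := by rw [cdAct_mul, hσy]
      -- Step 3: pass to the orthogonal complement of `x, y` in `W`
      have hmemW' : ∀ w, w ∈ W ⊓ (LinearMap.ker (QuadraticMap.polarBilin Q x)
          ⊓ LinearMap.ker (QuadraticMap.polarBilin Q y)) ↔
          w ∈ W ∧ QuadraticMap.polar ⇑Q x w = 0 ∧ QuadraticMap.polar ⇑Q y w = 0 := by
        intro w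
        rw [Submodule.mem_inf, Submodule.mem_inf, LinearMap.mem_ker, LinearMap.mem_ker]
        rfl
      have hdec : ∀ w ∈ W, w + (QuadraticMap.polar ⇑Q y w • x + QuadraticMap.polar ⇑Q x w • y)
          ∈ W ⊓ (LinearMap.ker (QuadraticMap.polarBilin Q x)
            ⊓ LinearMap.ker (QuadraticMap.polarBilin Q y)) := by
        intro w hw
        rw [hmemW']
        refine ⟨W.add_mem hw (W.add_mem (W.smul_mem _ hxW) (W.smul_mem _ hyW)), ?_, ?_⟩
        · rw [QuadraticMap.polar_add_right, QuadraticMap.polar_add_right,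
            QuadraticMap.polar_smul_right, QuadraticMap.polar_smul_right, c2_polar_self, hxy,
            smul_zero, zero_add, smul_eq_mul, mul_one, CharTwo.add_self_eq_zero]
        · rw [QuadraticMap.polar_add_right, QuadraticMap.polar_add_right,
            QuadraticMap.polar_smul_right, QuadraticMap.polar_smul_right, c2_polar_self, hyx,
            smul_zero, add_zero, smul_eq_mul, mul_one, CharTwo.add_self_eq_zero]
      have hW'lt : W ⊓ (LinearMap.ker (QuadraticMap.polarBilin Q x)
          ⊓ LinearMap.ker (QuadraticMap.polarBilin Q y)) < W := by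
        refine lt_of_le_of_ne inf_le_left ?_
        intro heq
        have h3 : x ∈ W ⊓ (LinearMap.ker (QuadraticMap.polarBilin Q x)
            ⊓ LinearMap.ker (QuadraticMap.polarBilin Q y)) := by
          rw [heq]
          exact hxW
        have h4 := ((hmemW' x).mp h3).2.2
        rw [hyx] at h4
        exact one_ne_zero h4
      have hk' : Module.finrank F ↥(W ⊓ (LinearMap.ker (QuadraticMap.polarBilin Q x)
          ⊓ LinearMap.ker (QuadraticMap.polarBilin Q y))) ≤ k := by
        have h3 := Submodule.finrank_lt_finrank_of_lt hW'lt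
        omega
      have hnd' : ∀ w ∈ W ⊓ (LinearMap.ker (QuadraticMap.polarBilin Q x)
          ⊓ LinearMap.ker (QuadraticMap.polarBilin Q y)),
          (∀ w' ∈ W ⊓ (LinearMap.ker (QuadraticMap.polarBilin Q x)
            ⊓ LinearMap.ker (QuadraticMap.polarBilin Q y)),
            QuadraticMap.polar ⇑Q w w' = 0) → w = 0 := by
        intro w hw hw0
        obtain ⟨hwW, hxw, hyw⟩ := (hmemW' w).mp hw
        apply hnd w hwW
        intro w'' hw''
        have h1 := hw0 _ (hdec w'' hw'')
        rw [QuadraticMap.polar_add_right, QuadraticMap.polar_add_right,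
          QuadraticMap.polar_smul_right, QuadraticMap.polar_smul_right, hpc w x, hxw, hpc w y,
          hyw, smul_zero, smul_zero, add_zero, add_zero] at h1
        exact h1
      have huW' : u ∈ W ⊓ (LinearMap.ker (QuadraticMap.polarBilin Q x)
          ⊓ LinearMap.ker (QuadraticMap.polarBilin Q y)) := (hmemW' u).mpr ⟨hu, hxu, hyu⟩
      have hfix' : ∀ z, (∀ w ∈ W ⊓ (LinearMap.ker (QuadraticMap.polarBilin Q x)
          ⊓ LinearMap.ker (QuadraticMap.polarBilin Q y)), QuadraticMap.polar ⇑Q z w = 0) →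
          cdAct Q (σ * (ρ * g)) z = z := by
        intro z hz
        have hz₀W : ∀ w ∈ W, QuadraticMap.polar ⇑Q (z + (QuadraticMap.polar ⇑Q z y • x
            + QuadraticMap.polar ⇑Q z x • y)) w = 0 := by
          intro w hw
          have h3 := hz _ (hdec w hw)
          rw [QuadraticMap.polar_add_right, QuadraticMap.polar_add_right,
            QuadraticMap.polar_smul_right, QuadraticMap.polar_smul_right, smul_eq_mul,
            smul_eq_mul] at h3
          rw [QuadraticMap.polar_add_left, QuadraticMap.polar_add_left,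
            QuadraticMap.polar_smul_left, QuadraticMap.polar_smul_left, smul_eq_mul, smul_eq_mul]
          linear_combination h3
        have hzdec : z = (z + (QuadraticMap.polar ⇑Q z y • x
            + QuadraticMap.polar ⇑Q z x • y)) + (QuadraticMap.polar ⇑Q z y • x
            + QuadraticMap.polar ⇑Q z x • y) := by
          rw [add_assoc, c2_vadd_self, add_zero]
        calc cdAct Q (σ * (ρ * g)) z = cdAct Q (σ * (ρ * g)) ((z + (QuadraticMap.polar ⇑Q z y • x
              + QuadraticMap.polar ⇑Q z x • y)) + (QuadraticMap.polar ⇑Q z y • x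
              + QuadraticMap.polar ⇑Q z x • y)) := congrArg _ hzdec
          _ = (z + (QuadraticMap.polar ⇑Q z y • x
              + QuadraticMap.polar ⇑Q z x • y)) + (QuadraticMap.polar ⇑Q z y • x
              + QuadraticMap.polar ⇑Q z x • y) := by
              rw [cdAct_add, cdAct_add _ _ (_ • x), cdAct_smul, cdAct_smul, hg₂fix _ hz₀W, hg₂x,
                hg₂y]
          _ = z := hzdec.symm
      have h5 := ih _ hk' hnd' u huW' hQu (σ * (ρ * g)) hfix' hg₂u
      have h6 : σ * (ρ * g) ∈ Subgroup.closure (c2R Q W u) :=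
        Subgroup.closure_mono (c2R_mono Q inf_le_left u) h5
      have hg : g = ρ⁻¹ * (σ⁻¹ * (σ * (ρ * g))) := by group
      rw [hg]
      exact Subgroup.mul_mem _ (Subgroup.inv_mem _ hρ)
        (Subgroup.mul_mem _ (Subgroup.inv_mem _ hσ) h6)

theorem c2_sep (hQ : (QuadraticMap.polarBilin Q).Nondegenerate) (u v : ι → F) (hne : u ≠ v)
    (hQuv : Q u = Q v) (hQu : Q u ≠ 0) :
    ∃ p, QuadraticMap.polar ⇑Q u p = 1 ∧ QuadraticMap.polar ⇑Q v p = 0 := by
  by_contra hcon
  push Not at hcon
  have hzero : ∀ p, QuadraticMap.polar ⇑Q v p = 0 → QuadraticMap.polar ⇑Q u p = 0 := by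
    intro p hp
    by_contra hne'
    apply hcon ((QuadraticMap.polar ⇑Q u p)⁻¹ • p)
    · rw [QuadraticMap.polar_smul_right, smul_eq_mul, inv_mul_cancel₀ hne']
    · rw [QuadraticMap.polar_smul_right, hp, smul_zero]
  have hv0 : v ≠ 0 := by
    intro h0
    rw [h0, map_zero] at hQuv
    exact hQu hQuv
  obtain ⟨e₂, he₂⟩ : ∃ e₂, QuadraticMap.polar ⇑Q v e₂ ≠ 0 := by
    by_contra hc
    push Not at hc
    exact hv0 (hQ.1 v hc)
  have hrad : u + (QuadraticMap.polar ⇑Q u e₂ / QuadraticMap.polar ⇑Q v e₂) • v = 0 := by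
    apply hQ.1
    intro w
    change QuadraticMap.polar ⇑Q (u + (QuadraticMap.polar ⇑Q u e₂ / QuadraticMap.polar ⇑Q v e₂) • v)
      w = 0
    have h1 := hzero (w + (QuadraticMap.polar ⇑Q v w / QuadraticMap.polar ⇑Q v e₂) • e₂) (by
      rw [QuadraticMap.polar_add_right, QuadraticMap.polar_smul_right, smul_eq_mul,
        div_mul_cancel₀ _ he₂, CharTwo.add_self_eq_zero])
    rw [QuadraticMap.polar_add_right, QuadraticMap.polar_smul_right, smul_eq_mul] at h1
    rw [QuadraticMap.polar_add_left, QuadraticMap.polar_smul_left, smul_eq_mul, ← h1]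
    ring
  have hu : u = (QuadraticMap.polar ⇑Q u e₂ / QuadraticMap.polar ⇑Q v e₂) • v := by
    calc u = u + (u + (QuadraticMap.polar ⇑Q u e₂ / QuadraticMap.polar ⇑Q v e₂) • v) := by
          rw [hrad, add_zero]
      _ = (QuadraticMap.polar ⇑Q u e₂ / QuadraticMap.polar ⇑Q v e₂) • v := by
          rw [← add_assoc, c2_vadd_self, zero_add]
  generalize QuadraticMap.polar ⇑Q u e₂ / QuadraticMap.polar ⇑Q v e₂ = c at hu
  have hc1 : c = 1 := by
    have e : Q u = c * c * Q v := by
      conv_lhs => rw [hu]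
      rw [QuadraticMap.map_smul, smul_eq_mul]
    rw [← hQuv] at e
    have e2 : c * c = 1 := by
      have h3 : (c * c - 1) * Q u = 0 := by linear_combination -e
      rcases mul_eq_zero.mp h3 with h | h
      · linear_combination h
      · exact absurd h hQu
    have e3 : (c + 1) * (c + 1) = 0 := by
      linear_combination e2 + CharTwo.add_self_eq_zero (1 : F) + CharTwo.add_self_eq_zero c
    have e4 : c + 1 = 0 := mul_self_eq_zero.mp e3
    linear_combination e4 - CharTwo.add_self_eq_zero (1 : F)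
  apply hne
  rw [hu, hc1, one_smul]

theorem c2_card_four (hQ : (QuadraticMap.polarBilin Q).Nondegenerate) (a b p p' : ι → F)
    (hap : QuadraticMap.polar ⇑Q a p = 1) (hbp : QuadraticMap.polar ⇑Q b p = 0)
    (hbp' : QuadraticMap.polar ⇑Q b p' = 1) (hap' : QuadraticMap.polar ⇑Q a p' = 0)
    (hf : QuadraticMap.polar ⇑Q a b = 0)
    (hU : ∀ z z', QuadraticMap.polar ⇑Q a z = 0 → QuadraticMap.polar ⇑Q b z = 0 →
      QuadraticMap.polar ⇑Q a z' = 0 → QuadraticMap.polar ⇑Q b z' = 0 →
      QuadraticMap.polar ⇑Q z z' = 0) :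
    Fintype.card ι = 4 := by
  have hpc : ∀ a b : ι → F, QuadraticMap.polar ⇑Q a b = QuadraticMap.polar ⇑Q b a :=
    fun a b => QuadraticMap.polar_comm _ a b
  have hrefl : (QuadraticMap.polarBilin Q).IsRefl := by
    intro a b hab
    change QuadraticMap.polar ⇑Q b a = 0
    rw [hpc]
    exact hab
  have hmemU : ∀ z, z ∈ LinearMap.BilinForm.orthogonal (QuadraticMap.polarBilin Q) (Submodule.span F {a, b}) ↔
      QuadraticMap.polar ⇑Q a z = 0 ∧ QuadraticMap.polar ⇑Q b z = 0 := by
    intro z
    rw [LinearMap.BilinForm.mem_orthogonal_iff]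
    constructor
    · intro h
      exact ⟨h a (Submodule.subset_span (by simp)), h b (Submodule.subset_span (by simp))⟩
    · rintro ⟨h1, h2⟩ n hn
      change QuadraticMap.polar ⇑Q n z = 0
      induction hn using Submodule.span_induction with
      | mem x hx =>
        rcases hx with rfl | rfl
        · exact h1
        · exact h2
      | zero => exact QuadraticMap.polar_zero_left _ _
      | add x y _ _ hx hy => rw [QuadraticMap.polar_add_left, hx, hy, add_zero]
      | smul c x _ hx => rw [QuadraticMap.polar_smul_left, hx, smul_zero]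
  have hSU : Submodule.span F {a, b}
      ≤ LinearMap.BilinForm.orthogonal (QuadraticMap.polarBilin Q) (Submodule.span F {a, b}) := by
    rw [Submodule.span_le]
    intro x hx
    rcases hx with h | h
    · rw [h]
      exact (hmemU _).2 ⟨c2_polar_self Q _, by rw [hpc]; exact hf⟩
    · rw [Set.mem_singleton_iff] at h
      rw [h]
      exact (hmemU _).2 ⟨hf, c2_polar_self Q _⟩
  have hUS : LinearMap.BilinForm.orthogonal (QuadraticMap.polarBilin Q) (Submodule.span F {a, b})
      ≤ Submodule.span F {a, b} := by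
    have hoo := LinearMap.BilinForm.orthogonal_orthogonal hQ hrefl (Submodule.span F {a, b})
    intro z hz
    rw [← hoo, LinearMap.BilinForm.mem_orthogonal_iff]
    intro n hn
    obtain ⟨h1, h2⟩ := (hmemU z).1 hz
    obtain ⟨h3, h4⟩ := (hmemU n).1 hn
    exact hU n z h3 h4 h1 h2
  have heq : LinearMap.BilinForm.orthogonal (QuadraticMap.polarBilin Q) (Submodule.span F {a, b})
      = Submodule.span F {a, b} := le_antisymm hUS hSU
  have hfr := LinearMap.BilinForm.finrank_orthogonal hQ (Submodule.span F {a, b})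
  rw [heq] at hfr
  have hS2 : Module.finrank F ↥(Submodule.span F {a, b}) = 2 := by
    have hli : LinearIndependent F ![a, b] := by
      rw [LinearIndependent.pair_iff]
      intro s t hst
      have e1 : QuadraticMap.polar ⇑Q (s • a + t • b) p = 0 := by
        rw [hst, QuadraticMap.polar_zero_left]
      have e2 : QuadraticMap.polar ⇑Q (s • a + t • b) p' = 0 := by
        rw [hst, QuadraticMap.polar_zero_left]
      rw [QuadraticMap.polar_add_left, QuadraticMap.polar_smul_left,
        QuadraticMap.polar_smul_left, hap, hbp, smul_eq_mul, smul_eq_mul, mul_one, mul_zero,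
        add_zero] at e1
      rw [QuadraticMap.polar_add_left, QuadraticMap.polar_smul_left,
        QuadraticMap.polar_smul_left, hap', hbp', smul_eq_mul, smul_eq_mul, mul_one, mul_zero,
        zero_add] at e2
      exact ⟨e1, e2⟩
    have h3 := finrank_span_eq_card hli
    have h4 : Set.range ![a, b] = {a, b} := Matrix.range_cons_cons_empty a b _
    rw [h4] at h3
    rw [h3]
    simp
  have hV : Module.finrank F (ι → F) = Fintype.card ι := Module.finrank_fintype_fun_eq_card F
  have hle : Module.finrank F ↥(Submodule.span F {a, b}) ≤ Module.finrank F (ι → F) :=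
    Submodule.finrank_le _
  omega

theorem c2_exists_w (hQ : (QuadraticMap.polarBilin Q).Nondegenerate)
    (hex : (∃ β : F, β ≠ 0 ∧ β ≠ 1) ∨ Fintype.card ι ≠ 4)
    (a b : ι → F) (hab : Q a = Q b) (ha : Q a ≠ 0)
    (hf : QuadraticMap.polar ⇑Q a b = 0) (hne : a ≠ b) :
    ∃ w, Q w = Q a ∧ QuadraticMap.polar ⇑Q a w ≠ 0 ∧ QuadraticMap.polar ⇑Q w b ≠ 0 := by
  have hpc : ∀ a b : ι → F, QuadraticMap.polar ⇑Q a b = QuadraticMap.polar ⇑Q b a :=
    fun a b => QuadraticMap.polar_comm _ a b
  obtain ⟨p, hap, hbp⟩ := c2_sep Q hQ a b hne hab ha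
  obtain ⟨p', hbp', hap'⟩ := c2_sep Q hQ b a (Ne.symm hne) hab.symm (hab ▸ ha)
  have hQd : Q (a + b) = 0 := by
    rw [c2_Q_add_of_eq Q a b hab]
    exact hf
  have hba : QuadraticMap.polar ⇑Q b a = 0 := by rw [hpc]; exact hf
  by_cases hF : ∃ β : F, β ≠ 0 ∧ β ≠ 1
  · obtain ⟨β, hβ0, hβ1⟩ := hF
    have haw₀ : QuadraticMap.polar ⇑Q a (p + β • p') = 1 := by
      rw [QuadraticMap.polar_add_right, QuadraticMap.polar_smul_right, hap, hap', smul_zero,
        add_zero]
    have hbw₀ : QuadraticMap.polar ⇑Q b (p + β • p') = β := by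
      rw [QuadraticMap.polar_add_right, QuadraticMap.polar_smul_right, hbp, hbp', smul_eq_mul,
        mul_one, zero_add]
    have hβ1' : 1 + β ≠ 0 := by
      intro h
      apply hβ1
      linear_combination h - CharTwo.add_self_eq_zero (1 : F)
    refine ⟨(p + β • p') + ((Q a + Q (p + β • p')) / (1 + β)) • (a + b), ?_, ?_, ?_⟩
    · rw [c2_Q_add, QuadraticMap.map_smul, hQd, smul_zero, add_zero,
        QuadraticMap.polar_smul_right, QuadraticMap.polar_add_right, hpc _ a, hpc _ b, haw₀,
        hbw₀, smul_eq_mul, div_mul_cancel₀ _ hβ1', add_comm (Q a), ← add_assoc,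
        CharTwo.add_self_eq_zero, zero_add]
    · have h1 : QuadraticMap.polar ⇑Q a (a + b) = 0 := by
        rw [QuadraticMap.polar_add_right, c2_polar_self, hf, add_zero]
      rw [QuadraticMap.polar_add_right, QuadraticMap.polar_smul_right (a := _) (y := a + b), h1,
        smul_zero, add_zero, haw₀]
      exact one_ne_zero
    · have h1 : QuadraticMap.polar ⇑Q b (a + b) = 0 := by
        rw [QuadraticMap.polar_add_right, c2_polar_self, hba, add_zero]
      rw [hpc, QuadraticMap.polar_add_right, QuadraticMap.polar_smul_right (a := _) (y := a + b),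
        h1, smul_zero, add_zero, hbw₀]
      exact hβ0
  · push Not at hF
    have hF' : ∀ β : F, β = 0 ∨ β = 1 := by
      intro β
      by_cases h0 : β = 0
      · exact Or.inl h0
      · exact Or.inr (hF β h0)
    have hcard : Fintype.card ι ≠ 4 := by
      rcases hex with h | h
      · obtain ⟨β, h0, h1⟩ := h
        exact absurd (hF β h0) h1
      · exact h
    have haw₀ : QuadraticMap.polar ⇑Q a (p + p') = 1 := by
      rw [QuadraticMap.polar_add_right, hap, hap', add_zero]
    have hbw₀ : QuadraticMap.polar ⇑Q b (p + p') = 1 := by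
      rw [QuadraticMap.polar_add_right, hbp, hbp', zero_add]
    by_cases hz : ∃ z, QuadraticMap.polar ⇑Q a z = 0 ∧ QuadraticMap.polar ⇑Q b z = 0 ∧
        Q ((p + p') + z) ≠ 0
    · obtain ⟨z, haz, hbz, hQz⟩ := hz
      have hQa1 : Q a = 1 := (hF' (Q a)).resolve_left ha
      have hQz1 : Q ((p + p') + z) = 1 := (hF' _).resolve_left hQz
      refine ⟨(p + p') + z, hQz1.trans hQa1.symm, ?_, ?_⟩
      · rw [QuadraticMap.polar_add_right, haw₀, haz, add_zero]
        exact one_ne_zero
      · rw [hpc, QuadraticMap.polar_add_right, hbw₀, hbz, add_zero]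
        exact one_ne_zero
    · exfalso
      push Not at hz
      have hQw₀ : Q (p + p') = 0 := by
        have h1 := hz 0 (QuadraticMap.polar_zero_right _ _) (QuadraticMap.polar_zero_right _ _)
        rwa [add_zero] at h1
      have hU1 : ∀ z, QuadraticMap.polar ⇑Q a z = 0 → QuadraticMap.polar ⇑Q b z = 0 →
          Q z = QuadraticMap.polar ⇑Q (p + p') z := by
        intro z haz hbz
        have h1 := hz z haz hbz
        rw [c2_Q_add, hQw₀, zero_add] at h1
        linear_combination h1 - CharTwo.add_self_eq_zero (QuadraticMap.polar ⇑Q (p + p') z)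
      have hU2 : ∀ z z', QuadraticMap.polar ⇑Q a z = 0 → QuadraticMap.polar ⇑Q b z = 0 →
          QuadraticMap.polar ⇑Q a z' = 0 → QuadraticMap.polar ⇑Q b z' = 0 →
          QuadraticMap.polar ⇑Q z z' = 0 := by
        intro z z' haz hbz haz' hbz'
        have e1 := hU1 z haz hbz
        have e2 := hU1 z' haz' hbz'
        have e3 := hU1 (z + z') (by rw [QuadraticMap.polar_add_right, haz, haz', add_zero])
          (by rw [QuadraticMap.polar_add_right, hbz, hbz', add_zero])
        rw [c2_Q_add, QuadraticMap.polar_add_right] at e3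
        linear_combination e3 - e1 - e2
      exact hcard (c2_card_four Q hQ a b p p' hap hbp hbp' hap' hf hU2)

/-- Products of two reflections. -/
def c2P : Set ↥(Cfsg.isometryGroup F ⇑Q) :=
  {g | ∃ u v : ι → F, Q u ≠ 0 ∧ Q v ≠ 0 ∧
    ((g : Matrix.GeneralLinearGroup ι F) : Matrix ι ι F)
      = Cfsg.reflectionMatrix ⇑Q u * Cfsg.reflectionMatrix ⇑Q v}

theorem c2P_mem (u v : ι → F) (hu : Q u ≠ 0) (hv : Q v ≠ 0) :
    reflG Q u hu * reflG Q v hv ∈ c2P Q :=
  ⟨u, v, hu, hv, rfl⟩

theorem c2P_eq (g : ↥(Cfsg.isometryGroup F ⇑Q)) (u v : ι → F) (hu : Q u ≠ 0) (hv : Q v ≠ 0)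
    (hg : ((g : Matrix.GeneralLinearGroup ι F) : Matrix ι ι F)
      = Cfsg.reflectionMatrix ⇑Q u * Cfsg.reflectionMatrix ⇑Q v) :
    g = reflG Q u hu * reflG Q v hv :=
  isomG_ext Q hg

/-- Transitivity on vectors of a given nonzero norm, by products of two reflections. -/
theorem c2_trans (hQ : (QuadraticMap.polarBilin Q).Nondegenerate)
    (hex : (∃ β : F, β ≠ 0 ∧ β ≠ 1) ∨ Fintype.card ι ≠ 4)
    (a b : ι → F) (hab : Q a = Q b) (ha : Q a ≠ 0) :
    ∃ ρ ∈ Subgroup.closure (c2P Q), cdAct Q ρ a = b := by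
  by_cases hf : QuadraticMap.polar ⇑Q a b = 0
  · by_cases hne : a = b
    · exact ⟨1, Subgroup.one_mem _, by rw [cdAct_one, hne]⟩
    · obtain ⟨w, hQw, haw, hbw⟩ := c2_exists_w Q hQ hex a b hab ha hf hne
      have h1 : Q (a + w) ≠ 0 := by
        rw [c2_Q_add_of_eq Q a w hQw.symm]
        exact haw
      have h2 : Q (w + b) ≠ 0 := by
        rw [c2_Q_add_of_eq Q w b (hQw.trans hab)]
        exact hbw
      refine ⟨reflG Q (w + b) h2 * reflG Q (a + w) h1,
        Subgroup.subset_closure (c2P_mem Q _ _ h2 h1), ?_⟩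
      rw [cdAct_mul, c2_reflG_move Q a w hQw.symm h1, c2_reflG_move Q w b (hQw.trans hab) h2]
  · have h1 : Q (a + b) ≠ 0 := by
      rw [c2_Q_add_of_eq Q a b hab]
      exact hf
    refine ⟨reflG Q (a + b) h1 * reflG Q a ha,
      Subgroup.subset_closure (c2P_mem Q _ _ h1 ha), ?_⟩
    rw [cdAct_mul, c2_reflG_fix Q a ha a (c2_polar_self Q a), c2_reflG_move Q a b hab h1]

theorem c2P_le_cdR : Subgroup.closure (c2P Q) ≤ Subgroup.closure (cdR Q) := by
  rw [Subgroup.closure_le]
  rintro g ⟨u, v, hu, hv, hg⟩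
  rw [c2P_eq Q g u v hu hv hg]
  exact Subgroup.mul_mem _ (Subgroup.subset_closure ⟨u, hu, rfl⟩)
    (Subgroup.subset_closure ⟨v, hv, rfl⟩)

/-- Cartan--Dieudonne in characteristic two. -/
theorem c2_cartan_dieudonne (hQ : (QuadraticMap.polarBilin Q).Nondegenerate)
    (hsq : ∀ a : F, ∃ b, b * b = a)
    (hex : (∃ β : F, β ≠ 0 ∧ β ≠ 1) ∨ Fintype.card ι ≠ 4)
    (g : ↥(Cfsg.isometryGroup F ⇑Q)) : g ∈ Subgroup.closure (cdR Q) := by
  by_cases hns : ∃ u, Q u ≠ 0
  · obtain ⟨u, hu⟩ := hns
    obtain ⟨ρ, hρ, hρu⟩ := c2_trans Q hQ hex (cdAct Q g u) u (cdAct_iso Q g u)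
      (by rw [cdAct_iso]; exact hu)
    have h1 : ρ * g ∈ Subgroup.closure (c2R Q ⊤ u) := by
      apply c2_aux Q hQ hsq (Module.finrank F (⊤ : Submodule F (ι → F))) ⊤ le_rfl _ u
        Submodule.mem_top hu
      · intro x hx
        have h1 : x = 0 := hQ.1 x (fun y => hx y Submodule.mem_top)
        rw [h1]
        unfold cdAct
        rw [Matrix.mulVec_zero]
      · rw [cdAct_mul, hρu]
      · intro w _ hw
        exact hQ.1 w (fun y => hw y Submodule.mem_top)
    have h2 : ρ * g ∈ Subgroup.closure (cdR Q) :=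
      Subgroup.closure_mono (c2R_sub_cdR Q ⊤ u) h1
    have h3 : ρ ∈ Subgroup.closure (cdR Q) := c2P_le_cdR Q hρ
    have hg : g = ρ⁻¹ * (ρ * g) := by group
    rw [hg]
    exact Subgroup.mul_mem _ (Subgroup.inv_mem _ h3) h2
  · push Not at hns
    have hg : g = 1 := by
      apply cd_eq_one_of_act
      intro x
      have hx : ∀ y : ι → F, y = 0 := by
        intro y
        apply hQ.1 y
        intro z
        change QuadraticMap.polar ⇑Q y z = 0
        unfold QuadraticMap.polar
        rw [hns, hns, hns, sub_zero, sub_zero]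
      rw [hx x, hx (cdAct Q g 0)]
    rw [hg]
    exact Subgroup.one_mem _

theorem c2_reflG_inv (v : ι → F) (hv : Q v ≠ 0) : (reflG Q v hv)⁻¹ = reflG Q v hv := by
  rw [inv_eq_iff_mul_eq_one]
  exact isomG_ext Q (refl_mul_self Q hv)

/-- Products of two reflections are commutators. -/
theorem c2P_le_commutator (hQ : (QuadraticMap.polarBilin Q).Nondegenerate)
    (hsq : ∀ a : F, ∃ b, b * b = a)
    (hex : (∃ β : F, β ≠ 0 ∧ β ≠ 1) ∨ Fintype.card ι ≠ 4) :
    Subgroup.closure (c2P Q) ≤ commutator ↥(Cfsg.isometryGroup F ⇑Q) := by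
  rw [Subgroup.closure_le]
  rintro g ⟨u, v, hu, hv, hg⟩
  have hg' := c2P_eq Q g u v hu hv hg
  obtain ⟨c, hc⟩ := hsq (Q u / Q v)
  have hc0 : c ≠ 0 := by
    rintro rfl
    rw [mul_zero] at hc
    exact div_ne_zero hu hv hc.symm
  have hQcv : Q (c • v) = Q u := by
    rw [QuadraticMap.map_smul, hc, smul_eq_mul, div_mul_cancel₀ _ hv]
  have hcv : Q (c • v) ≠ 0 := by
    rw [hQcv]
    exact hu
  obtain ⟨h, -, hh⟩ := c2_trans Q hQ hex (c • v) u hQcv hcv
  have e1 : reflG Q (c • v) hcv = reflG Q v hv := isomG_ext Q (refl_smul Q c hc0 v)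
  have hu' : Q (cdAct Q h (c • v)) ≠ 0 := by
    rw [hh]
    exact hu
  have e2 : h * reflG Q (c • v) hcv * h⁻¹ = reflG Q (cdAct Q h (c • v)) hu' :=
    refl_conj Q h (c • v) hcv hu'
  have e3 : reflG Q (cdAct Q h (c • v)) hu' = reflG Q u hu := by
    apply isomG_ext
    rw [reflG_coe, reflG_coe, hh]
  have e4 : g = ⁅h, reflG Q v hv⁆ := by
    rw [hg', commutatorElement_def, c2_reflG_inv, ← e3, ← e2, e1]
  rw [e4, SetLike.mem_coe, commutator_def]
  exact Subgroup.commutator_mem_commutator (Subgroup.mem_top _) (Subgroup.mem_top _)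

end CDChar2

section CDGen

variable {F : Type*} [Field F] {ι : Type} [Fintype ι] [DecidableEq ι]
variable (Q : QuadraticForm F (ι → F))

/-- Products of two reflections (any characteristic). -/
def cdP : Set ↥(Cfsg.isometryGroup F ⇑Q) :=
  {g | ∃ u v : ι → F, Q u ≠ 0 ∧ Q v ≠ 0 ∧
    ((g : Matrix.GeneralLinearGroup ι F) : Matrix ι ι F)
      = Cfsg.reflectionMatrix ⇑Q u * Cfsg.reflectionMatrix ⇑Q v}

theorem cdP_normal : (Subgroup.closure (cdP Q)).Normal := by
  constructor
  intro n hn g
  induction hn using Subgroup.closure_induction with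
  | mem x hx =>
    obtain ⟨u, v, hu, hv, hx⟩ := hx
    have hx' : x = reflG Q u hu * reflG Q v hv := isomG_ext Q hx
    have hu' : Q (cdAct Q g u) ≠ 0 := by
      rw [cdAct_iso]
      exact hu
    have hv' : Q (cdAct Q g v) ≠ 0 := by
      rw [cdAct_iso]
      exact hv
    have e : g * x * g⁻¹ = reflG Q (cdAct Q g u) hu' * reflG Q (cdAct Q g v) hv' := by
      have e1 : g * reflG Q u hu * g⁻¹ = reflG Q (cdAct Q g u) hu' := refl_conj Q g u hu hu'
      have e2 : g * reflG Q v hv * g⁻¹ = reflG Q (cdAct Q g v) hv' := refl_conj Q g v hv hv'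
      rw [hx', ← e1, ← e2]
      group
    rw [e]
    exact Subgroup.subset_closure ⟨_, _, hu', hv', rfl⟩
  | one =>
    rw [mul_one, mul_inv_cancel]
    exact Subgroup.one_mem _
  | mul a b _ _ ha hb =>
    have e : g * (a * b) * g⁻¹ = (g * a * g⁻¹) * (g * b * g⁻¹) := by group
    rw [e]
    exact Subgroup.mul_mem _ ha hb
  | inv a _ ha =>
    have e : g * a⁻¹ * g⁻¹ = (g * a * g⁻¹)⁻¹ := by group
    rw [e]
    exact Subgroup.inv_mem _ ha

/-- If the isometry group is generated by reflections, its commutator subgroup is contained in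
the subgroup generated by products of two reflections. -/
theorem commutator_le_cdP (hcd : ∀ g : ↥(Cfsg.isometryGroup F ⇑Q), g ∈ Subgroup.closure (cdR Q)) :
    commutator ↥(Cfsg.isometryGroup F ⇑Q) ≤ Subgroup.closure (cdP Q) := by
  have hN := cdP_normal Q
  have hcomm : ∀ x y : ↥(Cfsg.isometryGroup F ⇑Q),
      (QuotientGroup.mk x : ↥(Cfsg.isometryGroup F ⇑Q) ⧸ Subgroup.closure (cdP Q))
        * QuotientGroup.mk y = QuotientGroup.mk y * QuotientGroup.mk x := by
    intro x y
    have hx := hcd x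
    have hy := hcd y
    induction hx, hy using Subgroup.closure_induction₂ with
    | mem r r' hr hr' =>
      obtain ⟨u, hu, hru⟩ := hr
      obtain ⟨v, hv, hrv⟩ := hr'
      have h1 : r * r' ∈ Subgroup.closure (cdP Q) :=
        Subgroup.subset_closure ⟨u, v, hu, hv, by rw [isomG_mul_coe, hru, hrv]⟩
      have h2 : r' * r ∈ Subgroup.closure (cdP Q) :=
        Subgroup.subset_closure ⟨v, u, hv, hu, by rw [isomG_mul_coe, hrv, hru]⟩
      rw [← QuotientGroup.mk_mul, ← QuotientGroup.mk_mul, (QuotientGroup.eq_one_iff _).2 h1,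
        (QuotientGroup.eq_one_iff _).2 h2]
    | one_left x hx => rw [QuotientGroup.mk_one, one_mul, mul_one]
    | one_right x hx => rw [QuotientGroup.mk_one, one_mul, mul_one]
    | mul_left x y z hx hy hz h1 h2 =>
      rw [QuotientGroup.mk_mul, mul_assoc, h2, ← mul_assoc, h1, mul_assoc]
    | mul_right y z x hy hz hx h1 h2 =>
      rw [QuotientGroup.mk_mul, ← mul_assoc, h1, mul_assoc, h2, ← mul_assoc]
    | inv_left x y hx hy h1 =>
      rw [QuotientGroup.mk_inv, inv_mul_eq_iff_eq_mul, ← mul_assoc, h1, mul_assoc,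
        mul_inv_cancel, mul_one]
    | inv_right x y hx hy h1 =>
      rw [QuotientGroup.mk_inv, eq_inv_mul_iff_mul_eq, ← mul_assoc, ← h1, mul_assoc,
        mul_inv_cancel, mul_one]
  apply Subgroup.Normal.quotient_commutative_iff_commutator_le.mp
  refine ⟨⟨fun x' y' => ?_⟩⟩
  obtain ⟨x, rfl⟩ := QuotientGroup.mk_surjective x'
  obtain ⟨y, rfl⟩ := QuotientGroup.mk_surjective y'
  exact hcomm x y

end CDGen

theorem sq_mem_commutator_of_closure {G : Type*} [Group G] (S : Set G)
    (hS : ∀ r ∈ S, r * r = 1) (x : G) (hx : x ∈ Subgroup.closure S) :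
    x * x ∈ commutator G := by
  rw [← Abelianization.ker_of, MonoidHom.mem_ker, map_mul]
  induction hx using Subgroup.closure_induction with
  | mem r hr => rw [← map_mul, hS r hr, map_one]
  | one => rw [map_one, mul_one]
  | mul a b _ _ ha hb => rw [map_mul, mul_mul_mul_comm, ha, hb, mul_one]
  | inv a _ ha => rw [map_inv, ← mul_inv, ha, inv_one]

end Cfsg.Agent.Lib.Helper17
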