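import Mathlib
import Cfsg.Agent.Lib.Helper17.CDChar2

/-!
Applications of Cartan--Dieudonne: finite-field side conditions, and the orthogonal sum of two
copies of a quadratic form with the isometry `(v₁, v₂) ↦ (g v₂, v₁)`.
-/

set_option autoImplicit false
set_option linter.unusedSectionVars false

namespace Cfsg.Agent.Lib.Helper17

open Cfsg.Agent.Lib.Helper16

theorem c2_fin_hsq {F : Type*} [Field F] [Fintype F] [CharP F 2] :
    ∀ a : F, ∃ b, b * b = a := by
  intro a
  obtain ⟨r, hr⟩ := FiniteField.isSquare_of_char_two ((ringChar.eq_iff).mpr inferInstance) a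
  exact ⟨r, hr.symm⟩

theorem c2_fin_hex {F : Type*} [Field F] [Fintype F] (h : Fintype.card F ≠ 2) :
    ∃ β : F, β ≠ 0 ∧ β ≠ 1 := by
  classical
  by_contra hcon
  push Not at hcon
  apply h
  have h1 : (Finset.univ : Finset F) ⊆ {0, 1} := by
    intro x _
    by_cases hx : x = 0
    · simp [hx]
    · simp [hcon x hx]
  have h2 : Fintype.card F ≤ 2 := by
    calc Fintype.card F = (Finset.univ : Finset F).card := rfl
      _ ≤ ({0, 1} : Finset F).card := Finset.card_le_card h1
      _ ≤ 2 := Finset.card_le_two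
  have h3 : 1 < Fintype.card F := Fintype.one_lt_card
  omega

section OrthSum

variable {F : Type*} [Field F] {ι : Type} [Fintype ι] [DecidableEq ι]
variable (Q : QuadraticForm F (ι → F))

/-- The orthogonal sum of two copies of `Q`. -/
noncomputable def sumForm : QuadraticForm F (ι ⊕ ι → F) where
  toFun v := Q (v ∘ Sum.inl) + Q (v ∘ Sum.inr)
  toFun_smul := (Q.comp (LinearMap.funLeft F F Sum.inl)
    + Q.comp (LinearMap.funLeft F F Sum.inr)).toFun_smul
  exists_companion' := (Q.comp (LinearMap.funLeft F F Sum.inl)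
    + Q.comp (LinearMap.funLeft F F Sum.inr)).exists_companion'

theorem sumForm_apply (v : ι ⊕ ι → F) : sumForm Q v = Q (v ∘ Sum.inl) + Q (v ∘ Sum.inr) := rfl

theorem sumForm_coe :
    ⇑(sumForm Q) = fun v : ι ⊕ ι → F => Q (v ∘ Sum.inl) + Q (v ∘ Sum.inr) := rfl

theorem sumForm_polar (v w : ι ⊕ ι → F) :
    QuadraticMap.polar ⇑(sumForm Q) v w
      = QuadraticMap.polar ⇑Q (v ∘ Sum.inl) (w ∘ Sum.inl)
        + QuadraticMap.polar ⇑Q (v ∘ Sum.inr) (w ∘ Sum.inr) := by
  unfold QuadraticMap.polar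
  rw [sumForm_apply, sumForm_apply, sumForm_apply]
  have e1 : (v + w) ∘ Sum.inl = v ∘ Sum.inl + w ∘ Sum.inl := rfl
  have e2 : (v + w) ∘ Sum.inr = v ∘ Sum.inr + w ∘ Sum.inr := rfl
  rw [e1, e2]
  ring

theorem sumForm_nondeg (hQ : (QuadraticMap.polarBilin Q).Nondegenerate) :
    (QuadraticMap.polarBilin (sumForm Q)).Nondegenerate := by
  have hleft : ∀ v : ι ⊕ ι → F, (∀ w, QuadraticMap.polar ⇑(sumForm Q) v w = 0) → v = 0 := by
    intro v hv
    have h1 : v ∘ Sum.inl = 0 := by
      apply hQ.1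
      intro w₁
      have h := hv (Sum.elim w₁ 0)
      rw [sumForm_polar, Sum.elim_comp_inl, Sum.elim_comp_inr,
        QuadraticMap.polar_zero_right, add_zero] at h
      exact h
    have h2 : v ∘ Sum.inr = 0 := by
      apply hQ.1
      intro w₁
      have h := hv (Sum.elim 0 w₁)
      rw [sumForm_polar, Sum.elim_comp_inl, Sum.elim_comp_inr,
        QuadraticMap.polar_zero_right, zero_add] at h
      exact h
    funext i
    cases i with
    | inl i => exact congrFun h1 i
    | inr i => exact congrFun h2 i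
  constructor
  · intro v hv
    exact hleft v hv
  · intro v hv
    apply hleft v
    intro w
    rw [QuadraticMap.polar_comm]
    exact hv w

/-- The isometry `(v₁, v₂) ↦ (g v₂, v₁)` of the orthogonal sum. -/
noncomputable def swapG (g : ↥(Cfsg.isometryGroup F ⇑Q)) :
    ↥(Cfsg.isometryGroup F ⇑(sumForm Q)) :=
  ⟨⟨Matrix.fromBlocks 0 ((g : Matrix.GeneralLinearGroup ι F) : Matrix ι ι F) 1 0,
    Matrix.fromBlocks 0 1 (((g : Matrix.GeneralLinearGroup ι F)⁻¹ :
      Matrix.GeneralLinearGroup ι F) : Matrix ι ι F) 0,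
    by
      rw [Matrix.fromBlocks_multiply]
      simp only [zero_mul, mul_zero, mul_one, zero_add, add_zero]
      rw [← Units.val_mul, mul_inv_cancel, Units.val_one, Matrix.fromBlocks_one],
    by
      rw [Matrix.fromBlocks_multiply]
      simp only [zero_mul, mul_zero, one_mul, zero_add, add_zero]
      rw [← Units.val_mul, inv_mul_cancel, Units.val_one, Matrix.fromBlocks_one]⟩,
    (mem_isometryGroup_iff (sumForm Q) _).2 fun x => by
      change sumForm Q ((Matrix.fromBlocks 0
        ((g : Matrix.GeneralLinearGroup ι F) : Matrix ι ι F) 1 0).mulVec x) = sumForm Q x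
      rw [sumForm_apply, sumForm_apply, Matrix.fromBlocks_mulVec, Sum.elim_comp_inl,
        Sum.elim_comp_inr, Matrix.zero_mulVec, Matrix.zero_mulVec, Matrix.one_mulVec, zero_add,
        add_zero, isomG_map, add_comm]⟩

theorem swapG_sq_coe (g : ↥(Cfsg.isometryGroup F ⇑Q)) :
    (((swapG Q g * swapG Q g : ↥(Cfsg.isometryGroup F ⇑(sumForm Q))) :
      Matrix.GeneralLinearGroup (ι ⊕ ι) F) : Matrix (ι ⊕ ι) (ι ⊕ ι) F)
      = Matrix.fromBlocks ((g : Matrix.GeneralLinearGroup ι F) : Matrix ι ι F) 0 0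
        ((g : Matrix.GeneralLinearGroup ι F) : Matrix ι ι F) := by
  rw [isomG_mul_coe]
  change Matrix.fromBlocks 0 ((g : Matrix.GeneralLinearGroup ι F) : Matrix ι ι F) 1 0
    * Matrix.fromBlocks 0 ((g : Matrix.GeneralLinearGroup ι F) : Matrix ι ι F) 1 0 = _
  rw [Matrix.fromBlocks_multiply]
  simp only [zero_mul, mul_zero, one_mul, mul_one, zero_add, add_zero]

/-- `diag(g, g)` lies in the commutator subgroup of the isometry group of the orthogonal sum,
as soon as that group is generated by reflections. -/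
theorem diag_mem_commutator
    (hgen : ∀ x : ↥(Cfsg.isometryGroup F ⇑(sumForm Q)), x ∈ Subgroup.closure (cdR (sumForm Q)))
    (g : ↥(Cfsg.isometryGroup F ⇑Q)) :
    ∃ x : ↥(Cfsg.isometryGroup F ⇑(sumForm Q)),
      x ∈ commutator ↥(Cfsg.isometryGroup F ⇑(sumForm Q)) ∧
      ((x : Matrix.GeneralLinearGroup (ι ⊕ ι) F) : Matrix (ι ⊕ ι) (ι ⊕ ι) F)
        = Matrix.fromBlocks ((g : Matrix.GeneralLinearGroup ι F) : Matrix ι ι F) 0 0
          ((g : Matrix.GeneralLinearGroup ι F) : Matrix ι ι F) :=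
  ⟨swapG Q g * swapG Q g,
    sq_mem_commutator_of_closure (cdR (sumForm Q)) (cd_refl_sq (sumForm Q)) (swapG Q g)
      (hgen _),
    swapG_sq_coe Q g⟩

/-- Generation by reflections over a finite field, in any characteristic. -/
theorem fin_cartan_dieudonne [Fintype F] (Q' : QuadraticForm F (ι → F))
    (hQ : (QuadraticMap.polarBilin Q').Nondegenerate)
    (hex : Fintype.card F ≠ 2 ∨ Fintype.card ι ≠ 4)
    (g : ↥(Cfsg.isometryGroup F ⇑Q')) : g ∈ Subgroup.closure (cdR Q') := by
  by_cases h2 : (2 : F) = 0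
  · have hchar : CharP F 2 := CharTwo.of_one_ne_zero_of_two_eq_zero one_ne_zero h2
    refine c2_cartan_dieudonne Q' hQ c2_fin_hsq ?_ g
    rcases hex with h | h
    · exact Or.inl (c2_fin_hex h)
    · exact Or.inr h
  · exact cartan_dieudonne Q' h2 hQ g

end OrthSum

end Cfsg.Agent.Lib.Helper17
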