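import Mathlib
import Cfsg.Agent.Lib.Helper1.PQ
import Cfsg.Agent.Lib.Helper1.ThompsonAux
import Cfsg.Agent.Lib.Helper17.ThA1

set_option autoImplicit false

/-!
Auxiliary lemmas for the `S₄`-free case of Thompson's normal `p`-complement theorem: fixed points
of `p`-groups, a `P × Q` lemma for abelian modules with commutation modulo the kernel, and the
choice of a hyperplane of an elementary abelian `2`-group acting on an abelian group of odd order.
-/

namespace Cfsg.Agent.Lib.Helper17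

open Cfsg
open scoped commutatorElement

universe u

section Aux

variable {G : Type u} [Group G]

/-- A `p`-group normalising a nontrivial `p`-group has a nontrivial fixed point in it. -/
theorem exists_fixed_of_pgroups [Finite G] {p : ℕ} [Fact p.Prime] (B : Subgroup G)
    (hB : IsPGroup p B) :
    ∀ (n : ℕ) (X : Subgroup G), Nat.card X ≤ n → IsPGroup p X →
      B ≤ Subgroup.normalizer (X : Set G) → X ≠ ⊥ → ∃ x ∈ X, x ≠ 1 ∧ ∀ b ∈ B, b * x = x * b := by
  intro n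
  induction n with
  | zero =>
    intro X hn
    have : 0 < Nat.card X := Nat.card_pos
    omega
  | succ n ih =>
    intro X hn hX hBX hne
    by_cases hc : ⁅X, B⁆ = ⊥
    · rw [Subgroup.commutator_eq_bot_iff_le_centralizer] at hc
      obtain ⟨x, hxX, hx1⟩ : ∃ x ∈ X, x ≠ 1 := by
        by_contra hcon
        push Not at hcon
        apply hne
        rw [eq_bot_iff]
        intro x hx
        exact Subgroup.mem_bot.mpr (hcon x hx)
      exact ⟨x, hxX, hx1, fun b hb => (Subgroup.mem_centralizer_iff.mp (hc hxX) b hb)⟩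
    · have hlt := Cfsg.Agent.Lib.Helper1.commutator_lt_of_pgroups hX hB hBX hne
      have hBN : B ≤ Subgroup.normalizer ((⁅X, B⁆ : Subgroup G) : Set G) :=
        le_sup_right.trans (Cfsg.Agent.Lib.Helper1.commutator_normalizer hBX)
      have hcard : Nat.card (⁅X, B⁆ : Subgroup G) ≤ n := by
        have := card_lt_of_lt' hlt
        omega
      obtain ⟨x, hx, hx1, hxb⟩ := ih ⁅X, B⁆ hcard (hX.to_le hlt.le) hBN hc
      exact ⟨x, hlt.le hx, hx1, hxb⟩

theorem tau_pow {y v : G} (x : G) (hx : x = v⁻¹ * (y * v * y⁻¹)) (hyx : y * x = x * y) (k : ℕ) :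
    x ^ k = v⁻¹ * (y ^ k * v * (y ^ k)⁻¹) := by
  induction k with
  | zero => simp
  | succ k ih =>
    have hc : (y ^ k)⁻¹ * x = x * (y ^ k)⁻¹ := by
      have h1 : Commute y x := hyx
      exact ((h1.pow_left k).inv_left).eq
    calc x ^ (k + 1) = x ^ k * x := pow_succ x k
      _ = v⁻¹ * (y ^ k * v * (y ^ k)⁻¹) * x := by rw [ih]
      _ = v⁻¹ * (y ^ k * v) * ((y ^ k)⁻¹ * x) := by group
      _ = v⁻¹ * (y ^ k * v) * (x * (y ^ k)⁻¹) := by rw [hc]
      _ = v⁻¹ * (y ^ k * v) * (v⁻¹ * (y * v * y⁻¹) * (y ^ k)⁻¹) := by rw [← hx]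
      _ = v⁻¹ * (y ^ (k + 1) * v * (y ^ (k + 1))⁻¹) := by
        rw [pow_succ]
        group

/-- A `P × Q` lemma for an abelian normal `p`-subgroup `V`: `B` a `p`-group, `y` acting on `V` as
a `p'`-element and commuting with `B` modulo `C(V)`; if `y` centralises `C_V(B)`, then `y`
centralises `V`. -/
theorem pq_abelian [Finite G] {p : ℕ} [Fact p.Prime] (V B : Subgroup G) [V.Normal]
    (hVp : IsPGroup p V) (hVc : ∀ a ∈ V, ∀ b ∈ V, a * b = b * a) (hB : IsPGroup p B)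
    (y : G) (n : ℕ) (hn : n.Coprime p) (hyn : y ^ n ∈ Subgroup.centralizer (V : Set G))
    (hyB : ∀ b ∈ B, b * y * b⁻¹ * y⁻¹ ∈ Subgroup.centralizer (V : Set G))
    (hW : ∀ w ∈ V, (∀ b ∈ B, b * w = w * b) → y * w = w * y) :
    y ∈ Subgroup.centralizer (V : Set G) := by
  have hVn : ∀ (g : G), ∀ v ∈ V, g * v * g⁻¹ ∈ V := fun g v hv =>
    (inferInstance : V.Normal).conj_mem v hv g
  obtain ⟨τ, hτ⟩ : ∃ τ : V →* G, ∀ v : V, τ v = (v : G)⁻¹ * (y * v * y⁻¹) := by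
    refine ⟨MonoidHom.mk' (fun v : V => (v : G)⁻¹ * (y * v * y⁻¹)) ?_, fun v => rfl⟩
    intro a b
    have h1 : (b : G)⁻¹ * ((a : G)⁻¹ * (y * a * y⁻¹)) = ((a : G)⁻¹ * (y * a * y⁻¹)) * (b : G)⁻¹ :=
      hVc _ (V.inv_mem b.2) _ (V.mul_mem (V.inv_mem a.2) (hVn y a a.2))
    calc ((a * b : V) : G)⁻¹ * (y * ((a * b : V) : G) * y⁻¹)
        = (b : G)⁻¹ * ((a : G)⁻¹ * (y * a * y⁻¹)) * (y * b * y⁻¹) := by
          rw [Subgroup.coe_mul]
          group
      _ = ((a : G)⁻¹ * (y * a * y⁻¹)) * (b : G)⁻¹ * (y * b * y⁻¹) := by rw [h1]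
      _ = (a : G)⁻¹ * (y * a * y⁻¹) * ((b : G)⁻¹ * (y * b * y⁻¹)) := by group
  obtain ⟨X, hXdef⟩ : ∃ X : Subgroup G, X = τ.range := ⟨_, rfl⟩
  have hXV : X ≤ V := by
    rw [hXdef]
    rintro _ ⟨v, rfl⟩
    rw [hτ]
    exact V.mul_mem (V.inv_mem v.2) (hVn y v v.2)
  have hBX : B ≤ Subgroup.normalizer (X : Set G) := by
    intro b hb
    apply Cfsg.Agent.Lib.Helper19.mem_normalizer_of_forall_conj_mem
    intro x hx
    rw [hXdef] at hx ⊢
    obtain ⟨v, rfl⟩ := hx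
    refine ⟨⟨b * v * b⁻¹, hVn b v v.2⟩, ?_⟩
    rw [hτ, hτ]
    have hc := hyB b hb
    rw [Subgroup.mem_centralizer_iff] at hc
    have h1 := hc (y * (b * v * b⁻¹) * y⁻¹) (hVn y _ (hVn b v v.2))
    change (b * (v : G) * b⁻¹)⁻¹ * (y * (b * (v : G) * b⁻¹) * y⁻¹) = b * ((v : G)⁻¹ * (y * v * y⁻¹)) * b⁻¹
    calc (b * (v : G) * b⁻¹)⁻¹ * (y * (b * (v : G) * b⁻¹) * y⁻¹)
        = (b * (v : G) * b⁻¹)⁻¹ * ((y * (b * (v : G) * b⁻¹) * y⁻¹) * (b * y * b⁻¹ * y⁻¹)) *
            (b * y * b⁻¹ * y⁻¹)⁻¹ := by group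
      _ = (b * (v : G) * b⁻¹)⁻¹ * ((b * y * b⁻¹ * y⁻¹) * (y * (b * (v : G) * b⁻¹) * y⁻¹)) *
            (b * y * b⁻¹ * y⁻¹)⁻¹ := by rw [h1]
      _ = b * ((v : G)⁻¹ * (y * v * y⁻¹)) * b⁻¹ := by group
  by_cases hX : X = ⊥
  · rw [Subgroup.mem_centralizer_iff]
    intro v hv
    have h1 : τ ⟨v, hv⟩ ∈ X := hXdef ▸ ⟨_, rfl⟩
    rw [hX, Subgroup.mem_bot, hτ] at h1
    have h2 : y * v * y⁻¹ = v := by
      have : y * v * y⁻¹ = v * (v⁻¹ * (y * v * y⁻¹)) := by group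
      rw [this, h1, mul_one]
    calc v * y = (y * v * y⁻¹) * y := by rw [h2]
      _ = y * v := by group
  · exfalso
    obtain ⟨x, hxX, hx1, hxb⟩ := exists_fixed_of_pgroups B hB _ X le_rfl (hVp.to_le hXV) hBX hX
    have hyx := hW x (hXV hxX) hxb
    rw [hXdef] at hxX
    obtain ⟨v, hv⟩ := hxX
    rw [hτ] at hv
    have hpow := tau_pow x hv.symm hyx n
    have h1 : y ^ n * (v : G) * (y ^ n)⁻¹ = v := by
      have := (Subgroup.mem_centralizer_iff.mp hyn) v v.2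
      rw [← this, mul_inv_cancel_right]
    rw [h1, inv_mul_cancel] at hpow
    apply hx1
    apply Cfsg.Agent.Lib.Helper1.eq_one_of_pgroup_of_coprime hVp (hXV (hXdef ▸ ⟨v, by rw [hτ]; exact hv⟩))
    exact Nat.Coprime.coprime_dvd_left (orderOf_dvd_of_pow_eq_one hpow) hn

theorem card_le_two_mul [Finite G] {A B : Subgroup G} (a : G)
    (h : ∀ x ∈ A, x ∈ B ∨ x * a ∈ B) : Nat.card A ≤ 2 * Nat.card B := by
  classical
  have hf : ∀ x : A, (x : G) ∉ B → (x : G) * a ∈ B := fun x hx => (h x x.2).resolve_left hx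
  let f : A → B × Bool := fun x =>
    if hx : (x : G) ∈ B then (⟨x, hx⟩, true) else (⟨(x : G) * a, hf x hx⟩, false)
  have hinj : Function.Injective f := by
    intro x x' hxx'
    by_cases hx : (x : G) ∈ B
    · by_cases hx' : (x' : G) ∈ B
      · simp only [f, dif_pos hx, dif_pos hx', Prod.mk.injEq, Subtype.mk.injEq, and_true] at hxx'
        exact Subtype.ext hxx'
      · simp only [f, dif_pos hx, dif_neg hx', Prod.mk.injEq, Subtype.mk.injEq] at hxx'
        exact absurd hxx'.2 (by simp)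
    · by_cases hx' : (x' : G) ∈ B
      · simp only [f, dif_neg hx, dif_pos hx', Prod.mk.injEq, Subtype.mk.injEq] at hxx'
        exact absurd hxx'.2 (by simp)
      · simp only [f, dif_neg hx, dif_neg hx', Prod.mk.injEq, Subtype.mk.injEq, and_true] at hxx'
        exact Subtype.ext (mul_right_cancel hxx')
  have h1 := Nat.card_le_card_of_injective f hinj
  rw [Nat.card_prod, Nat.card_eq_fintype_card (α := Bool), Fintype.card_bool] at h1
  omega

end Aux

section Hyper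

variable {Q : Type u} [Group Q]

set_option maxHeartbeats 800000 in
/-- An elementary abelian `2`-group `Ab` acting nontrivially on an abelian group `Kb` of odd
exponent has a subgroup `Bb` of index two and an element `a ∉ Bb` inverting a nontrivial element
of `C_Kb(Bb)`. -/
theorem exists_hyperplane [Finite Q] (Kb Ab : Subgroup Q)
    (hKc : ∀ a ∈ Kb, ∀ b ∈ Kb, a * b = b * a) (m : ℕ) (hm : Odd m) (hKm : ∀ k ∈ Kb, k ^ m = 1)
    (hAK : Ab ≤ Subgroup.normalizer (Kb : Set Q)) (hAc : ∀ a ∈ Ab, ∀ b ∈ Ab, a * b = b * a)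
    (hA2 : ∀ a ∈ Ab, a * a = 1) (hnc : ¬ Ab ≤ Subgroup.centralizer (Kb : Set Q)) :
    ∃ Bb : Subgroup Q, Bb ≤ Ab ∧ ∃ a ∈ Ab, a ∉ Bb ∧ (∀ x ∈ Ab, x ∈ Bb ∨ x * a ∈ Bb) ∧
      ∃ z ∈ Kb, z ≠ 1 ∧ (∀ b ∈ Bb, b * z = z * b) ∧ a * z * a⁻¹ = z⁻¹ := by
  classical
  obtain ⟨𝒮, h𝒮⟩ : ∃ 𝒮 : Set (Subgroup Q), 𝒮 = {Bb | Bb ≤ Ab ∧ ∃ k ∈ Kb,
      (∀ b ∈ Bb, b * k = k * b) ∧ ∃ a ∈ Ab, a * k ≠ k * a} := ⟨_, rfl⟩
  have hne : 𝒮.Nonempty := by
    obtain ⟨a, haA, haC⟩ := SetLike.not_le_iff_exists.mp hnc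
    rw [Subgroup.mem_centralizer_iff] at haC
    push Not at haC
    obtain ⟨k, hk, hka⟩ := haC
    refine ⟨⊥, ?_⟩
    rw [h𝒮]
    refine ⟨bot_le, k, hk, ?_, a, haA, fun h => hka h.symm⟩
    intro b hb
    rw [Subgroup.mem_bot] at hb
    rw [hb, one_mul, mul_one]
  obtain ⟨Bb, hBb, hmax⟩ := Set.exists_max_image 𝒮 (fun B : Subgroup Q => Nat.card B)
    (Set.toFinite _) hne
  rw [h𝒮] at hBb
  obtain ⟨hBA, k₀, hk₀, hk₀B, a₁, ha₁, ha₁k⟩ := hBb
  have hconjK : ∀ s ∈ Ab, ∀ k ∈ Kb, s * k * s⁻¹ ∈ Kb := fun s hs k hk =>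
    ((Subgroup.mem_normalizer_iff.mp (hAK hs)) k).mp hk
  have hinv : ∀ s ∈ Ab, s⁻¹ = s := fun s hs => inv_eq_of_mul_eq_one_left (hA2 s hs)
  -- the key consequence of maximality
  have hstar : ∀ s ∈ Ab, s ∉ Bb → ∀ k ∈ Kb, (∀ b ∈ Bb, b * k = k * b) → s * k = k * s →
      ∀ a ∈ Ab, a * k = k * a := by
    intro s hs hsB k hk hkB hsk a ha
    by_contra hne'
    have hle : Bb ⊔ Subgroup.zpowers s ≤ Subgroup.centralizer ({k} : Set Q) := by
      refine sup_le ?_ ((Subgroup.zpowers_le).mpr ?_)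
      · intro b hb
        rw [Subgroup.mem_centralizer_iff]
        intro h hh
        rw [Set.mem_singleton_iff] at hh
        rw [hh]
        exact (hkB b hb).symm
      · rw [Subgroup.mem_centralizer_iff]
        intro h hh
        rw [Set.mem_singleton_iff] at hh
        rw [hh]
        exact hsk.symm
    have hmem : (Bb ⊔ Subgroup.zpowers s) ∈ 𝒮 := by
      rw [h𝒮]
      refine ⟨sup_le hBA ((Subgroup.zpowers_le).mpr hs), k, hk, ?_, a, ha, hne'⟩
      intro b hb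
      exact ((Subgroup.mem_centralizer_iff.mp (hle hb)) k rfl).symm
    have h1 := hmax _ hmem
    have hlt : Bb < Bb ⊔ Subgroup.zpowers s := by
      refine lt_of_le_of_ne le_sup_left ?_
      intro h
      apply hsB
      rw [h]
      exact Subgroup.mem_sup_right (Subgroup.mem_zpowers s)
    exact absurd h1 (not_le.mpr (card_lt_of_lt' hlt))
  have ha₁B : a₁ ∉ Bb := fun h => ha₁k (hk₀B a₁ h)
  -- conjugates commute with `Bb`
  have hconjB : ∀ s ∈ Ab, ∀ k : Q, (∀ b ∈ Bb, b * k = k * b) →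
      ∀ b ∈ Bb, b * (s * k * s⁻¹) = (s * k * s⁻¹) * b := by
    intro s hs k hkB b hb
    have h1 : Commute b s := hAc b (hBA hb) s hs
    have h2 : Commute b k := hkB b hb
    exact ((h1.mul_right h2).mul_right h1.inv_right).eq
  -- first step: one involution
  have hstep : ∀ s ∈ Ab, s ∉ Bb → ∀ k ∈ Kb, (∀ b ∈ Bb, b * k = k * b) →
      (∀ a ∈ Ab, a * (k * (s * k * s⁻¹)) = (k * (s * k * s⁻¹)) * a) := by
    intro s hs hsB k hk hkB
    apply hstar s hs hsB _ (Kb.mul_mem hk (hconjK s hs k hk))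
    · intro b hb
      have h1 : Commute b k := hkB b hb
      have h2 : Commute b (s * k * s⁻¹) := hconjB s hs k hkB b hb
      exact (h1.mul_right h2).eq
    · have h1 := hKc k hk _ (hconjK s hs k hk)
      have h2 := hA2 s hs
      have h3 := hinv s hs
      calc s * (k * (s * k * s⁻¹)) = (s * k * s⁻¹) * ((s * s) * k * (s * s)⁻¹) * s := by group
        _ = (s * k * s⁻¹) * k * s := by rw [h2]; group
        _ = k * (s * k * s⁻¹) * s := by rw [← h1]
  -- the dichotomy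
  have hdich : ∀ x ∈ Ab, x ∈ Bb ∨ x * a₁ ∈ Bb := by
    intro t ht
    by_contra hcon
    push Not at hcon
    obtain ⟨htB, htsB⟩ := hcon
    apply ha₁k
    obtain ⟨s, hsdef⟩ : ∃ s, s = a₁ := ⟨_, rfl⟩
    rw [← hsdef] at htsB ha₁B ha₁ ⊢
    have hs := ha₁
    have hsB := ha₁B
    obtain ⟨k, hkdef⟩ : ∃ k, k = k₀ := ⟨_, rfl⟩
    rw [← hkdef] at hk₀ hk₀B ⊢
    have hk := hk₀
    have hkB := hk₀B
    have hts : t * s = s * t := hAc t ht s hs
    have hstA : s * t ∈ Ab := Ab.mul_mem hs ht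
    have hstB : s * t ∉ Bb := fun h => htsB (hts ▸ h)
    -- u = k * k^s is centralised by Ab
    obtain ⟨ks, hksdef⟩ : ∃ ks, ks = s * k * s⁻¹ := ⟨_, rfl⟩
    have hks : ks ∈ Kb := hksdef ▸ hconjK s hs k hk
    have hksB : ∀ b ∈ Bb, b * ks = ks * b := hksdef ▸ hconjB s hs k hkB
    have hu : ∀ a ∈ Ab, a * (k * ks) = (k * ks) * a := hksdef ▸ hstep s hs hsB k hk hkB
    -- w = k * (k^s)⁻¹ is inverted by s
    obtain ⟨w, hwdef⟩ : ∃ w, w = k * ks⁻¹ := ⟨_, rfl⟩
    have hw : w ∈ Kb := hwdef ▸ Kb.mul_mem hk (Kb.inv_mem hks)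
    have hwB : ∀ b ∈ Bb, b * w = w * b := by
      intro b hb
      have h1 : Commute b k := hkB b hb
      have h2 : Commute b ks := hksB b hb
      rw [hwdef]
      exact (h1.mul_right h2.inv_right).eq
    have hsw : s * w * s⁻¹ = w⁻¹ := by
      have h1 := hKc k hk _ (Kb.inv_mem hks)
      have h2 := hA2 s hs
      rw [hwdef, hksdef] at *
      calc s * (k * (s * k * s⁻¹)⁻¹) * s⁻¹ = (s * k * s⁻¹) * ((s * s) * k * (s * s)⁻¹)⁻¹ := by group
        _ = (s * k * s⁻¹) * k⁻¹ := by rw [h2]; group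
        _ = (k * (s * k * s⁻¹)⁻¹)⁻¹ := by group
    -- second step with t applied to w
    obtain ⟨wt, hwtdef⟩ : ∃ wt, wt = t * w * t⁻¹ := ⟨_, rfl⟩
    have hwt : wt ∈ Kb := hwtdef ▸ hconjK t ht w hw
    have hwtB : ∀ b ∈ Bb, b * wt = wt * b := hwtdef ▸ hconjB t ht w hwB
    have hu' : ∀ a ∈ Ab, a * (w * wt) = (w * wt) * a := hwtdef ▸ hstep t ht htB w hw hwB
    -- w' = w * wt⁻¹ is fixed by s * t
    obtain ⟨w', hw'def⟩ : ∃ w', w' = w * wt⁻¹ := ⟨_, rfl⟩
    have hw' : w' ∈ Kb := hw'def ▸ Kb.mul_mem hw (Kb.inv_mem hwt)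
    have hw'B : ∀ b ∈ Bb, b * w' = w' * b := by
      intro b hb
      have h1 : Commute b w := hwB b hb
      have h2 : Commute b wt := hwtB b hb
      rw [hw'def]
      exact (h1.mul_right h2.inv_right).eq
    have hswt : s * wt * s⁻¹ = wt⁻¹ := by
      rw [hwtdef]
      calc s * (t * w * t⁻¹) * s⁻¹ = (s * t) * w * (s * t)⁻¹ := by group
        _ = (t * s) * w * (t * s)⁻¹ := by rw [hts]
        _ = t * (s * w * s⁻¹) * t⁻¹ := by group
        _ = t * w⁻¹ * t⁻¹ := by rw [hsw]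
        _ = (t * w * t⁻¹)⁻¹ := by group
    have htwt : t * wt * t⁻¹ = w := by
      have h2 := hA2 t ht
      rw [hwtdef]
      calc t * (t * w * t⁻¹) * t⁻¹ = (t * t) * w * (t * t)⁻¹ := by group
        _ = w := by rw [h2]; group
    have hw'st : (s * t) * w' = w' * (s * t) := by
      have h1 := hKc w hw wt hwt
      have e1 : (s * t) * w' * (s * t)⁻¹ = w' := by
        rw [hw'def]
        calc (s * t) * (w * wt⁻¹) * (s * t)⁻¹
            = s * ((t * w * t⁻¹) * (t * wt * t⁻¹)⁻¹) * s⁻¹ := by group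
          _ = s * (wt * w⁻¹) * s⁻¹ := by rw [htwt, ← hwtdef]
          _ = (s * wt * s⁻¹) * (s * w * s⁻¹)⁻¹ := by group
          _ = wt⁻¹ * w := by rw [hswt, hsw, inv_inv]
          _ = (w⁻¹ * wt)⁻¹ := by group
          _ = (wt * w⁻¹)⁻¹ := by
            have : w⁻¹ * wt = wt * w⁻¹ := by
              calc w⁻¹ * wt = w⁻¹ * (wt * w) * w⁻¹ := by group
                _ = w⁻¹ * (w * wt) * w⁻¹ := by rw [h1]
                _ = wt * w⁻¹ := by group
            rw [this]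
          _ = w * wt⁻¹ := by group
      calc (s * t) * w' = ((s * t) * w' * (s * t)⁻¹) * (s * t) := by group
        _ = w' * (s * t) := by rw [e1]
    have hcw' : ∀ a ∈ Ab, a * w' = w' * a := hstar (s * t) hstA hstB w' hw' hw'B hw'st
    -- `Ab` centralises `w * w` and `k * k * (k * k)`
    have hww : w * w = (w * wt) * w' := by
      have h1 := hKc w hw wt hwt
      rw [hw'def]
      calc w * w = w * (w * wt) * wt⁻¹ := by group
        _ = w * (wt * w) * wt⁻¹ := by rw [h1]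
        _ = (w * wt) * (w * wt⁻¹) := by group
    have hcww : ∀ a ∈ Ab, a * (w * w) = (w * w) * a := by
      intro a ha
      have h1 : Commute a (w * wt) := hu' a ha
      have h2 : Commute a w' := hcw' a ha
      rw [hww]
      exact (h1.mul_right h2).eq
    have hk4 : k * k * (k * k) = (k * ks) * (k * ks) * (w * w) := by
      have h1 : Commute k ks := hKc k hk ks hks
      have h2 : Commute k w := hKc k hk w hw
      have h3 : Commute ks w := hKc ks hks w hw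
      have h4 : Commute ks ks⁻¹ := (Commute.refl ks).inv_right
      rw [hwdef] at h2 h3 ⊢
      have e1 : (k * ks) * (k * ks⁻¹) = k * k := by
        calc (k * ks) * (k * ks⁻¹) = k * (ks * k) * ks⁻¹ := by group
          _ = k * (k * ks) * ks⁻¹ := by rw [h1.eq]
          _ = k * k := by group
      have h5 : Commute (k * ks) (k * ks⁻¹) := (h2.mul_left h3)
      calc k * k * (k * k) = ((k * ks) * (k * ks⁻¹)) * ((k * ks) * (k * ks⁻¹)) := by rw [e1]
        _ = (k * ks) * ((k * ks⁻¹) * (k * ks)) * (k * ks⁻¹) := by group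
        _ = (k * ks) * ((k * ks) * (k * ks⁻¹)) * (k * ks⁻¹) := by rw [h5.eq]
        _ = (k * ks) * (k * ks) * ((k * ks⁻¹) * (k * ks⁻¹)) := by group
    have hck4 : Commute s (k * k * (k * k)) := by
      have h1 : Commute s (k * ks) := hu s hs
      have h2 : Commute s (w * w) := hcww s hs
      rw [hk4]
      exact ((h1.mul_right h1).mul_right h2)
    obtain ⟨c, hc⟩ := hm
    have hkpow : (k * k * (k * k)) ^ ((c + 1) * (c + 1)) = k := by
      have e1 : k * k * (k * k) = k ^ 4 := by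
        rw [show (4 : ℕ) = 2 + 2 from rfl, pow_add, pow_two]
      rw [e1, ← pow_mul]
      have e2 : 4 * ((c + 1) * (c + 1)) = m * (m + 2) + 1 := by
        rw [hc]; ring
      rw [e2, pow_succ, pow_mul, hKm k hk, one_pow, one_mul]
    have hfin : Commute s k := by
      have := hck4.pow_right ((c + 1) * (c + 1))
      rwa [hkpow] at this
    exact hfin.eq
  -- conclusion
  refine ⟨Bb, hBA, a₁, ha₁, ha₁B, hdich, k₀⁻¹ * (a₁ * k₀ * a₁⁻¹),
    Kb.mul_mem (Kb.inv_mem hk₀) (hconjK a₁ ha₁ k₀ hk₀), ?_, ?_, ?_⟩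
  · intro h
    apply ha₁k
    have h1 : a₁ * k₀ * a₁⁻¹ = k₀ := by
      calc a₁ * k₀ * a₁⁻¹ = k₀ * (k₀⁻¹ * (a₁ * k₀ * a₁⁻¹)) := by group
        _ = k₀ := by rw [h, mul_one]
    calc a₁ * k₀ = (a₁ * k₀ * a₁⁻¹) * a₁ := by group
      _ = k₀ * a₁ := by rw [h1]
  · intro b hb
    have h1 : Commute b k₀ := hk₀B b hb
    have h2 : Commute b (a₁ * k₀ * a₁⁻¹) := hconjB a₁ ha₁ k₀ hk₀B b hb
    exact (h1.inv_right.mul_right h2).eq
  · have h2 := hA2 a₁ ha₁
    calc a₁ * (k₀⁻¹ * (a₁ * k₀ * a₁⁻¹)) * a₁⁻¹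
        = (a₁ * k₀ * a₁⁻¹)⁻¹ * ((a₁ * a₁) * k₀ * (a₁ * a₁)⁻¹) := by group
      _ = (a₁ * k₀ * a₁⁻¹)⁻¹ * k₀ := by rw [h2]; group
      _ = (k₀⁻¹ * (a₁ * k₀ * a₁⁻¹))⁻¹ := by group

end Hyper

end Cfsg.Agent.Lib.Helper17
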