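import Mathlib
import Cfsg.Agent.Lib.Helper17.ThA2
import Cfsg.Agent.Lib.Helper17.S4Rec
import Cfsg.Agent.Lib.Helper1.ThompsonPC
import Cfsg.Agent.Lib.Helper6.Thompson
import Cfsg.Agent.Lib.Helper20.OrbitCard

set_option autoImplicit false

/-!
The final step of Thompson's normal `p`-complement theorem for `p = 2`: in the minimal
configuration, an abelian subgroup of largest order of the Sylow `2`-subgroup that is not
contained in `O₂(G)` produces a section isomorphic to the symmetric group of degree four.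
-/

namespace Cfsg.Agent.Lib.Helper17

open Cfsg

universe u

variable {G : Type u} [Group G]

theorem comm_sup {X Y : Subgroup G} (hX : ∀ a ∈ X, ∀ b ∈ X, a * b = b * a)
    (hY : ∀ a ∈ Y, ∀ b ∈ Y, a * b = b * a) (hXY : ∀ x ∈ X, ∀ y ∈ Y, x * y = y * x) :
    ∀ a ∈ X ⊔ Y, ∀ b ∈ X ⊔ Y, a * b = b * a := by
  have key : ∀ g : G, (∀ x ∈ X, x * g = g * x) → (∀ y ∈ Y, y * g = g * y) →
      ∀ a ∈ X ⊔ Y, a * g = g * a := by
    intro g h1 h2 a ha
    have hle : X ⊔ Y ≤ Subgroup.centralizer ({g} : Set G) := by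
      refine sup_le ?_ ?_
      · intro x hx
        rw [Subgroup.mem_centralizer_iff]
        intro h hh
        rw [Set.mem_singleton_iff] at hh
        rw [hh]
        exact (h1 x hx).symm
      · intro y hy
        rw [Subgroup.mem_centralizer_iff]
        intro h hh
        rw [Set.mem_singleton_iff] at hh
        rw [hh]
        exact (h2 y hy).symm
    exact ((Subgroup.mem_centralizer_iff.mp (hle ha)) g rfl).symm
  intro a ha b hb
  apply key b _ _ a ha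
  · intro x hx
    exact (key x (fun x' hx' => hX x' hx' x hx) (fun y hy => (hXY x hx y hy).symm) b hb).symm
  · intro y hy
    exact (key y (fun x hx => hXY x hx y hy) (fun y' hy' => hY y' hy' y hy) b hb).symm

set_option maxHeartbeats 3200000 in
theorem two_final [Finite G] (P H K V A : Subgroup G) [H.Normal] [K.Normal] [V.Normal]
    (hPp : IsPGroup 2 P) (hHP : H ≤ P)
    (hVH : V ≤ H) (hVc : ∀ a ∈ V, ∀ b ∈ V, a * b = b * a) (hV2 : ∀ v ∈ V, v * v = 1)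
    (hHCV : H ≤ Subgroup.centralizer (V : Set G)) (hCV : Subgroup.centralizer (V : Set G) ≤ H)
    (hKab : ∀ a ∈ K, ∀ b ∈ K, a * b * a⁻¹ * b⁻¹ ∈ H)
    (q : ℕ) [Fact q.Prime] (hq2 : q ≠ 2) (c : ℕ) (hKq : ∀ x ∈ K, x ^ (q ^ c) ∈ H)
    (hfaith : ∀ s ∈ P, (∀ k ∈ K, s * k * s⁻¹ * k⁻¹ ∈ H) → s ∈ H)
    (hA : A ∈ maxAb P) (hAH : ¬ A ≤ H) (hVA : V ≤ Subgroup.normalizer (A : Set G)) :
    Cfsg.Involves (Equiv.Perm (Fin 4)) G := by
  classical
  haveI : Fact (Nat.Prime 2) := ⟨Nat.prime_two⟩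
  have hqp : q.Prime := Fact.out
  obtain ⟨hAP, hAc, hAmax⟩ := hA
  have hHp : IsPGroup 2 H := hPp.to_le hHP
  have hVP : V ≤ P := hVH.trans hHP
  have hVp : IsPGroup 2 V := hPp.to_le hVP
  have hVn : ∀ (g : G), ∀ v ∈ V, g * v * g⁻¹ ∈ V := fun g v hv =>
    (inferInstance : V.Normal).conj_mem v hv g
  have hHV : ∀ h ∈ H, ∀ v ∈ V, h * v = v * h := fun h hh v hv =>
    ((Subgroup.mem_centralizer_iff.mp (hHCV hh)) v hv).symm
  obtain ⟨m, hmdef⟩ : ∃ m, m = q ^ c := ⟨_, rfl⟩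
  have hqodd : Odd q := hqp.eq_two_or_odd'.resolve_left hq2
  have hmodd : Odd m := hmdef ▸ hqodd.pow
  obtain ⟨c', hc'⟩ := hmodd
  have hmodd : Odd m := ⟨c', hc'⟩
  -- (T1) squares of elements of `A` lie in `H`
  have ha2 : ∀ a ∈ A, a * a ∈ H := by
    intro a ha
    apply hCV
    rw [Subgroup.mem_centralizer_iff]
    intro v hv
    have hwA : a * v * a⁻¹ * v⁻¹ ∈ A := by
      have h1 : v * a⁻¹ * v⁻¹ ∈ A :=
        ((Subgroup.mem_normalizer_iff.mp (hVA hv)) a⁻¹).mp (A.inv_mem ha)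
      have : a * v * a⁻¹ * v⁻¹ = a * (v * a⁻¹ * v⁻¹) := by group
      rw [this]
      exact A.mul_mem ha h1
    have hwV : a * v * a⁻¹ * v⁻¹ ∈ V := V.mul_mem (hVn a v hv) (V.inv_mem hv)
    have h1 : a * (a * v * a⁻¹ * v⁻¹) = (a * v * a⁻¹ * v⁻¹) * a := hAc a ha _ hwA
    have h2 := hV2 _ hwV
    have h3 : a * a * v * (a * a)⁻¹ = v := by
      calc a * a * v * (a * a)⁻¹
          = (a * (a * v * a⁻¹ * v⁻¹)) * a⁻¹ * (a * v * a⁻¹ * v⁻¹) * v := by group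
        _ = ((a * v * a⁻¹ * v⁻¹) * a) * a⁻¹ * (a * v * a⁻¹ * v⁻¹) * v := by rw [h1]
        _ = ((a * v * a⁻¹ * v⁻¹) * (a * v * a⁻¹ * v⁻¹)) * v := by group
        _ = v := by rw [h2, one_mul]
    calc v * (a * a) = (a * a * v * (a * a)⁻¹) * (a * a) := by rw [h3]
      _ = (a * a) * v := by group
  -- (T2) the quotient
  obtain ⟨π, hπdef⟩ : ∃ π : G →* G ⧸ H, π = QuotientGroup.mk' H := ⟨_, rfl⟩
  have hπs : Function.Surjective π := hπdef ▸ QuotientGroup.mk'_surjective H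
  have hπker : ∀ g : G, π g = 1 ↔ g ∈ H := by
    intro g
    rw [hπdef]
    exact QuotientGroup.eq_one_iff g
  obtain ⟨Kb, hKbdef⟩ : ∃ Kb : Subgroup (G ⧸ H), Kb = K.map π := ⟨_, rfl⟩
  obtain ⟨Ab, hAbdef⟩ : ∃ Ab : Subgroup (G ⧸ H), Ab = A.map π := ⟨_, rfl⟩
  have hKbc : ∀ a ∈ Kb, ∀ b ∈ Kb, a * b = b * a := by
    rw [hKbdef]
    rintro _ ⟨a, ha, rfl⟩ _ ⟨b, hb, rfl⟩
    have h1 := (hπker _).mpr (hKab a ha b hb)
    simp only [map_mul, map_inv] at h1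
    calc π a * π b = (π a * π b * (π a)⁻¹ * (π b)⁻¹) * (π b * π a) := by group
      _ = π b * π a := by rw [h1, one_mul]
  have hKbm : ∀ k ∈ Kb, k ^ m = 1 := by
    rw [hKbdef]
    rintro _ ⟨k, hk, rfl⟩
    rw [← map_pow, hπker, hmdef]
    exact hKq k hk
  have hAK : Ab ≤ Subgroup.normalizer (Kb : Set (G ⧸ H)) := by
    haveI : Kb.Normal := by
      rw [hKbdef]
      exact Subgroup.Normal.map inferInstance π hπs
    rw [Subgroup.normalizer_eq_top]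
    exact le_top
  have hAbc : ∀ a ∈ Ab, ∀ b ∈ Ab, a * b = b * a := by
    rw [hAbdef]
    rintro _ ⟨a, ha, rfl⟩ _ ⟨b, hb, rfl⟩
    rw [← map_mul, ← map_mul, hAc a ha b hb]
  have hAb2 : ∀ a ∈ Ab, a * a = 1 := by
    rw [hAbdef]
    rintro _ ⟨a, ha, rfl⟩
    rw [← map_mul, hπker]
    exact ha2 a ha
  have hnc : ¬ Ab ≤ Subgroup.centralizer (Kb : Set (G ⧸ H)) := by
    intro hle
    apply hAH
    intro a ha
    apply hfaith a (hAP ha)
    intro k hk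
    rw [← hπker]
    have h1 : π a ∈ Subgroup.centralizer (Kb : Set (G ⧸ H)) := hle (hAbdef ▸ ⟨a, ha, rfl⟩)
    have h2 := (Subgroup.mem_centralizer_iff.mp h1) (π k) (hKbdef ▸ ⟨k, hk, rfl⟩)
    simp only [map_mul, map_inv]
    rw [← h2]
    group
  -- (T3) the hyperplane
  obtain ⟨Bb, hBbA, a₀, ha₀, ha₀B, hdich, z, hzK, hz1, hzB, hza⟩ :=
    exists_hyperplane Kb Ab hKbc m hmodd hKbm hAK hAbc hAb2 hnc
  -- (T4) lifts
  obtain ⟨ã, hãA, hãπ⟩ : ∃ ã ∈ A, π ã = a₀ := by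
    rw [hAbdef] at ha₀
    obtain ⟨a, ha, rfl⟩ := ha₀
    exact ⟨a, ha, rfl⟩
  obtain ⟨z₀, hz₀K, hz₀π⟩ : ∃ z₀ ∈ K, π z₀ = z := by
    rw [hKbdef] at hzK
    obtain ⟨k, hk, rfl⟩ := hzK
    exact ⟨k, hk, rfl⟩
  obtain ⟨j₀, hj₀⟩ := IsPGroup.iff_card.mp hHp
  have hHpow : ∀ h ∈ H, h ^ (2 ^ j₀) = 1 := by
    intro h hh
    have h1 := pow_card_eq_one' (G := H) (x := ⟨h, hh⟩)
    rw [hj₀] at h1
    exact congrArg Subtype.val h1
  obtain ⟨y, hydef⟩ : ∃ y, y = z₀ ^ ((m + 1) ^ j₀) := ⟨_, rfl⟩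
  have hyK : y ∈ K := hydef ▸ K.pow_mem hz₀K _
  have hzm : z ^ m = 1 := hKbm z hzK
  have hyπ : π y = z := by
    rw [hydef, map_pow, hz₀π]
    have h1 : ∀ j : ℕ, z ^ ((m + 1) ^ j) = z := by
      intro j
      induction j with
      | zero => simp
      | succ j ih => rw [pow_succ, pow_mul, ih, pow_succ, hzm, one_mul]
    exact h1 j₀
  have hym : y ^ m = 1 := by
    have h1 : z₀ ^ m ∈ H := hmdef ▸ hKq z₀ hz₀K
    have h2 : (2 : ℕ) ^ j₀ ∣ (m + 1) ^ j₀ := pow_dvd_pow_of_dvd ⟨c' + 1, by omega⟩ j₀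
    obtain ⟨d, hd⟩ := h2
    rw [hydef, ← pow_mul, mul_comm, pow_mul, hd, pow_mul, hHpow _ h1, one_pow]
  have hyodd : Odd (orderOf y) := by
    obtain ⟨d, hd⟩ := orderOf_dvd_of_pow_eq_one hym
    rw [hd] at hmodd
    exact (Nat.odd_mul.mp hmodd).1
  have hy1 : y ∉ H := fun h => hz1 (hyπ ▸ (hπker y).mpr h)
  have hyy : (y * y) ^ (c' + 1) = y := by
    rw [← pow_two, ← pow_mul, show 2 * (c' + 1) = m + 1 by omega, pow_succ, hym, one_mul]
  obtain ⟨B, hBdef⟩ : ∃ B : Subgroup G, B = A ⊓ Bb.comap π := ⟨_, rfl⟩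
  have hBA : B ≤ A := hBdef ▸ inf_le_left
  have hBmem : ∀ x, x ∈ B ↔ x ∈ A ∧ π x ∈ Bb := by
    intro x
    rw [hBdef, Subgroup.mem_inf, Subgroup.mem_comap]
  have hãB : ã ∉ B := fun h => ha₀B (hãπ ▸ ((hBmem ã).mp h).2)
  have hB2 : ∀ x ∈ A, x ∈ B ∨ x * ã ∈ B := by
    intro x hx
    rcases hdich (π x) (hAbdef ▸ ⟨x, hx, rfl⟩) with h | h
    · exact Or.inl ((hBmem x).mpr ⟨hx, h⟩)
    · right
      rw [hBmem]
      refine ⟨A.mul_mem hx hãA, ?_⟩
      rw [map_mul, hãπ]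
      exact h
  have hBP : B ≤ P := hBA.trans hAP
  have hBp : IsPGroup 2 B := hPp.to_le hBP
  have hBc : ∀ a ∈ B, ∀ b ∈ B, a * b = b * a := fun a ha b hb => hAc a (hBA ha) b (hBA hb)
  have hyB : ∀ b ∈ B, b * y * b⁻¹ * y⁻¹ ∈ H := by
    intro b hb
    rw [← hπker]
    have h1 := hzB (π b) ((hBmem b).mp hb).2
    simp only [map_mul, map_inv, hyπ]
    rw [h1]
    group
  have hyB' : ∀ b ∈ B, y⁻¹ * b * y * b⁻¹ ∈ H := by
    intro b hb
    rw [← hπker]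
    have h1 := hzB (π b) ((hBmem b).mp hb).2
    simp only [map_mul, map_inv, hyπ]
    calc z⁻¹ * π b * z * (π b)⁻¹ = z⁻¹ * (π b * z) * (π b)⁻¹ := by group
      _ = z⁻¹ * (z * π b) * (π b)⁻¹ := by rw [h1]
      _ = 1 := by group
  have hyB'' : ∀ b ∈ B, y * b * y⁻¹ * b⁻¹ ∈ H := by
    intro b hb
    rw [← hπker]
    have h1 := hzB (π b) ((hBmem b).mp hb).2
    simp only [map_mul, map_inv, hyπ]
    calc z * π b * z⁻¹ * (π b)⁻¹ = (z * π b) * z⁻¹ * (π b)⁻¹ := by group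
      _ = (π b * z) * z⁻¹ * (π b)⁻¹ := by rw [h1]
      _ = 1 := by group
  have hya : ã * y * ã⁻¹ * y ∈ H := by
    rw [← hπker]
    simp only [map_mul, map_inv, hyπ, hãπ]
    rw [hza]
    group
  -- (T5) `W = C_V(B)`, `W₀ = C_V(A)`
  obtain ⟨W, hWdef⟩ : ∃ W : Subgroup G, W = V ⊓ Subgroup.centralizer (B : Set G) := ⟨_, rfl⟩
  have hWV : W ≤ V := hWdef ▸ inf_le_left
  have hWmem : ∀ w, w ∈ W ↔ w ∈ V ∧ ∀ b ∈ B, b * w = w * b := by
    intro w
    rw [hWdef, Subgroup.mem_inf, Subgroup.mem_centralizer_iff]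
    exact Iff.rfl
  obtain ⟨W₀, hW₀def⟩ : ∃ W₀ : Subgroup G, W₀ = V ⊓ Subgroup.centralizer (A : Set G) := ⟨_, rfl⟩
  have hW₀mem : ∀ w, w ∈ W₀ ↔ w ∈ V ∧ ∀ a ∈ A, a * w = w * a := by
    intro w
    rw [hW₀def, Subgroup.mem_inf, Subgroup.mem_centralizer_iff]
    exact Iff.rfl
  have hW₀W : W₀ ≤ W := by
    intro w hw
    rw [hW₀mem] at hw
    rw [hWmem]
    exact ⟨hw.1, fun b hb => hw.2 b (hBA hb)⟩
  have hoff : Nat.card W ≤ 2 * Nat.card W₀ := by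
    have hWB : W ≤ Subgroup.normalizer (B : Set G) := by
      rw [hWdef]
      exact inf_le_right.trans (Subgroup.centralizer_le_normalizer _)
    have h1 := Cfsg.Agent.Lib.Helper20.card_sup_mul_card_inf_of_le_normalizer hWB
    have hcomm : ∀ x ∈ W ⊔ B, ∀ x' ∈ W ⊔ B, x * x' = x' * x :=
      comm_sup (fun a ha b hb => hVc a (hWV ha) b (hWV hb)) hBc
        (fun w hw b hb => (((hWmem w).mp hw).2 b hb).symm)
    have h2 : Nat.card (W ⊔ B : Subgroup G) ≤ Nat.card A :=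
      hAmax _ (sup_le (hWV.trans hVP) hBP) hcomm
    have h3 : W ⊓ B ≤ W₀ := by
      intro w hw
      obtain ⟨hw1, hw2⟩ := Subgroup.mem_inf.mp hw
      rw [hW₀mem]
      exact ⟨hWV hw1, fun a ha => hAc a ha w (hBA hw2)⟩
    have h4 : Nat.card (W ⊓ B : Subgroup G) ≤ Nat.card W₀ := Subgroup.card_le_of_le h3
    have h5 : Nat.card A ≤ 2 * Nat.card B := card_le_two_mul ã hB2
    have hBpos : 0 < Nat.card B := Nat.card_pos
    have h6 : Nat.card W * Nat.card B ≤ (2 * Nat.card W₀) * Nat.card B := by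
      calc Nat.card W * Nat.card B = Nat.card (W ⊔ B : Subgroup G) * Nat.card (W ⊓ B : Subgroup G) :=
            h1.symm
        _ ≤ Nat.card A * Nat.card W₀ := Nat.mul_le_mul h2 h4
        _ ≤ (2 * Nat.card B) * Nat.card W₀ := Nat.mul_le_mul_right _ h5
        _ = (2 * Nat.card W₀) * Nat.card B := by ring
    exact Nat.le_of_mul_le_mul_right h6 hBpos
  -- (T6) invariance of `W`
  have hWinv : ∀ g : G, (∀ b ∈ B, g⁻¹ * b * g * b⁻¹ ∈ H) → ∀ w ∈ W, g * w * g⁻¹ ∈ W := by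
    intro g hg w hw
    rw [hWmem] at hw ⊢
    refine ⟨hVn g w hw.1, ?_⟩
    intro b hb
    have hcV := hHV _ (hg b hb) w hw.1
    have hbw := hw.2 b hb
    calc b * (g * w * g⁻¹) = g * ((g⁻¹ * b * g * b⁻¹) * (b * w)) * g⁻¹ := by group
      _ = g * ((g⁻¹ * b * g * b⁻¹) * (w * b)) * g⁻¹ := by rw [hbw]
      _ = g * (((g⁻¹ * b * g * b⁻¹) * w) * b) * g⁻¹ := by group
      _ = g * ((w * (g⁻¹ * b * g * b⁻¹)) * b) * g⁻¹ := by rw [hcV]
      _ = (g * w * g⁻¹) * b := by group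
  have hWy : ∀ w ∈ W, y * w * y⁻¹ ∈ W := hWinv y hyB'
  have hWy' : ∀ w ∈ W, y⁻¹ * w * y ∈ W := by
    intro w hw
    have h1 := hWinv y⁻¹ (by
      intro b hb
      rw [inv_inv]
      exact hyB'' b hb) w hw
    rwa [inv_inv] at h1
  have hWã : ∀ w ∈ W, ã * w * ã⁻¹ ∈ W := by
    intro w hw
    rw [hWmem] at hw ⊢
    refine ⟨hVn ã w hw.1, ?_⟩
    intro b hb
    have h1 : Commute b ã := hAc b (hBA hb) ã hãA
    have h2 : Commute b w := hw.2 b hb
    exact ((h1.mul_right h2).mul_right h1.inv_right).eq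
  -- (T7) `y` does not centralise `W`
  have hynot : ¬ (∀ w ∈ W, y * w = w * y) := by
    intro hall
    apply hy1
    apply hCV
    apply pq_abelian V B hVp hVc hBp y m (Nat.Coprime.symm (Nat.coprime_two_left.mpr hmodd))
    · rw [hym]
      exact Subgroup.one_mem _
    · intro b hb
      exact hHCV (hyB b hb)
    · intro w hw hwb
      exact hall w ((hWmem w).mpr ⟨hw, hwb⟩)
  -- (T8) `U = [W, y]`
  obtain ⟨τ, hτ⟩ : ∃ τ : W →* G, ∀ w : W, τ w = (w : G)⁻¹ * (y * w * y⁻¹) := by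
    refine ⟨MonoidHom.mk' (fun w : W => (w : G)⁻¹ * (y * w * y⁻¹)) ?_, fun w => rfl⟩
    intro a b
    have h1 : (b : G)⁻¹ * ((a : G)⁻¹ * (y * a * y⁻¹)) = ((a : G)⁻¹ * (y * a * y⁻¹)) * (b : G)⁻¹ :=
      hVc _ (V.inv_mem (hWV b.2)) _ (V.mul_mem (V.inv_mem (hWV a.2)) (hVn y a (hWV a.2)))
    calc ((a * b : W) : G)⁻¹ * (y * ((a * b : W) : G) * y⁻¹)
        = (b : G)⁻¹ * ((a : G)⁻¹ * (y * a * y⁻¹)) * (y * b * y⁻¹) := by
          rw [Subgroup.coe_mul]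
          group
      _ = ((a : G)⁻¹ * (y * a * y⁻¹)) * (b : G)⁻¹ * (y * b * y⁻¹) := by rw [h1]
      _ = (a : G)⁻¹ * (y * a * y⁻¹) * ((b : G)⁻¹ * (y * b * y⁻¹)) := by group
  obtain ⟨U, hUdef⟩ : ∃ U : Subgroup G, U = τ.range := ⟨_, rfl⟩
  have hUW : U ≤ W := by
    rw [hUdef]
    rintro _ ⟨w, rfl⟩
    rw [hτ]
    exact W.mul_mem (W.inv_mem w.2) (hWy w w.2)
  have hUV : U ≤ V := hUW.trans hWV
  have hUc : ∀ a ∈ U, ∀ b ∈ U, a * b = b * a := fun a ha b hb => hVc a (hUV ha) b (hUV hb)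
  have hU1 : U ≠ ⊥ := by
    intro hU
    apply hynot
    intro w hw
    have h1 : τ ⟨w, hw⟩ ∈ U := hUdef ▸ ⟨_, rfl⟩
    rw [hU, Subgroup.mem_bot, hτ] at h1
    have h2 : y * w * y⁻¹ = w := by
      have : y * w * y⁻¹ = w * (w⁻¹ * (y * w * y⁻¹)) := by group
      rw [this, h1, mul_one]
    calc y * w = (y * w * y⁻¹) * y := by group
      _ = w * y := by rw [h2]
  have hUfpf : ∀ u ∈ U, y * u * y⁻¹ = u → u = 1 := by
    intro u hu hyu
    have huV : u ∈ V := hUV hu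
    have hyu' : y * u = u * y := by
      calc y * u = (y * u * y⁻¹) * y := by group
        _ = u * y := by rw [hyu]
    rw [hUdef] at hu
    obtain ⟨w, hw⟩ := hu
    rw [hτ] at hw
    have hpow := tau_pow u hw.symm hyu' m
    rw [hym, one_mul, inv_one, mul_one, inv_mul_cancel] at hpow
    have h2 := hV2 u huV
    rw [hc', pow_succ, pow_mul, pow_two, h2, one_pow, one_mul] at hpow
    exact hpow
  have hyU : y ∈ Subgroup.normalizer (U : Set G) := by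
    apply Cfsg.Agent.Lib.Helper19.mem_normalizer_of_forall_conj_mem
    intro u hu
    rw [hUdef] at hu ⊢
    obtain ⟨w, rfl⟩ := hu
    refine ⟨⟨y * w * y⁻¹, hWy w w.2⟩, ?_⟩
    rw [hτ, hτ]
    change (y * (w : G) * y⁻¹)⁻¹ * (y * (y * (w : G) * y⁻¹) * y⁻¹) = y * ((w : G)⁻¹ * (y * w * y⁻¹)) * y⁻¹
    group
  have hãU : ã ∈ Subgroup.normalizer (U : Set G) := by
    apply Cfsg.Agent.Lib.Helper19.mem_normalizer_of_forall_conj_mem
    intro u hu
    rw [hUdef] at hu ⊢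
    obtain ⟨w, rfl⟩ := hu
    have hw' : ã * w * ã⁻¹ ∈ W := hWã w w.2
    have hw₂ : y⁻¹ * (ã * w * ã⁻¹) * y ∈ W := hWy' _ hw'
    refine ⟨(⟨y⁻¹ * (ã * w * ã⁻¹) * y, hw₂⟩ : W)⁻¹, ?_⟩
    rw [map_inv, hτ, hτ]
    have hh := hHV _ hya (y⁻¹ * (ã * w * ã⁻¹) * y) (hWV hw₂)
    change ((y⁻¹ * (ã * (w : G) * ã⁻¹) * y)⁻¹ * (y * (y⁻¹ * (ã * (w : G) * ã⁻¹) * y) * y⁻¹))⁻¹ =
      ã * ((w : G)⁻¹ * (y * w * y⁻¹)) * ã⁻¹
    calc ((y⁻¹ * (ã * (w : G) * ã⁻¹) * y)⁻¹ * (y * (y⁻¹ * (ã * (w : G) * ã⁻¹) * y) * y⁻¹))⁻¹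
        = (ã * (w : G) * ã⁻¹)⁻¹ * ((y⁻¹ * (ã * (w : G) * ã⁻¹) * y) * (ã * y * ã⁻¹ * y)) *
            (ã * y * ã⁻¹ * y)⁻¹ := by group
      _ = (ã * (w : G) * ã⁻¹)⁻¹ * ((ã * y * ã⁻¹ * y) * (y⁻¹ * (ã * (w : G) * ã⁻¹) * y)) *
            (ã * y * ã⁻¹ * y)⁻¹ := by rw [hh]
      _ = ã * ((w : G)⁻¹ * (y * w * y⁻¹)) * ã⁻¹ := by group
  have hãUn : ∃ u ∈ U, ã * u * ã⁻¹ ≠ u := by
    by_contra hcon
    push Not at hcon
    apply hU1
    rw [eq_bot_iff]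
    intro u hu
    rw [Subgroup.mem_bot]
    apply hUfpf u hu
    have hyu : y * u * y⁻¹ ∈ U := (Subgroup.mem_normalizer_iff.mp hyU u).mp hu
    have h1 := hcon u hu
    have h2 := hcon _ hyu
    have e1 : ã * (y * u * y⁻¹) * ã⁻¹ =
        (ã * y * ã⁻¹ * y) * (y⁻¹ * (ã * u * ã⁻¹) * y) * (ã * y * ã⁻¹ * y)⁻¹ := by group
    rw [h2, h1] at e1
    have hXV : y⁻¹ * u * y ∈ V := by
      have := hVn y⁻¹ u (hUV hu)
      rwa [inv_inv] at this
    have hX := hHV _ hya _ hXV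
    rw [hX, mul_inv_cancel_right] at e1
    have hc2 : Commute (y * y) u := by
      show y * y * u = u * (y * y)
      calc y * y * u = y * (y * u * y⁻¹) * y := by group
        _ = y * (y⁻¹ * u * y) * y := by rw [e1]
        _ = u * (y * y) := by group
    have hc1 : Commute y u := hyy ▸ hc2.pow_left (c' + 1)
    calc y * u * y⁻¹ = u * y * y⁻¹ := by rw [hc1.eq]
      _ = u := by group
  -- the order of `U`
  have hU4 : Nat.card U = 4 := by
    obtain ⟨Cy, hCydef⟩ : ∃ Cy : Subgroup G, Cy = W ⊓ Subgroup.centralizer ({y} : Set G) :=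
      ⟨_, rfl⟩
    have hCymem : ∀ w, w ∈ Cy ↔ w ∈ W ∧ y * w = w * y := by
      intro w
      rw [hCydef, Subgroup.mem_inf, Subgroup.mem_centralizer_iff]
      constructor
      · rintro ⟨h1, h2⟩
        exact ⟨h1, h2 y rfl⟩
      · rintro ⟨h1, h2⟩
        refine ⟨h1, fun h hh => ?_⟩
        rw [Set.mem_singleton_iff] at hh
        rw [hh]
        exact h2
    have hker : τ.ker = Cy.subgroupOf W := by
      ext w
      rw [MonoidHom.mem_ker, hτ, Subgroup.mem_subgroupOf, hCymem]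
      constructor
      · intro h
        refine ⟨w.2, ?_⟩
        have h2 : y * (w : G) * y⁻¹ = w := by
          have : y * (w : G) * y⁻¹ = w * ((w : G)⁻¹ * (y * w * y⁻¹)) := by group
          rw [this, h, mul_one]
        calc y * (w : G) = (y * w * y⁻¹) * y := by group
          _ = w * y := by rw [h2]
      · rintro ⟨-, h⟩
        rw [h]
        group
    have hcardW : Nat.card Cy * Nat.card U = Nat.card W := by
      have h1 := Subgroup.card_mul_index τ.ker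
      rw [Subgroup.index_ker, hker] at h1
      rw [hUdef, ← h1]
      congr 1
      exact (Nat.card_congr (Subgroup.subgroupOfEquivOfLe
        (hCydef ▸ inf_le_left : Cy ≤ W)).toEquiv).symm
    obtain ⟨W₁, hW₁def⟩ : ∃ W₁ : Subgroup G, W₁ = W₀.map (MulAut.conj y).toMonoidHom := ⟨_, rfl⟩
    have hW₁card : Nat.card W₁ = Nat.card W₀ := by
      rw [hW₁def]
      exact Subgroup.card_map_of_injective (MulAut.conj y).injective
    have hW₁W : W₁ ≤ W := by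
      rw [hW₁def]
      rintro _ ⟨w, hw, rfl⟩
      exact hWy w (hW₀W hw)
    have hI : W₀ ⊓ W₁ ≤ Cy := by
      intro w hw
      obtain ⟨hw0, hw1⟩ := Subgroup.mem_inf.mp hw
      rw [hCymem]
      refine ⟨hW₀W hw0, ?_⟩
      rw [hW₁def] at hw1
      obtain ⟨w', hw', hw'w⟩ := hw1
      have e : y * w' * y⁻¹ = w := hw'w
      have hã0 := ((hW₀mem w).mp hw0).2 ã hãA
      have hã1 := ((hW₀mem w').mp hw').2 ã hãA
      have hwV : w ∈ V := ((hW₀mem w).mp hw0).1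
      have c1 : Commute ã w := hã0
      have c2 : Commute (y * ã * y⁻¹) w := by
        rw [← e]
        show y * ã * y⁻¹ * (y * w' * y⁻¹) = y * w' * y⁻¹ * (y * ã * y⁻¹)
        calc y * ã * y⁻¹ * (y * w' * y⁻¹) = y * (ã * w') * y⁻¹ := by group
          _ = y * (w' * ã) * y⁻¹ := by rw [hã1]
          _ = y * w' * y⁻¹ * (y * ã * y⁻¹) := by group
      have c3 : Commute (ã * y * ã⁻¹ * y) w := hHV _ hya w hwV
      have e2 : y * y = (y * ã * y⁻¹) * ã⁻¹ * (ã * y * ã⁻¹ * y) := by group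
      have c4 : Commute (y * y) w := by
        rw [e2]
        exact (c2.mul_left c1.inv_left).mul_left c3
      have hc1 : Commute y w := hyy ▸ c4.pow_left (c' + 1)
      exact hc1.eq
    have h1 := Cfsg.Agent.Lib.Helper6.card_mul_card_le_sup_mul_inf W₀ W₁
    have h2 : Nat.card (W₀ ⊔ W₁ : Subgroup G) ≤ Nat.card W :=
      Subgroup.card_le_of_le (sup_le hW₀W hW₁W)
    have h3 : Nat.card (W₀ ⊓ W₁ : Subgroup G) ≤ Nat.card Cy := Subgroup.card_le_of_le hI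
    rw [hW₁card] at h1
    have hWpos : 0 < Nat.card W := Nat.card_pos
    have h4 : Nat.card W ≤ 4 * Nat.card Cy := by
      have h5 : Nat.card W * Nat.card W ≤ (4 * Nat.card Cy) * Nat.card W := by
        calc Nat.card W * Nat.card W ≤ (2 * Nat.card W₀) * (2 * Nat.card W₀) :=
              Nat.mul_le_mul hoff hoff
          _ = 4 * (Nat.card W₀ * Nat.card W₀) := by ring
          _ ≤ 4 * (Nat.card (W₀ ⊔ W₁ : Subgroup G) * Nat.card (W₀ ⊓ W₁ : Subgroup G)) :=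
              Nat.mul_le_mul_left _ h1
          _ ≤ 4 * (Nat.card W * Nat.card Cy) := Nat.mul_le_mul_left _ (Nat.mul_le_mul h2 h3)
          _ = (4 * Nat.card Cy) * Nat.card W := by ring
      exact Nat.le_of_mul_le_mul_right h5 hWpos
    have hCypos : 0 < Nat.card Cy := Nat.card_pos
    have hU4le : Nat.card U ≤ 4 := by
      have h5 : Nat.card U * Nat.card Cy ≤ 4 * Nat.card Cy := by
        rw [mul_comm, hcardW]
        exact h4
      exact Nat.le_of_mul_le_mul_right h5 hCypos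
    obtain ⟨i, hi⟩ := IsPGroup.iff_card.mp (hPp.to_le (hUV.trans hVP))
    have hi2 : i ≤ 2 := by
      by_contra h
      have h3 : 3 ≤ i := by omega
      have h4 := Nat.pow_le_pow_right (show 0 < 2 by norm_num) h3
      omega
    have hi0 : i ≠ 0 := by
      rintro rfl
      rw [pow_zero] at hi
      exact hU1 (Subgroup.eq_bot_of_card_eq U hi)
    have hi1 : i ≠ 1 := by
      rintro rfl
      rw [pow_one] at hi
      obtain ⟨u, hu, hu1⟩ : ∃ u ∈ U, u ≠ 1 := by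
        by_contra hcon
        push Not at hcon
        apply hU1
        rw [eq_bot_iff]
        intro x hx
        exact Subgroup.mem_bot.mpr (hcon x hx)
      have hyu : y * u * y⁻¹ ∈ U := (Subgroup.mem_normalizer_iff.mp hyU u).mp hu
      have hyu1 : y * u * y⁻¹ ≠ 1 := fun h => hu1 (conj_eq_one_iff.mp h)
      obtain ⟨x, -, hx⟩ := (Nat.card_eq_two_iff' (1 : U)).mp hi
      have e1 := hx ⟨u, hu⟩ (fun h => hu1 (congrArg Subtype.val h))
      have e2 := hx ⟨y * u * y⁻¹, hyu⟩ (fun h => hyu1 (congrArg Subtype.val h))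
      have e3 : y * u * y⁻¹ = u := congrArg Subtype.val (e2.trans e1.symm)
      exact hu1 (hUfpf u hu e3)
    have hi' : i = 2 := by omega
    rw [hi, hi']
    norm_num
  -- (T9) a `2`-element normalising `⟨y⟩` and acting on `U` like `ã`
  have hyq : y ^ (q ^ c) = 1 := hmdef ▸ hym
  obtain ⟨Y, hYdef⟩ : ∃ Y : Subgroup G, Y = Subgroup.zpowers y := ⟨_, rfl⟩
  have hyY : y ∈ Y := hYdef ▸ Subgroup.mem_zpowers y
  have hYq : IsPGroup q Y := by
    obtain ⟨j, -, hj⟩ := (Nat.dvd_prime_pow hqp).mp (orderOf_dvd_of_pow_eq_one hyq)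
    exact IsPGroup.of_card (n := j) (by rw [hYdef, Nat.card_zpowers, hj])
  obtain ⟨R₁, hR₁def⟩ : ∃ R₁ : Subgroup G, R₁ = H ⊔ Y := ⟨_, rfl⟩
  obtain ⟨Y', hY'def⟩ : ∃ Y' : Subgroup G, Y' = Y.map (MulAut.conj ã).toMonoidHom := ⟨_, rfl⟩
  have hYR : Y ≤ R₁ := hR₁def ▸ le_sup_right
  have hHR : H ≤ R₁ := hR₁def ▸ le_sup_left
  have hY'R : Y' ≤ R₁ := by
    rw [hY'def, hYdef, Subgroup.map_le_iff_le_comap, Subgroup.zpowers_le, Subgroup.mem_comap]
    show ã * y * ã⁻¹ ∈ R₁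
    have : ã * y * ã⁻¹ = (ã * y * ã⁻¹ * y) * y⁻¹ := by group
    rw [this]
    exact R₁.mul_mem (hHR hya) (R₁.inv_mem (hYR hyY))
  have hY'q : IsPGroup q Y' := hY'def ▸ hYq.map _
  have hcardY' : Nat.card Y' = Nat.card Y := by
    rw [hY'def]
    exact Subgroup.card_map_of_injective (MulAut.conj ã).injective
  have hrel : ∀ X : Subgroup G, X ≤ R₁ → Nat.card X = Nat.card Y → ¬ q ∣ X.relIndex R₁ := by
    intro X hXR hX hdvd
    have h1 : X.relIndex R₁ * Nat.card X = Nat.card R₁ :=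
      Cfsg.Agent.Lib.Helper6.relIndex_mul_card_of_le hXR
    have h2 : Nat.card R₁ ∣ Nat.card Y * Nat.card H := by
      rw [hR₁def, sup_comm]
      exact Cfsg.Agent.Lib.Helper1.card_sup_dvd_mul_of_normal Y H
    rw [← h1, hX, mul_comm] at h2
    have h3 : X.relIndex R₁ ∣ Nat.card H := Nat.dvd_of_mul_dvd_mul_left Nat.card_pos h2
    rw [hj₀] at h3
    have h4 := hqp.dvd_of_dvd_pow (hdvd.trans h3)
    exact hq2 ((Nat.prime_dvd_prime_iff_eq hqp Nat.prime_two).mp h4)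
  obtain ⟨c₁, hc₁R, hc₁⟩ := Cfsg.Agent.Lib.Helper1.rel_sylow_conj R₁ Y Y' hYR hY'R hYq hY'q
    (hrel Y hYR rfl) (hrel Y' hY'R hcardY')
  rw [hR₁def] at hc₁R
  obtain ⟨h₁, hh₁, y₁, hy₁, rfl⟩ := Subgroup.mem_sup_of_normal_left.mp hc₁R
  have hy₁N : Y.map (MulAut.conj y₁).toMonoidHom = Y :=
    Cfsg.Agent.Lib.Helper14.map_conj_eq_self_of_mem_normalizer (Subgroup.le_normalizer hy₁)
  have hc₁' : Y' = Y.map (MulAut.conj h₁).toMonoidHom := by
    rw [hc₁, ← Cfsg.Agent.Lib.Helper14.map_conj_map_conj, hy₁N]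
  obtain ⟨x', hx'def⟩ : ∃ x', x' = h₁⁻¹ * ã := ⟨_, rfl⟩
  have hx'Y : x' ∈ Subgroup.normalizer ((Subgroup.zpowers y : Subgroup G) : Set G) := by
    have key : Y.map (MulAut.conj x').toMonoidHom = Y := by
      rw [hx'def, ← Cfsg.Agent.Lib.Helper14.map_conj_map_conj, ← hY'def, hc₁',
        Cfsg.Agent.Lib.Helper14.map_conj_inv_map_conj]
    rw [← hYdef]
    exact Subgroup.mem_normalizer_iff_map_conj_eq.mpr key
  have hx'P : x' ∈ P := hx'def ▸ P.mul_mem (P.inv_mem (hHP hh₁)) (hAP hãA)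
  have hx'2 : ∃ k : ℕ, x' ^ (2 ^ k) = 1 := by
    obtain ⟨k, hk⟩ := hPp ⟨x', hx'P⟩
    exact ⟨k, congrArg Subtype.val hk⟩
  have hx'u : ∀ u ∈ U, x' * u * x'⁻¹ = ã * u * ã⁻¹ := by
    intro u hu
    have hãu : ã * u * ã⁻¹ ∈ V := hVn ã u (hUV hu)
    have h1 := hHV h₁⁻¹ (H.inv_mem hh₁) _ hãu
    rw [hx'def]
    calc h₁⁻¹ * ã * u * (h₁⁻¹ * ã)⁻¹ = (h₁⁻¹ * (ã * u * ã⁻¹)) * h₁ := by group
      _ = ((ã * u * ã⁻¹) * h₁⁻¹) * h₁ := by rw [h1]
      _ = ã * u * ã⁻¹ := by group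
  have hx'U : x' ∈ Subgroup.normalizer (U : Set G) := by
    apply Cfsg.Agent.Lib.Helper19.mem_normalizer_of_forall_conj_mem
    intro u hu
    rw [hx'u u hu]
    exact (Subgroup.mem_normalizer_iff.mp hãU u).mp hu
  have hx'n : ∃ u ∈ U, x' * u * x'⁻¹ ≠ u := by
    obtain ⟨u, hu, hne⟩ := hãUn
    exact ⟨u, hu, by rw [hx'u u hu]; exact hne⟩
  exact involves_s4 U hU4 hUc y x' hyU hx'U hyodd hUfpf hx'Y hx'2 hx'n

end Cfsg.Agent.Lib.Helper17
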