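import Mathlib
import Cfsg.Agent.Lib.Helper17.ThA2
import Cfsg.Agent.Lib.Helper17.ThA3
import Cfsg.Agent.Lib.Helper17.S4Rec
import Cfsg.Agent.Lib.Helper1.Coprime
import Cfsg.Agent.Lib.Helper18.PGroupFrat
import Cfsg.Agent.Lib.Helper27.Thompson

set_option autoImplicit false

/-!
A failure-of-factorization argument for solvable groups without sections isomorphic to the
symmetric group of degree four: a hyperplane lemma for an elementary abelian `2`-group acting on a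
nilpotent group of odd order, and the construction of the forbidden section from an elementary
abelian subgroup of largest order.
-/

namespace Cfsg.Agent.Lib.Helper17

open Cfsg

universe u

variable {G : Type u} [Group G]

theorem sq_sup {X Y : Subgroup G} (hX : ∀ a ∈ X, a * a = 1) (hY : ∀ a ∈ Y, a * a = 1)
    (hc : ∀ a ∈ X ⊔ Y, ∀ b ∈ X ⊔ Y, a * b = b * a) : ∀ a ∈ X ⊔ Y, a * a = 1 := by
  intro a ha
  have ha' : a ∈ Subgroup.closure ((X : Set G) ∪ (Y : Set G)) := by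
    rw [← Subgroup.sup_eq_closure]
    exact ha
  induction ha' using Subgroup.closure_induction with
  | mem x hx =>
    rcases hx with h | h
    · exact hX x h
    · exact hY x h
  | one => simp
  | mul x y hx hy ihx ihy =>
    have hx' : x ∈ X ⊔ Y := by rw [Subgroup.sup_eq_closure]; exact hx
    have hy' : y ∈ X ⊔ Y := by rw [Subgroup.sup_eq_closure]; exact hy
    have h1 := hc y hy' x hx'
    calc x * y * (x * y) = x * (y * x) * y := by group
      _ = x * (x * y) * y := by rw [h1]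
      _ = (x * x) * (y * y) := by group
      _ = 1 := by rw [ihx hx', ihy hy', one_mul]
  | inv x hx ih =>
    have hx' : x ∈ X ⊔ Y := by rw [Subgroup.sup_eq_closure]; exact hx
    rw [← mul_inv_rev, ih hx', inv_one]

/-- An elementary abelian `2`-group `A` acting nontrivially on a normal nilpotent subgroup `F` of
odd order has a subgroup `B` of index at most two and an element `a` such that some nontrivial
element of `F` is centralised by `B` and inverted by `a`. -/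
theorem nilp_hyperplane [Finite G] (F A : Subgroup G) [F.Normal] (hFnil : Group.IsNilpotent F)
    (hFodd : Odd (Nat.card F))
    (hAc : ∀ a ∈ A, ∀ b ∈ A, a * b = b * a) (hA2 : ∀ a ∈ A, a * a = 1)
    (hnc : ¬ A ≤ Subgroup.centralizer (F : Set G)) :
    ∃ B : Subgroup G, B ≤ A ∧ ∃ a ∈ A, (∀ x ∈ A, x ∈ B ∨ x * a ∈ B) ∧
      ∃ z ∈ F, z ≠ 1 ∧ (∀ b ∈ B, b * z = z * b) ∧ a * z * a⁻¹ = z⁻¹ := by
  classical
  obtain ⟨N, hNdef⟩ : ∃ N : Subgroup G, N = ⁅F, F⁆ := ⟨_, rfl⟩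
  have hNn : N.Normal := by rw [hNdef]; infer_instance
  have hNF : N ≤ F := by rw [hNdef]; exact Subgroup.commutator_le_self F
  have hFn : ∀ (g : G), ∀ k ∈ F, g * k * g⁻¹ ∈ F := fun g k hk =>
    (inferInstance : F.Normal).conj_mem k hk g
  have hcomm : ∀ a ∈ F, ∀ b ∈ F, a * b * a⁻¹ * b⁻¹ ∈ N := by
    intro a ha b hb
    rw [hNdef]
    exact Subgroup.commutator_mem_commutator ha hb
  obtain ⟨m, hmdef⟩ : ∃ m, m = Nat.card F := ⟨_, rfl⟩
  have hmodd : Odd m := hmdef ▸ hFodd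
  have hFm : ∀ k ∈ F, k ^ m = 1 := by
    intro k hk
    have h1 := pow_card_eq_one' (G := F) (x := ⟨k, hk⟩)
    rw [hmdef]
    exact congrArg Subtype.val h1
  have hAp : IsPGroup 2 A := by
    intro a
    refine ⟨1, ?_⟩
    apply Subtype.ext
    rw [pow_one, pow_two]
    exact hA2 a a.2
  have hcop : ∀ B : Subgroup G, B ≤ A → (Nat.card B).Coprime (Nat.card F) := by
    intro B hBA
    obtain ⟨j, hj⟩ := IsPGroup.iff_card.mp (hAp.to_le hBA)
    rw [hj, ← hmdef]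
    exact Nat.Coprime.pow_left j (Nat.coprime_two_left.mpr hmodd)
  have hFsolv : Group.IsSolvable F := inferInstance
  have hXF : ∀ X : Subgroup G, X ≤ Subgroup.normalizer (F : Set G) := by
    intro X
    rw [Subgroup.normalizer_eq_top]
    exact le_top
  have hXN : ∀ X : Subgroup G, X ≤ Subgroup.normalizer (N : Set G) := by
    intro X
    rw [Subgroup.normalizer_eq_top]
    exact le_top
  obtain ⟨π, hπdef⟩ : ∃ π : G →* G ⧸ N, π = QuotientGroup.mk' N := ⟨_, rfl⟩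
  have hπker : ∀ g : G, π g = 1 ↔ g ∈ N := by
    intro g
    rw [hπdef]
    exact QuotientGroup.eq_one_iff g
  have hπs : Function.Surjective π := hπdef ▸ QuotientGroup.mk'_surjective N
  obtain ⟨Kb, hKbdef⟩ : ∃ Kb : Subgroup (G ⧸ N), Kb = F.map π := ⟨_, rfl⟩
  obtain ⟨Ab, hAbdef⟩ : ∃ Ab : Subgroup (G ⧸ N), Ab = A.map π := ⟨_, rfl⟩
  have hKbc : ∀ a ∈ Kb, ∀ b ∈ Kb, a * b = b * a := by
    rw [hKbdef]
    rintro _ ⟨a, ha, rfl⟩ _ ⟨b, hb, rfl⟩
    have h1 := (hπker _).mpr (hcomm a ha b hb)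
    simp only [map_mul, map_inv] at h1
    calc π a * π b = (π a * π b * (π a)⁻¹ * (π b)⁻¹) * (π b * π a) := by group
      _ = π b * π a := by rw [h1, one_mul]
  have hKbm : ∀ k ∈ Kb, k ^ m = 1 := by
    rw [hKbdef]
    rintro _ ⟨k, hk, rfl⟩
    rw [← map_pow, hFm k hk, map_one]
  have hAK : Ab ≤ Subgroup.normalizer (Kb : Set (G ⧸ N)) := by
    have : Kb.Normal := by
      rw [hKbdef]
      exact Subgroup.Normal.map inferInstance π hπs
    rw [Subgroup.normalizer_eq_top]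
    exact le_top
  have hAbc : ∀ a ∈ Ab, ∀ b ∈ Ab, a * b = b * a := by
    rw [hAbdef]
    rintro _ ⟨a, ha, rfl⟩ _ ⟨b, hb, rfl⟩
    rw [← map_mul, ← map_mul, hAc a ha b hb]
  have hAb2 : ∀ a ∈ Ab, a * a = 1 := by
    rw [hAbdef]
    rintro _ ⟨a, ha, rfl⟩
    rw [← map_mul, hA2 a ha, map_one]
  have hncb : ¬ Ab ≤ Subgroup.centralizer (Kb : Set (G ⧸ N)) := by
    intro hle
    apply hnc
    have hfix : ∀ k ∈ F, ∀ a ∈ A, a * k * a⁻¹ * k⁻¹ ∈ N := by
      intro k hk a ha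
      rw [← hπker]
      have h1 : π a ∈ Subgroup.centralizer (Kb : Set (G ⧸ N)) := hle (hAbdef ▸ ⟨a, ha, rfl⟩)
      have h2 := (Subgroup.mem_centralizer_iff.mp h1) (π k) (hKbdef ▸ ⟨k, hk, rfl⟩)
      simp only [map_mul, map_inv]
      rw [← h2]
      group
    obtain ⟨C, hCdef⟩ : ∃ C : Subgroup G, C = F ⊓ Subgroup.centralizer (A : Set G) := ⟨_, rfl⟩
    have hNfrat : N.subgroupOf F ≤ frattini F := by
      have h1 : N.subgroupOf F = _root_.commutator F := by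
        rw [hNdef, ← Subgroup.map_subtype_commutator]
        exact Subgroup.comap_map_eq_self_of_injective F.subtype_injective _
      rw [h1]
      exact Cfsg.Agent.Lib.Helper18.commutator_le_frattini_of_isNilpotent
    have hsup : C.subgroupOf F ⊔ frattini F = ⊤ := by
      rw [eq_top_iff]
      intro k _
      obtain ⟨c, hc, hkc⟩ := Cfsg.Agent.Lib.Helper1.coprime_fixed_quotient A F (hXF A)
        (hcop A le_rfl) (Or.inr hFsolv) N hNF (hXN F) (hXN A) (k : G) k.2 (hfix k k.2)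
      have hcF : c ∈ F := (Subgroup.mem_inf.mp hc).1
      have hnF : ((k : G)⁻¹ * c)⁻¹ ∈ F := F.inv_mem (F.mul_mem (F.inv_mem k.2) hcF)
      have e : k = (⟨c, hcF⟩ : F) * ⟨((k : G)⁻¹ * c)⁻¹, hnF⟩ := by
        apply Subtype.ext
        show (k : G) = c * ((k : G)⁻¹ * c)⁻¹
        group
      rw [e]
      refine Subgroup.mul_mem _ (Subgroup.mem_sup_left ?_) (Subgroup.mem_sup_right (hNfrat ?_))
      · rw [Subgroup.mem_subgroupOf]
        exact hCdef ▸ hc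
      · rw [Subgroup.mem_subgroupOf]
        exact N.inv_mem hkc
    have hCtop := frattini_nongenerating hsup
    intro a ha
    rw [Subgroup.mem_centralizer_iff]
    intro k hk
    have h1 : (⟨k, hk⟩ : F) ∈ C.subgroupOf F := by
      rw [hCtop]
      exact Subgroup.mem_top _
    rw [Subgroup.mem_subgroupOf, hCdef] at h1
    have h2 := (Subgroup.mem_centralizer_iff.mp (Subgroup.mem_inf.mp h1).2) a ha
    exact h2.symm
  obtain ⟨Bb, hBbA, a₀, ha₀, ha₀B, hdich, z, hzK, hz1, hzB, hza⟩ :=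
    exists_hyperplane Kb Ab hKbc m hmodd hKbm hAK hAbc hAb2 hncb
  obtain ⟨ã, hãA, hãπ⟩ : ∃ ã ∈ A, π ã = a₀ := by
    rw [hAbdef] at ha₀
    obtain ⟨a, ha, rfl⟩ := ha₀
    exact ⟨a, ha, rfl⟩
  obtain ⟨k₀, hk₀F, hk₀π⟩ : ∃ k₀ ∈ F, π k₀ = z := by
    rw [hKbdef] at hzK
    obtain ⟨k, hk, rfl⟩ := hzK
    exact ⟨k, hk, rfl⟩
  obtain ⟨B, hBdef⟩ : ∃ B : Subgroup G, B = A ⊓ Bb.comap π := ⟨_, rfl⟩
  have hBA : B ≤ A := hBdef ▸ inf_le_left
  have hBmem : ∀ x, x ∈ B ↔ x ∈ A ∧ π x ∈ Bb := by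
    intro x
    rw [hBdef, Subgroup.mem_inf, Subgroup.mem_comap]
  have hB2 : ∀ x ∈ A, x ∈ B ∨ x * ã ∈ B := by
    intro x hx
    rcases hdich (π x) (hAbdef ▸ ⟨x, hx, rfl⟩) with h | h
    · exact Or.inl ((hBmem x).mpr ⟨hx, h⟩)
    · right
      rw [hBmem]
      refine ⟨A.mul_mem hx hãA, ?_⟩
      rw [map_mul, hãπ]
      exact h
  have hfixB : ∀ b ∈ B, b * k₀ * b⁻¹ * k₀⁻¹ ∈ N := by
    intro b hb
    rw [← hπker]
    have h1 := hzB (π b) ((hBmem b).mp hb).2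
    simp only [map_mul, map_inv, hk₀π]
    rw [h1]
    group
  obtain ⟨c, hc, hkc⟩ := Cfsg.Agent.Lib.Helper1.coprime_fixed_quotient B F (hXF B) (hcop B hBA)
    (Or.inr hFsolv) N hNF (hXN F) (hXN B) k₀ hk₀F hfixB
  obtain ⟨hcF, hcB⟩ := Subgroup.mem_inf.mp hc
  have hcπ : π c = z := by
    have h1 := (hπker _).mpr hkc
    rw [map_mul, map_inv, hk₀π] at h1
    calc π c = z * (z⁻¹ * π c) := by group
      _ = z := by rw [h1, mul_one]
  have hã2 : ã * ã = 1 := hA2 ã hãA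
  have hãinv : ã⁻¹ = ã := inv_eq_of_mul_eq_one_left hã2
  refine ⟨B, hBA, ã, hãA, hB2, c * (ã * c⁻¹ * ã⁻¹), ?_, ?_, ?_, ?_⟩
  · exact F.mul_mem hcF (hFn ã _ (F.inv_mem hcF))
  · intro h
    have h1 : π (c * (ã * c⁻¹ * ã⁻¹)) = z * z := by
      simp only [map_mul, map_inv, hcπ, hãπ]
      have e : a₀ * z⁻¹ * a₀⁻¹ = (a₀ * z * a₀⁻¹)⁻¹ := by group
      rw [e, hza, inv_inv]
    rw [h, map_one] at h1
    apply hz1
    obtain ⟨c', hc'⟩ := hmodd
    have h2 := hKbm z hzK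
    rw [hc', pow_succ, pow_mul, pow_two, ← h1, one_pow, one_mul] at h2
    exact h2
  · intro b hb
    have c1 : Commute b c := (Subgroup.mem_centralizer_iff.mp hcB) b hb
    have c2 : Commute b ã := hAc b (hBA hb) ã hãA
    exact (c1.mul_right ((c2.mul_right c1.inv_right).mul_right c2.inv_right)).eq
  · calc ã * (c * (ã * c⁻¹ * ã⁻¹)) * ã⁻¹ = ã * c * ã * c⁻¹ * (ã⁻¹ * ã⁻¹) := by group
      _ = ã * c * ã * c⁻¹ := by rw [hãinv, hã2, mul_one]
      _ = ã * c * ã⁻¹ * c⁻¹ := by rw [hãinv]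
      _ = (c * (ã * c⁻¹ * ã⁻¹))⁻¹ := by group

set_option maxHeartbeats 3200000 in
/-- The failure-of-factorization core: an elementary abelian subgroup `A` of largest order in the
`2`-group `P`, a subgroup `B` of index at most two in it, and an element `y` of odd order, inverted
by an element of `A`, centralised by `B` modulo `H ≤ C(V)` and acting nontrivially on the normal
elementary abelian subgroup `V`, produce a section isomorphic to the symmetric group of degree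
four. -/
theorem ff_core [Finite G] (P H V A B : Subgroup G) [H.Normal] [V.Normal]
    (hPp : IsPGroup 2 P) (hVP : V ≤ P)
    (hVc : ∀ a ∈ V, ∀ b ∈ V, a * b = b * a) (hV2 : ∀ v ∈ V, v * v = 1)
    (hHCV : H ≤ Subgroup.centralizer (V : Set G))
    (hA : A ∈ Cfsg.Agent.Lib.Helper27.maxEA 2 P) (hBA : B ≤ A) (ã : G) (hãA : ã ∈ A)
    (hB2 : ∀ x ∈ A, x ∈ B ∨ x * ã ∈ B)
    (y : G) (m : ℕ) (hmodd : Odd m) (hym : y ^ m = 1)
    (hyB : ∀ b ∈ B, b * y * b⁻¹ * y⁻¹ ∈ H) (hyã : ã * y * ã⁻¹ = y⁻¹)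
    (hyV : y ∉ Subgroup.centralizer (V : Set G)) :
    Cfsg.Involves (Equiv.Perm (Fin 4)) G := by
  classical
  have : Fact (Nat.Prime 2) := ⟨Nat.prime_two⟩
  obtain ⟨hAP, hAe, hAmax⟩ := hA
  rw [Cfsg.Agent.Lib.Helper27.isElementaryAbelian_iff] at hAe
  obtain ⟨hAc, hA2'⟩ := hAe
  have hA2 : ∀ a ∈ A, a * a = 1 := fun a ha => by
    rw [← pow_two]
    exact hA2' a ha
  have hVp : IsPGroup 2 V := hPp.to_le hVP
  have hVn : ∀ (g : G), ∀ v ∈ V, g * v * g⁻¹ ∈ V := fun g v hv =>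
    (inferInstance : V.Normal).conj_mem v hv g
  have hHn : ∀ (g : G), ∀ h ∈ H, g * h * g⁻¹ ∈ H := fun g h hh =>
    (inferInstance : H.Normal).conj_mem h hh g
  have hHV : ∀ h ∈ H, ∀ v ∈ V, h * v = v * h := fun h hh v hv =>
    ((Subgroup.mem_centralizer_iff.mp (hHCV hh)) v hv).symm
  obtain ⟨c', hc'⟩ := hmodd
  have hmodd : Odd m := ⟨c', hc'⟩
  have hyodd : Odd (orderOf y) := by
    obtain ⟨d, hd⟩ := orderOf_dvd_of_pow_eq_one hym
    rw [hd] at hmodd
    exact (Nat.odd_mul.mp hmodd).1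
  have hyy : (y * y) ^ (c' + 1) = y := by
    rw [← pow_two, ← pow_mul, show 2 * (c' + 1) = m + 1 by omega, pow_succ, hym, one_mul]
  have hBP : B ≤ P := hBA.trans hAP
  have hBp : IsPGroup 2 B := hPp.to_le hBP
  have hBc : ∀ a ∈ B, ∀ b ∈ B, a * b = b * a := fun a ha b hb => hAc a (hBA ha) b (hBA hb)
  have hyB' : ∀ b ∈ B, y⁻¹ * b * y * b⁻¹ ∈ H := by
    intro b hb
    have h1 := hHn y⁻¹ _ (hyB b hb)
    have e : y⁻¹ * (b * y * b⁻¹ * y⁻¹) * y⁻¹⁻¹ = y⁻¹ * b * y * b⁻¹ := by group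
    rw [e] at h1
    exact h1
  have hyB'' : ∀ b ∈ B, y * b * y⁻¹ * b⁻¹ ∈ H := by
    intro b hb
    have h1 := H.inv_mem (hyB b hb)
    have e : (b * y * b⁻¹ * y⁻¹)⁻¹ = y * b * y⁻¹ * b⁻¹ := by group
    rw [e] at h1
    exact h1
  have hya : ã * y * ã⁻¹ * y ∈ H := by
    rw [hyã, inv_mul_cancel]
    exact H.one_mem
  -- (T5) `W = C_V(B)`, `W₀ = C_V(A)`
  obtain ⟨W, hWdef⟩ : ∃ W : Subgroup G, W = V ⊓ Subgroup.centralizer (B : Set G) := ⟨_, rfl⟩
  have hWV : W ≤ V := hWdef ▸ inf_le_left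
  have hWmem : ∀ w, w ∈ W ↔ w ∈ V ∧ ∀ b ∈ B, b * w = w * b := by
    intro w
    rw [hWdef, Subgroup.mem_inf, Subgroup.mem_centralizer_iff]
    exact Iff.rfl
  obtain ⟨W₀, hW₀def⟩ : ∃ W₀ : Subgroup G, W₀ = V ⊓ Subgroup.centralizer (A : Set G) := ⟨_, rfl⟩
  have hW₀mem : ∀ w, w ∈ W₀ ↔ w ∈ V ∧ ∀ a ∈ A, a * w = w * a := by
    intro w
    rw [hW₀def, Subgroup.mem_inf, Subgroup.mem_centralizer_iff]
    exact Iff.rfl
  have hW₀W : W₀ ≤ W := by
    intro w hw
    rw [hW₀mem] at hw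
    rw [hWmem]
    exact ⟨hw.1, fun b hb => hw.2 b (hBA hb)⟩
  have hoff : Nat.card W ≤ 2 * Nat.card W₀ := by
    have hWB : W ≤ Subgroup.normalizer (B : Set G) := by
      rw [hWdef]
      exact inf_le_right.trans (Subgroup.centralizer_le_normalizer _)
    have h1 := Cfsg.Agent.Lib.Helper20.card_sup_mul_card_inf_of_le_normalizer hWB
    have hcomm : ∀ x ∈ W ⊔ B, ∀ x' ∈ W ⊔ B, x * x' = x' * x :=
      comm_sup (fun a ha b hb => hVc a (hWV ha) b (hWV hb)) hBc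
        (fun w hw b hb => (((hWmem w).mp hw).2 b hb).symm)
    have h2 : Nat.card (W ⊔ B : Subgroup G) ≤ Nat.card A :=
      hAmax _ (sup_le (hWV.trans hVP) hBP)
        (Cfsg.Agent.Lib.Helper27.isElementaryAbelian_iff.mpr ⟨hcomm, fun a ha => by
          rw [pow_two]
          exact sq_sup (fun w hw => hV2 w (hWV hw)) (fun b hb => hA2 b (hBA hb)) hcomm a ha⟩)
    have h3 : W ⊓ B ≤ W₀ := by
      intro w hw
      obtain ⟨hw1, hw2⟩ := Subgroup.mem_inf.mp hw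
      rw [hW₀mem]
      exact ⟨hWV hw1, fun a ha => hAc a ha w (hBA hw2)⟩
    have h4 : Nat.card (W ⊓ B : Subgroup G) ≤ Nat.card W₀ := Subgroup.card_le_of_le h3
    have h5 : Nat.card A ≤ 2 * Nat.card B := card_le_two_mul ã hB2
    have hBpos : 0 < Nat.card B := Nat.card_pos
    have h6 : Nat.card W * Nat.card B ≤ (2 * Nat.card W₀) * Nat.card B := by
      calc Nat.card W * Nat.card B = Nat.card (W ⊔ B : Subgroup G) * Nat.card (W ⊓ B : Subgroup G) :=
            h1.symm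
        _ ≤ Nat.card A * Nat.card W₀ := Nat.mul_le_mul h2 h4
        _ ≤ (2 * Nat.card B) * Nat.card W₀ := Nat.mul_le_mul_right _ h5
        _ = (2 * Nat.card W₀) * Nat.card B := by ring
    exact Nat.le_of_mul_le_mul_right h6 hBpos
  -- (T6) invariance of `W`
  have hWinv : ∀ g : G, (∀ b ∈ B, g⁻¹ * b * g * b⁻¹ ∈ H) → ∀ w ∈ W, g * w * g⁻¹ ∈ W := by
    intro g hg w hw
    rw [hWmem] at hw ⊢
    refine ⟨hVn g w hw.1, ?_⟩
    intro b hb
    have hcV := hHV _ (hg b hb) w hw.1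
    have hbw := hw.2 b hb
    calc b * (g * w * g⁻¹) = g * ((g⁻¹ * b * g * b⁻¹) * (b * w)) * g⁻¹ := by group
      _ = g * ((g⁻¹ * b * g * b⁻¹) * (w * b)) * g⁻¹ := by rw [hbw]
      _ = g * (((g⁻¹ * b * g * b⁻¹) * w) * b) * g⁻¹ := by group
      _ = g * ((w * (g⁻¹ * b * g * b⁻¹)) * b) * g⁻¹ := by rw [hcV]
      _ = (g * w * g⁻¹) * b := by group
  have hWy : ∀ w ∈ W, y * w * y⁻¹ ∈ W := hWinv y hyB'
  have hWy' : ∀ w ∈ W, y⁻¹ * w * y ∈ W := by
    intro w hw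
    have h1 := hWinv y⁻¹ (by
      intro b hb
      rw [inv_inv]
      exact hyB'' b hb) w hw
    rwa [inv_inv] at h1
  have hWã : ∀ w ∈ W, ã * w * ã⁻¹ ∈ W := by
    intro w hw
    rw [hWmem] at hw ⊢
    refine ⟨hVn ã w hw.1, ?_⟩
    intro b hb
    have h1 : Commute b ã := hAc b (hBA hb) ã hãA
    have h2 : Commute b w := hw.2 b hb
    exact ((h1.mul_right h2).mul_right h1.inv_right).eq
  -- (T7) `y` does not centralise `W`
  have hynot : ¬ (∀ w ∈ W, y * w = w * y) := by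
    intro hall
    apply hyV
    apply pq_abelian V B hVp hVc hBp y m (Nat.Coprime.symm (Nat.coprime_two_left.mpr hmodd))
    · rw [hym]
      exact Subgroup.one_mem _
    · intro b hb
      exact hHCV (hyB b hb)
    · intro w hw hwb
      exact hall w ((hWmem w).mpr ⟨hw, hwb⟩)
  -- (T8) `U = [W, y]`
  obtain ⟨τ, hτ⟩ : ∃ τ : W →* G, ∀ w : W, τ w = (w : G)⁻¹ * (y * w * y⁻¹) := by
    refine ⟨MonoidHom.mk' (fun w : W => (w : G)⁻¹ * (y * w * y⁻¹)) ?_, fun w => rfl⟩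
    intro a b
    have h1 : (b : G)⁻¹ * ((a : G)⁻¹ * (y * a * y⁻¹)) = ((a : G)⁻¹ * (y * a * y⁻¹)) * (b : G)⁻¹ :=
      hVc _ (V.inv_mem (hWV b.2)) _ (V.mul_mem (V.inv_mem (hWV a.2)) (hVn y a (hWV a.2)))
    calc ((a * b : W) : G)⁻¹ * (y * ((a * b : W) : G) * y⁻¹)
        = (b : G)⁻¹ * ((a : G)⁻¹ * (y * a * y⁻¹)) * (y * b * y⁻¹) := by
          rw [Subgroup.coe_mul]
          group
      _ = ((a : G)⁻¹ * (y * a * y⁻¹)) * (b : G)⁻¹ * (y * b * y⁻¹) := by rw [h1]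
      _ = (a : G)⁻¹ * (y * a * y⁻¹) * ((b : G)⁻¹ * (y * b * y⁻¹)) := by group
  obtain ⟨U, hUdef⟩ : ∃ U : Subgroup G, U = τ.range := ⟨_, rfl⟩
  have hUW : U ≤ W := by
    rw [hUdef]
    rintro _ ⟨w, rfl⟩
    rw [hτ]
    exact W.mul_mem (W.inv_mem w.2) (hWy w w.2)
  have hUV : U ≤ V := hUW.trans hWV
  have hUc : ∀ a ∈ U, ∀ b ∈ U, a * b = b * a := fun a ha b hb => hVc a (hUV ha) b (hUV hb)
  have hU1 : U ≠ ⊥ := by
    intro hU
    apply hynot
    intro w hw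
    have h1 : τ ⟨w, hw⟩ ∈ U := hUdef ▸ ⟨_, rfl⟩
    rw [hU, Subgroup.mem_bot, hτ] at h1
    have h2 : y * w * y⁻¹ = w := by
      have : y * w * y⁻¹ = w * (w⁻¹ * (y * w * y⁻¹)) := by group
      rw [this, h1, mul_one]
    calc y * w = (y * w * y⁻¹) * y := by group
      _ = w * y := by rw [h2]
  have hUfpf : ∀ u ∈ U, y * u * y⁻¹ = u → u = 1 := by
    intro u hu hyu
    have huV : u ∈ V := hUV hu
    have hyu' : y * u = u * y := by
      calc y * u = (y * u * y⁻¹) * y := by group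
        _ = u * y := by rw [hyu]
    rw [hUdef] at hu
    obtain ⟨w, hw⟩ := hu
    rw [hτ] at hw
    have hpow := tau_pow u hw.symm hyu' m
    rw [hym, one_mul, inv_one, mul_one, inv_mul_cancel] at hpow
    have h2 := hV2 u huV
    rw [hc', pow_succ, pow_mul, pow_two, h2, one_pow, one_mul] at hpow
    exact hpow
  have hyU : y ∈ Subgroup.normalizer (U : Set G) := by
    apply Cfsg.Agent.Lib.Helper19.mem_normalizer_of_forall_conj_mem
    intro u hu
    rw [hUdef] at hu ⊢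
    obtain ⟨w, rfl⟩ := hu
    refine ⟨⟨y * w * y⁻¹, hWy w w.2⟩, ?_⟩
    rw [hτ, hτ]
    change (y * (w : G) * y⁻¹)⁻¹ * (y * (y * (w : G) * y⁻¹) * y⁻¹) = y * ((w : G)⁻¹ * (y * w * y⁻¹)) * y⁻¹
    group
  have hãU : ã ∈ Subgroup.normalizer (U : Set G) := by
    apply Cfsg.Agent.Lib.Helper19.mem_normalizer_of_forall_conj_mem
    intro u hu
    rw [hUdef] at hu ⊢
    obtain ⟨w, rfl⟩ := hu
    have hw' : ã * w * ã⁻¹ ∈ W := hWã w w.2
    have hw₂ : y⁻¹ * (ã * w * ã⁻¹) * y ∈ W := hWy' _ hw'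
    refine ⟨(⟨y⁻¹ * (ã * w * ã⁻¹) * y, hw₂⟩ : W)⁻¹, ?_⟩
    rw [map_inv, hτ, hτ]
    have hh := hHV _ hya (y⁻¹ * (ã * w * ã⁻¹) * y) (hWV hw₂)
    change ((y⁻¹ * (ã * (w : G) * ã⁻¹) * y)⁻¹ * (y * (y⁻¹ * (ã * (w : G) * ã⁻¹) * y) * y⁻¹))⁻¹ =
      ã * ((w : G)⁻¹ * (y * w * y⁻¹)) * ã⁻¹
    calc ((y⁻¹ * (ã * (w : G) * ã⁻¹) * y)⁻¹ * (y * (y⁻¹ * (ã * (w : G) * ã⁻¹) * y) * y⁻¹))⁻¹
        = (ã * (w : G) * ã⁻¹)⁻¹ * ((y⁻¹ * (ã * (w : G) * ã⁻¹) * y) * (ã * y * ã⁻¹ * y)) *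
            (ã * y * ã⁻¹ * y)⁻¹ := by group
      _ = (ã * (w : G) * ã⁻¹)⁻¹ * ((ã * y * ã⁻¹ * y) * (y⁻¹ * (ã * (w : G) * ã⁻¹) * y)) *
            (ã * y * ã⁻¹ * y)⁻¹ := by rw [hh]
      _ = ã * ((w : G)⁻¹ * (y * w * y⁻¹)) * ã⁻¹ := by group
  have hãUn : ∃ u ∈ U, ã * u * ã⁻¹ ≠ u := by
    by_contra hcon
    push Not at hcon
    apply hU1
    rw [eq_bot_iff]
    intro u hu
    rw [Subgroup.mem_bot]
    apply hUfpf u hu
    have hyu : y * u * y⁻¹ ∈ U := (Subgroup.mem_normalizer_iff.mp hyU u).mp hu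
    have h1 := hcon u hu
    have h2 := hcon _ hyu
    have e1 : ã * (y * u * y⁻¹) * ã⁻¹ =
        (ã * y * ã⁻¹ * y) * (y⁻¹ * (ã * u * ã⁻¹) * y) * (ã * y * ã⁻¹ * y)⁻¹ := by group
    rw [h2, h1] at e1
    have hXV : y⁻¹ * u * y ∈ V := by
      have := hVn y⁻¹ u (hUV hu)
      rwa [inv_inv] at this
    have hX := hHV _ hya _ hXV
    rw [hX, mul_inv_cancel_right] at e1
    have hc2 : Commute (y * y) u := by
      show y * y * u = u * (y * y)
      calc y * y * u = y * (y * u * y⁻¹) * y := by group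
        _ = y * (y⁻¹ * u * y) * y := by rw [e1]
        _ = u * (y * y) := by group
    have hc1 : Commute y u := hyy ▸ hc2.pow_left (c' + 1)
    calc y * u * y⁻¹ = u * y * y⁻¹ := by rw [hc1.eq]
      _ = u := by group
  -- the order of `U`
  have hU4 : Nat.card U = 4 := by
    obtain ⟨Cy, hCydef⟩ : ∃ Cy : Subgroup G, Cy = W ⊓ Subgroup.centralizer ({y} : Set G) :=
      ⟨_, rfl⟩
    have hCymem : ∀ w, w ∈ Cy ↔ w ∈ W ∧ y * w = w * y := by
      intro w
      rw [hCydef, Subgroup.mem_inf, Subgroup.mem_centralizer_iff]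
      constructor
      · rintro ⟨h1, h2⟩
        exact ⟨h1, h2 y rfl⟩
      · rintro ⟨h1, h2⟩
        refine ⟨h1, fun h hh => ?_⟩
        rw [Set.mem_singleton_iff] at hh
        rw [hh]
        exact h2
    have hker : τ.ker = Cy.subgroupOf W := by
      ext w
      rw [MonoidHom.mem_ker, hτ, Subgroup.mem_subgroupOf, hCymem]
      constructor
      · intro h
        refine ⟨w.2, ?_⟩
        have h2 : y * (w : G) * y⁻¹ = w := by
          have : y * (w : G) * y⁻¹ = w * ((w : G)⁻¹ * (y * w * y⁻¹)) := by group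
          rw [this, h, mul_one]
        calc y * (w : G) = (y * w * y⁻¹) * y := by group
          _ = w * y := by rw [h2]
      · rintro ⟨-, h⟩
        rw [h]
        group
    have hcardW : Nat.card Cy * Nat.card U = Nat.card W := by
      have h1 := Subgroup.card_mul_index τ.ker
      rw [Subgroup.index_ker, hker] at h1
      rw [hUdef, ← h1]
      congr 1
      exact (Nat.card_congr (Subgroup.subgroupOfEquivOfLe
        (hCydef ▸ inf_le_left : Cy ≤ W)).toEquiv).symm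
    obtain ⟨W₁, hW₁def⟩ : ∃ W₁ : Subgroup G, W₁ = W₀.map (MulAut.conj y).toMonoidHom := ⟨_, rfl⟩
    have hW₁card : Nat.card W₁ = Nat.card W₀ := by
      rw [hW₁def]
      exact Subgroup.card_map_of_injective (MulAut.conj y).injective
    have hW₁W : W₁ ≤ W := by
      rw [hW₁def]
      rintro _ ⟨w, hw, rfl⟩
      exact hWy w (hW₀W hw)
    have hI : W₀ ⊓ W₁ ≤ Cy := by
      intro w hw
      obtain ⟨hw0, hw1⟩ := Subgroup.mem_inf.mp hw
      rw [hCymem]
      refine ⟨hW₀W hw0, ?_⟩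
      rw [hW₁def] at hw1
      obtain ⟨w', hw', hw'w⟩ := hw1
      have e : y * w' * y⁻¹ = w := hw'w
      have hã0 := ((hW₀mem w).mp hw0).2 ã hãA
      have hã1 := ((hW₀mem w').mp hw').2 ã hãA
      have hwV : w ∈ V := ((hW₀mem w).mp hw0).1
      have c1 : Commute ã w := hã0
      have c2 : Commute (y * ã * y⁻¹) w := by
        rw [← e]
        show y * ã * y⁻¹ * (y * w' * y⁻¹) = y * w' * y⁻¹ * (y * ã * y⁻¹)
        calc y * ã * y⁻¹ * (y * w' * y⁻¹) = y * (ã * w') * y⁻¹ := by group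
          _ = y * (w' * ã) * y⁻¹ := by rw [hã1]
          _ = y * w' * y⁻¹ * (y * ã * y⁻¹) := by group
      have c3 : Commute (ã * y * ã⁻¹ * y) w := hHV _ hya w hwV
      have e2 : y * y = (y * ã * y⁻¹) * ã⁻¹ * (ã * y * ã⁻¹ * y) := by group
      have c4 : Commute (y * y) w := by
        rw [e2]
        exact (c2.mul_left c1.inv_left).mul_left c3
      have hc1 : Commute y w := hyy ▸ c4.pow_left (c' + 1)
      exact hc1.eq
    have h1 := Cfsg.Agent.Lib.Helper6.card_mul_card_le_sup_mul_inf W₀ W₁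
    have h2 : Nat.card (W₀ ⊔ W₁ : Subgroup G) ≤ Nat.card W :=
      Subgroup.card_le_of_le (sup_le hW₀W hW₁W)
    have h3 : Nat.card (W₀ ⊓ W₁ : Subgroup G) ≤ Nat.card Cy := Subgroup.card_le_of_le hI
    rw [hW₁card] at h1
    have hWpos : 0 < Nat.card W := Nat.card_pos
    have h4 : Nat.card W ≤ 4 * Nat.card Cy := by
      have h5 : Nat.card W * Nat.card W ≤ (4 * Nat.card Cy) * Nat.card W := by
        calc Nat.card W * Nat.card W ≤ (2 * Nat.card W₀) * (2 * Nat.card W₀) :=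
              Nat.mul_le_mul hoff hoff
          _ = 4 * (Nat.card W₀ * Nat.card W₀) := by ring
          _ ≤ 4 * (Nat.card (W₀ ⊔ W₁ : Subgroup G) * Nat.card (W₀ ⊓ W₁ : Subgroup G)) :=
              Nat.mul_le_mul_left _ h1
          _ ≤ 4 * (Nat.card W * Nat.card Cy) := Nat.mul_le_mul_left _ (Nat.mul_le_mul h2 h3)
          _ = (4 * Nat.card Cy) * Nat.card W := by ring
      exact Nat.le_of_mul_le_mul_right h5 hWpos
    have hCypos : 0 < Nat.card Cy := Nat.card_pos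
    have hU4le : Nat.card U ≤ 4 := by
      have h5 : Nat.card U * Nat.card Cy ≤ 4 * Nat.card Cy := by
        rw [mul_comm, hcardW]
        exact h4
      exact Nat.le_of_mul_le_mul_right h5 hCypos
    obtain ⟨i, hi⟩ := IsPGroup.iff_card.mp (hPp.to_le (hUV.trans hVP))
    have hi2 : i ≤ 2 := by
      by_contra h
      have h3 : 3 ≤ i := by omega
      have h4 := Nat.pow_le_pow_right (show 0 < 2 by norm_num) h3
      omega
    have hi0 : i ≠ 0 := by
      rintro rfl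
      rw [pow_zero] at hi
      exact hU1 (Subgroup.eq_bot_of_card_eq U hi)
    have hi1 : i ≠ 1 := by
      rintro rfl
      rw [pow_one] at hi
      obtain ⟨u, hu, hu1⟩ : ∃ u ∈ U, u ≠ 1 := by
        by_contra hcon
        push Not at hcon
        apply hU1
        rw [eq_bot_iff]
        intro x hx
        exact Subgroup.mem_bot.mpr (hcon x hx)
      have hyu : y * u * y⁻¹ ∈ U := (Subgroup.mem_normalizer_iff.mp hyU u).mp hu
      have hyu1 : y * u * y⁻¹ ≠ 1 := fun h => hu1 (conj_eq_one_iff.mp h)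
      obtain ⟨x, -, hx⟩ := (Nat.card_eq_two_iff' (1 : U)).mp hi
      have e1 := hx ⟨u, hu⟩ (fun h => hu1 (congrArg Subtype.val h))
      have e2 := hx ⟨y * u * y⁻¹, hyu⟩ (fun h => hyu1 (congrArg Subtype.val h))
      have e3 : y * u * y⁻¹ = u := congrArg Subtype.val (e2.trans e1.symm)
      exact hu1 (hUfpf u hu e3)
    have hi' : i = 2 := by omega
    rw [hi, hi']
    norm_num
  have hãY : ã ∈ Subgroup.normalizer ((Subgroup.zpowers y : Subgroup G) : Set G) := by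
    apply Cfsg.Agent.Lib.Helper19.mem_normalizer_of_forall_conj_mem
    intro u hu
    obtain ⟨k, rfl⟩ := Subgroup.mem_zpowers_iff.mp hu
    rw [← conj_zpow, hyã]
    exact Subgroup.zpow_mem _ (Subgroup.inv_mem _ (Subgroup.mem_zpowers y)) k
  exact involves_s4 U hU4 hUc y ã hyU hãU hyodd hUfpf hãY
    ⟨1, by rw [pow_one, pow_two]; exact hA2 ã hãA⟩ hãUn

end Cfsg.Agent.Lib.Helper17
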