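import Mathlib
import Cfsg.Agent.Lib.Helper26.Sp2Sq
import Cfsg.Agent.Lib.Helper21.Basic

set_option autoImplicit false

/-!
Squares in a Sylow `2`-subgroup of `GL₂(q)`, `q ≡ 3 (mod 4)`, lie in its commutator subgroup.
-/

namespace Cfsg.Agent.Lib.Helper17.GL2Sq

open scoped commutatorElement Pointwise

theorem mem_range_toGL_iff {n : Type*} [DecidableEq n] [Fintype n] {R : Type*} [CommRing R]
    (g : Matrix.GeneralLinearGroup n R) :
    g ∈ (Matrix.SpecialLinearGroup.toGL :
      Matrix.SpecialLinearGroup n R →* Matrix.GeneralLinearGroup n R).range ↔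
      Matrix.GeneralLinearGroup.det g = 1 := by
  constructor
  · rintro ⟨x, rfl⟩
    exact Matrix.SpecialLinearGroup.coeToGL_det x
  · intro h
    have hdet : (g : Matrix n n R).det = 1 := congrArg Units.val h
    refine ⟨⟨(g : Matrix n n R), hdet⟩, ?_⟩
    apply Units.ext
    rfl

theorem range_toGL_normal {n : Type*} [DecidableEq n] [Fintype n] {R : Type*} [CommRing R] :
    (Matrix.SpecialLinearGroup.toGL :
      Matrix.SpecialLinearGroup n R →* Matrix.GeneralLinearGroup n R).range.Normal := by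
  constructor
  intro x hx g
  rw [mem_range_toGL_iff] at hx ⊢
  rw [map_mul, map_mul, hx, mul_one, ← map_mul, mul_inv_cancel, map_one]

theorem map_mem_commutator {A B : Type*} [Group A] [Group B] (f : A →* B) {x : A}
    (hx : x ∈ commutator A) : f x ∈ commutator B := by
  rw [← Abelianization.ker_of, MonoidHom.mem_ker]
  have h1 : commutator A ≤ ((Abelianization.of : B →* Abelianization B).comp f).ker :=
    Abelianization.commutator_subset_ker _
  exact h1 hx

theorem sl2_sylow_sq {F : Type*} [Field F] [Fintype F] (hF : Odd (Fintype.card F))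
    (P : Sylow 2 (Matrix.SpecialLinearGroup (Fin 2) F)) :
    ∀ u : ↥(P : Subgroup (Matrix.SpecialLinearGroup (Fin 2) F)),
      u ^ 2 ∈ commutator ↥(P : Subgroup (Matrix.SpecialLinearGroup (Fin 2) F)) := by
  obtain ⟨k, hk, ⟨φ⟩⟩ := Cfsg.Agent.S0261.result hF P
  exact Cfsg.Agent.Lib.Helper26.GenOrdP.pow_mem_commutator_of_surjective φ.symm.toMonoidHom
    φ.symm.surjective 2 (Cfsg.Agent.Lib.Helper26.Sp2Sq.quat_sq_mem_commutator k hk)

theorem gl2_sylow_sq_mem_commutator {F : Type*} [Field F] [Fintype F]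
    (hq : 4 ∣ Fintype.card F + 1) (S : Sylow 2 (Matrix.GeneralLinearGroup (Fin 2) F)) :
    ∀ u : (S : Subgroup (Matrix.GeneralLinearGroup (Fin 2) F)),
      u ^ 2 ∈ commutator (S : Subgroup (Matrix.GeneralLinearGroup (Fin 2) F)) := by
  classical
  have hp2 : Fact (Nat.Prime 2) := ⟨Nat.prime_two⟩
  have hodd : Odd (Fintype.card F) := by
    obtain ⟨c, hc⟩ := hq
    exact ⟨2 * c - 1, by omega⟩
  obtain ⟨ι, hιdef⟩ : ∃ ι : Matrix.SpecialLinearGroup (Fin 2) F →*
      Matrix.GeneralLinearGroup (Fin 2) F, ι = Matrix.SpecialLinearGroup.toGL := ⟨_, rfl⟩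
  have hιinj : Function.Injective ι := by
    rw [hιdef]
    exact Matrix.SpecialLinearGroup.toGL_injective
  have hrange : ∀ g : Matrix.GeneralLinearGroup (Fin 2) F,
      g ∈ ι.range ↔ Matrix.GeneralLinearGroup.det g = 1 := by
    intro g
    rw [hιdef]
    exact mem_range_toGL_iff g
  have hNn : ι.range.Normal := by
    rw [hιdef]
    exact range_toGL_normal
  have hS1p : IsPGroup 2 ((S : Subgroup (Matrix.GeneralLinearGroup (Fin 2) F)).comap ι) :=
    S.isPGroup'.comap_of_injective ι hιinj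
  have hS1idx : ¬ 2 ∣ ((S : Subgroup (Matrix.GeneralLinearGroup (Fin 2) F)).comap ι).index := by
    rw [Subgroup.index_comap, ← Subgroup.inf_relIndex_right]
    exact Cfsg.Agent.Lib.Helper21.not_dvd_relIndex_sylow_inf_normal S ι.range
  obtain ⟨P1, hP1def⟩ : ∃ P1 : Sylow 2 (Matrix.SpecialLinearGroup (Fin 2) F),
      P1 = hS1p.toSylow hS1idx := ⟨_, rfl⟩
  have hP1mem : ∀ y : Matrix.SpecialLinearGroup (Fin 2) F,
      y ∈ (P1 : Subgroup (Matrix.SpecialLinearGroup (Fin 2) F)) ↔
        ι y ∈ (S : Subgroup (Matrix.GeneralLinearGroup (Fin 2) F)) := by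
    intro y
    rw [hP1def]
    show y ∈ hS1p.toSylow hS1idx ↔ _
    rw [IsPGroup.mem_toSylow, Subgroup.mem_comap]
  obtain ⟨φ, hφ⟩ : ∃ φ : ↥(P1 : Subgroup (Matrix.SpecialLinearGroup (Fin 2) F)) →*
      ↥(S : Subgroup (Matrix.GeneralLinearGroup (Fin 2) F)),
      ∀ y, (φ y : Matrix.GeneralLinearGroup (Fin 2) F) =
        ι (y : Matrix.SpecialLinearGroup (Fin 2) F) :=
    ⟨(ι.comp (P1 : Subgroup (Matrix.SpecialLinearGroup (Fin 2) F)).subtype).codRestrict
      (S : Subgroup (Matrix.GeneralLinearGroup (Fin 2) F)) (fun y => (hP1mem y).mp y.2),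
      fun y => rfl⟩
  have hcase1 : ∀ v : ↥(S : Subgroup (Matrix.GeneralLinearGroup (Fin 2) F)),
      Matrix.GeneralLinearGroup.det (v : Matrix.GeneralLinearGroup (Fin 2) F) = 1 →
      v ^ 2 ∈ commutator ↥(S : Subgroup (Matrix.GeneralLinearGroup (Fin 2) F)) := by
    intro v hv
    obtain ⟨y, hy⟩ := (hrange (v : Matrix.GeneralLinearGroup (Fin 2) F)).mpr hv
    have hyP : y ∈ (P1 : Subgroup (Matrix.SpecialLinearGroup (Fin 2) F)) := by
      rw [hP1mem, hy]
      exact v.2
    have h1 := sl2_sylow_sq hodd P1 ⟨y, hyP⟩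
    have h2 := map_mem_commutator φ h1
    have e : φ (⟨y, hyP⟩ ^ 2) = v ^ 2 := by
      rw [map_pow]
      congr 1
      exact Subtype.ext ((hφ _).trans hy)
    rw [e] at h2
    exact h2
  have hdet : ∀ s : Matrix.GeneralLinearGroup (Fin 2) F,
      s ∈ (S : Subgroup (Matrix.GeneralLinearGroup (Fin 2) F)) →
      Matrix.GeneralLinearGroup.det s = 1 ∨ Matrix.GeneralLinearGroup.det s = -1 := by
    intro s hs
    obtain ⟨k, hk⟩ := S.isPGroup' ⟨s, hs⟩
    have hk' : s ^ (2 ^ k) = 1 := congrArg Subtype.val hk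
    obtain ⟨d, hd⟩ : ∃ d : Fˣ, d = Matrix.GeneralLinearGroup.det s := ⟨_, rfl⟩
    rw [← hd]
    have h1 : d ^ (2 ^ k) = 1 := by rw [hd, ← map_pow, hk', map_one]
    have h2 : d ^ (Fintype.card F - 1) = 1 := by
      have h := pow_card_eq_one (G := Fˣ) (x := d)
      rwa [Fintype.card_units] at h
    have h3 : d ^ 2 = 1 := by
      have hord1 : orderOf d ∣ 2 ^ k := orderOf_dvd_of_pow_eq_one h1
      have hord2 : orderOf d ∣ Fintype.card F - 1 := orderOf_dvd_of_pow_eq_one h2
      obtain ⟨j, hj, hoj⟩ := (Nat.dvd_prime_pow Nat.prime_two).mp hord1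
      have hj1 : j ≤ 1 := by
        by_contra hcon
        have h4 : 4 ∣ orderOf d := by
          rw [hoj]
          exact dvd_trans (by norm_num : 4 ∣ 2 ^ 2) (pow_dvd_pow 2 (by omega))
        have h5 : 4 ∣ Fintype.card F - 1 := h4.trans hord2
        obtain ⟨c, hc⟩ := hq
        obtain ⟨c', hc'⟩ := h5
        omega
      have h6 : orderOf d ∣ 2 := by
        rw [hoj]
        exact (pow_dvd_pow 2 hj1).trans (by norm_num)
      exact orderOf_dvd_iff_pow_eq_one.mp h6
    have h4 : (d : F) * (d : F) = 1 := by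
      have h := congrArg Units.val h3
      rw [pow_two] at h
      exact h
    rcases mul_self_eq_one_iff.mp h4 with h | h
    · left
      exact Units.ext h
    · right
      apply Units.ext
      rw [h]
      simp
  obtain ⟨t, htS, htdet, htt⟩ : ∃ t : Matrix.GeneralLinearGroup (Fin 2) F,
      t ∈ (S : Subgroup (Matrix.GeneralLinearGroup (Fin 2) F)) ∧
      Matrix.GeneralLinearGroup.det t = -1 ∧ t * t = 1 := by
    have hdd : (Matrix.diagonal ![(1 : F), -1]) * (Matrix.diagonal ![(1 : F), -1]) = 1 := by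
      rw [Matrix.diagonal_mul_diagonal, ← Matrix.diagonal_one]
      congr 1
      funext i
      fin_cases i <;> simp
    obtain ⟨d0, hd0def⟩ : ∃ d0 : Matrix.GeneralLinearGroup (Fin 2) F,
        (d0 : Matrix (Fin 2) (Fin 2) F) = Matrix.diagonal ![(1 : F), -1] :=
      ⟨⟨Matrix.diagonal ![(1 : F), -1], Matrix.diagonal ![(1 : F), -1], hdd, hdd⟩, rfl⟩
    have hd0 : d0 * d0 = 1 := by
      apply Units.ext
      rw [Units.val_mul, hd0def]
      exact hdd
    have hd0det : Matrix.GeneralLinearGroup.det d0 = -1 := by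
      apply Units.ext
      show (d0 : Matrix (Fin 2) (Fin 2) F).det = ((-1 : Fˣ) : F)
      rw [hd0def, Matrix.det_diagonal]
      simp
    have hzp : IsPGroup 2 (Subgroup.zpowers d0) := by
      have h1 : orderOf d0 ∣ 2 ^ 1 := by
        rw [pow_one]
        exact orderOf_dvd_of_pow_eq_one (by rw [pow_two]; exact hd0)
      obtain ⟨j, -, hj⟩ := (Nat.dvd_prime_pow Nat.prime_two).mp h1
      exact IsPGroup.of_card (n := j) (by rw [Nat.card_zpowers, hj])
    obtain ⟨Q, hQ⟩ := hzp.exists_le_sylow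
    obtain ⟨g, hg⟩ := MulAction.exists_smul_eq (Matrix.GeneralLinearGroup (Fin 2) F) Q S
    have hd0Q : d0 ∈ (Q : Subgroup (Matrix.GeneralLinearGroup (Fin 2) F)) :=
      hQ (Subgroup.mem_zpowers d0)
    have ht : g * d0 * g⁻¹ ∈ (S : Subgroup (Matrix.GeneralLinearGroup (Fin 2) F)) := by
      rw [← hg]
      change g * d0 * g⁻¹ ∈ MulAut.conj g • (Q : Subgroup (Matrix.GeneralLinearGroup (Fin 2) F))
      exact Subgroup.smul_mem_pointwise_smul d0 (MulAut.conj g)
        (Q : Subgroup (Matrix.GeneralLinearGroup (Fin 2) F)) hd0Q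
    refine ⟨g * d0 * g⁻¹, ht, ?_, ?_⟩
    · rw [map_mul, map_mul, map_inv, hd0det,
        mul_comm (Matrix.GeneralLinearGroup.det g), mul_assoc, mul_inv_cancel, mul_one]
    · calc g * d0 * g⁻¹ * (g * d0 * g⁻¹) = g * (d0 * d0) * g⁻¹ := by group
        _ = 1 := by rw [hd0]; group
  intro u
  rcases hdet (u : Matrix.GeneralLinearGroup (Fin 2) F) u.2 with h1 | h1
  · exact hcase1 u h1
  · obtain ⟨t', ht'⟩ : ∃ t' : ↥(S : Subgroup (Matrix.GeneralLinearGroup (Fin 2) F)),
        (t' : Matrix.GeneralLinearGroup (Fin 2) F) = t := ⟨⟨t, htS⟩, rfl⟩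
    have ht't' : t' * t' = 1 := by
      apply Subtype.ext
      rw [Subgroup.coe_mul, ht']
      exact htt
    have hvdet : Matrix.GeneralLinearGroup.det
        ((u * t' : ↥(S : Subgroup (Matrix.GeneralLinearGroup (Fin 2) F))) :
          Matrix.GeneralLinearGroup (Fin 2) F) = 1 := by
      rw [Subgroup.coe_mul, map_mul, h1, ht', htdet]
      simp
    have hv2 := hcase1 (u * t') hvdet
    have e : u ^ 2 = (u * t') ^ 2 * ⁅(u * t')⁻¹, t'⁆ := by
      calc u ^ 2 = u * (t' * t') * u := by rw [ht't', mul_one, pow_two]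
        _ = (u * t') ^ 2 * ⁅(u * t')⁻¹, t'⁆ := by
          rw [commutatorElement_def, pow_two]
          group
    rw [e]
    exact Subgroup.mul_mem _ hv2
      (Subgroup.commutator_mem_commutator (Subgroup.mem_top _) (Subgroup.mem_top _))

end Cfsg.Agent.Lib.Helper17.GL2Sq
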