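import Mathlib
import Cfsg.Agent.Lib.Helper17.GL2Sq

set_option autoImplicit false

/-!
A Sylow `2`-subgroup of `GL₂(q)`, `q` odd: its determinant-one part has squares in its own
commutator subgroup, and for `q ≡ 3 (mod 4)` it contains an involution of determinant `-1`.
-/

namespace Cfsg.Agent.Lib.Helper17.GL2Good

open scoped commutatorElement Pointwise

theorem sylow_gl2_good {F : Type*} [Field F] [Fintype F] (hF : Odd (Fintype.card F))
    (S : Sylow 2 (Matrix.GeneralLinearGroup (Fin 2) F)) :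
    (∀ t ∈ (S : Subgroup (Matrix.GeneralLinearGroup (Fin 2) F)) ⊓ (Matrix.GeneralLinearGroup.det : Matrix.GeneralLinearGroup (Fin 2) F →* Fˣ).ker,
      t ^ 2 ∈ ⁅(S : Subgroup (Matrix.GeneralLinearGroup (Fin 2) F)) ⊓ (Matrix.GeneralLinearGroup.det : Matrix.GeneralLinearGroup (Fin 2) F →* Fˣ).ker,
        (S : Subgroup (Matrix.GeneralLinearGroup (Fin 2) F)) ⊓ (Matrix.GeneralLinearGroup.det : Matrix.GeneralLinearGroup (Fin 2) F →* Fˣ).ker⁆) ∧
    (4 ∣ Fintype.card F + 1 → ∃ t ∈ (S : Subgroup (Matrix.GeneralLinearGroup (Fin 2) F)), t ^ 2 = 1 ∧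
      ∀ s ∈ (S : Subgroup (Matrix.GeneralLinearGroup (Fin 2) F)),
        Matrix.GeneralLinearGroup.det s = 1 ∨
          Matrix.GeneralLinearGroup.det s = Matrix.GeneralLinearGroup.det t) := by
  classical
  have hp2 : Fact (Nat.Prime 2) := ⟨Nat.prime_two⟩
  have hodd : Odd (Fintype.card F) := hF
  constructor
  ·
    obtain ⟨ι, hιdef⟩ : ∃ ι : Matrix.SpecialLinearGroup (Fin 2) F →*
        Matrix.GeneralLinearGroup (Fin 2) F, ι = Matrix.SpecialLinearGroup.toGL := ⟨_, rfl⟩
    have hιinj : Function.Injective ι := by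
      rw [hιdef]
      exact Matrix.SpecialLinearGroup.toGL_injective
    have hrange : ∀ g : Matrix.GeneralLinearGroup (Fin 2) F,
        g ∈ ι.range ↔ Matrix.GeneralLinearGroup.det g = 1 := by
      intro g
      rw [hιdef]
      exact Cfsg.Agent.Lib.Helper17.GL2Sq.mem_range_toGL_iff g
    have hNn : ι.range.Normal := by
      rw [hιdef]
      exact Cfsg.Agent.Lib.Helper17.GL2Sq.range_toGL_normal
    have hS1p : IsPGroup 2 ((S : Subgroup (Matrix.GeneralLinearGroup (Fin 2) F)).comap ι) :=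
      S.isPGroup'.comap_of_injective ι hιinj
    have hS1idx : ¬ 2 ∣ ((S : Subgroup (Matrix.GeneralLinearGroup (Fin 2) F)).comap ι).index := by
      rw [Subgroup.index_comap, ← Subgroup.inf_relIndex_right]
      exact Cfsg.Agent.Lib.Helper21.not_dvd_relIndex_sylow_inf_normal S ι.range
    obtain ⟨P1, hP1def⟩ : ∃ P1 : Sylow 2 (Matrix.SpecialLinearGroup (Fin 2) F),
        P1 = hS1p.toSylow hS1idx := ⟨_, rfl⟩
    have hP1mem : ∀ y : Matrix.SpecialLinearGroup (Fin 2) F,
        y ∈ (P1 : Subgroup (Matrix.SpecialLinearGroup (Fin 2) F)) ↔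
          ι y ∈ (S : Subgroup (Matrix.GeneralLinearGroup (Fin 2) F)) := by
      intro y
      rw [hP1def]
      show y ∈ hS1p.toSylow hS1idx ↔ _
      rw [IsPGroup.mem_toSylow, Subgroup.mem_comap]

    obtain ⟨ψ, hψ⟩ : ∃ ψ : ↥(P1 : Subgroup (Matrix.SpecialLinearGroup (Fin 2) F)) →*
        Matrix.GeneralLinearGroup (Fin 2) F, ∀ z, ψ z = ι (z : Matrix.SpecialLinearGroup (Fin 2) F) :=
      ⟨ι.comp (P1 : Subgroup (Matrix.SpecialLinearGroup (Fin 2) F)).subtype, fun z => rfl⟩
    intro t ht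
    obtain ⟨htS, htk⟩ := Subgroup.mem_inf.mp ht
    have htdet : Matrix.GeneralLinearGroup.det t = 1 := MonoidHom.mem_ker.mp htk
    obtain ⟨y, hy⟩ := (hrange t).mpr htdet
    have hyP : y ∈ (P1 : Subgroup (Matrix.SpecialLinearGroup (Fin 2) F)) := by
      rw [hP1mem, hy]
      exact htS
    have h1 := Cfsg.Agent.Lib.Helper17.GL2Sq.sl2_sylow_sq hodd P1 ⟨y, hyP⟩
    have h2 : ψ (⟨y, hyP⟩ ^ 2) ∈ (commutator
        ↥(P1 : Subgroup (Matrix.SpecialLinearGroup (Fin 2) F))).map ψ :=
      Subgroup.mem_map_of_mem ψ h1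
    rw [commutator_def, Subgroup.map_commutator] at h2
    have hle : (⊤ : Subgroup ↥(P1 : Subgroup (Matrix.SpecialLinearGroup (Fin 2) F))).map ψ ≤
        (S : Subgroup (Matrix.GeneralLinearGroup (Fin 2) F)) ⊓ (Matrix.GeneralLinearGroup.det : Matrix.GeneralLinearGroup (Fin 2) F →* Fˣ).ker := by
      rintro _ ⟨z, -, rfl⟩
      rw [hψ]
      refine Subgroup.mem_inf.mpr ⟨(hP1mem z).mp z.2, ?_⟩
      rw [MonoidHom.mem_ker]
      exact (hrange _).mp ⟨(z : Matrix.SpecialLinearGroup (Fin 2) F), rfl⟩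
    have h3 := Subgroup.commutator_mono hle hle h2
    have e : ψ (⟨y, hyP⟩ ^ 2) = t ^ 2 := by
      rw [map_pow, hψ]
      exact congrArg (fun w => w ^ 2) hy
    rw [e] at h3
    exact h3
  · intro hq
    have hdet : ∀ s : Matrix.GeneralLinearGroup (Fin 2) F,
        s ∈ (S : Subgroup (Matrix.GeneralLinearGroup (Fin 2) F)) →
        Matrix.GeneralLinearGroup.det s = 1 ∨ Matrix.GeneralLinearGroup.det s = -1 := by
      intro s hs
      obtain ⟨k, hk⟩ := S.isPGroup' ⟨s, hs⟩
      have hk' : s ^ (2 ^ k) = 1 := congrArg Subtype.val hk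
      obtain ⟨d, hd⟩ : ∃ d : Fˣ, d = Matrix.GeneralLinearGroup.det s := ⟨_, rfl⟩
      rw [← hd]
      have h1 : d ^ (2 ^ k) = 1 := by rw [hd, ← map_pow, hk', map_one]
      have h2 : d ^ (Fintype.card F - 1) = 1 := by
        have h := pow_card_eq_one (G := Fˣ) (x := d)
        rwa [Fintype.card_units] at h
      have h3 : d ^ 2 = 1 := by
        have hord1 : orderOf d ∣ 2 ^ k := orderOf_dvd_of_pow_eq_one h1
        have hord2 : orderOf d ∣ Fintype.card F - 1 := orderOf_dvd_of_pow_eq_one h2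
        obtain ⟨j, hj, hoj⟩ := (Nat.dvd_prime_pow Nat.prime_two).mp hord1
        have hj1 : j ≤ 1 := by
          by_contra hcon
          have h4 : 4 ∣ orderOf d := by
            rw [hoj]
            exact dvd_trans (by norm_num : 4 ∣ 2 ^ 2) (pow_dvd_pow 2 (by omega))
          have h5 : 4 ∣ Fintype.card F - 1 := h4.trans hord2
          obtain ⟨c, hc⟩ := hq
          obtain ⟨c', hc'⟩ := h5
          omega
        have h6 : orderOf d ∣ 2 := by
          rw [hoj]
          exact (pow_dvd_pow 2 hj1).trans (by norm_num)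
        exact orderOf_dvd_iff_pow_eq_one.mp h6
      have h4 : (d : F) * (d : F) = 1 := by
        have h := congrArg Units.val h3
        rw [pow_two] at h
        exact h
      rcases mul_self_eq_one_iff.mp h4 with h | h
      · left
        exact Units.ext h
      · right
        apply Units.ext
        rw [h]
        simp

    obtain ⟨t, htS, htdet, htt⟩ : ∃ t : Matrix.GeneralLinearGroup (Fin 2) F,
        t ∈ (S : Subgroup (Matrix.GeneralLinearGroup (Fin 2) F)) ∧
        Matrix.GeneralLinearGroup.det t = -1 ∧ t * t = 1 := by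
      have hdd : (Matrix.diagonal ![(1 : F), -1]) * (Matrix.diagonal ![(1 : F), -1]) = 1 := by
        rw [Matrix.diagonal_mul_diagonal, ← Matrix.diagonal_one]
        congr 1
        funext i
        fin_cases i <;> simp
      obtain ⟨d0, hd0def⟩ : ∃ d0 : Matrix.GeneralLinearGroup (Fin 2) F,
          (d0 : Matrix (Fin 2) (Fin 2) F) = Matrix.diagonal ![(1 : F), -1] :=
        ⟨⟨Matrix.diagonal ![(1 : F), -1], Matrix.diagonal ![(1 : F), -1], hdd, hdd⟩, rfl⟩
      have hd0 : d0 * d0 = 1 := by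
        apply Units.ext
        rw [Units.val_mul, hd0def]
        exact hdd
      have hd0det : Matrix.GeneralLinearGroup.det d0 = -1 := by
        apply Units.ext
        show (d0 : Matrix (Fin 2) (Fin 2) F).det = ((-1 : Fˣ) : F)
        rw [hd0def, Matrix.det_diagonal]
        simp
      have hzp : IsPGroup 2 (Subgroup.zpowers d0) := by
        have h1 : orderOf d0 ∣ 2 ^ 1 := by
          rw [pow_one]
          exact orderOf_dvd_of_pow_eq_one (by rw [pow_two]; exact hd0)
        obtain ⟨j, -, hj⟩ := (Nat.dvd_prime_pow Nat.prime_two).mp h1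
        exact IsPGroup.of_card (n := j) (by rw [Nat.card_zpowers, hj])
      obtain ⟨Q, hQ⟩ := hzp.exists_le_sylow
      obtain ⟨g, hg⟩ := MulAction.exists_smul_eq (Matrix.GeneralLinearGroup (Fin 2) F) Q S
      have hd0Q : d0 ∈ (Q : Subgroup (Matrix.GeneralLinearGroup (Fin 2) F)) :=
        hQ (Subgroup.mem_zpowers d0)
      have ht : g * d0 * g⁻¹ ∈ (S : Subgroup (Matrix.GeneralLinearGroup (Fin 2) F)) := by
        rw [← hg]
        change g * d0 * g⁻¹ ∈ MulAut.conj g • (Q : Subgroup (Matrix.GeneralLinearGroup (Fin 2) F))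
        exact Subgroup.smul_mem_pointwise_smul d0 (MulAut.conj g)
          (Q : Subgroup (Matrix.GeneralLinearGroup (Fin 2) F)) hd0Q
      refine ⟨g * d0 * g⁻¹, ht, ?_, ?_⟩
      · rw [map_mul, map_mul, map_inv, hd0det,
          mul_comm (Matrix.GeneralLinearGroup.det g), mul_assoc, mul_inv_cancel, mul_one]
      · calc g * d0 * g⁻¹ * (g * d0 * g⁻¹) = g * (d0 * d0) * g⁻¹ := by group
          _ = 1 := by rw [hd0]; group

    refine ⟨t, htS, by rw [pow_two]; exact htt, ?_⟩
    intro s hs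
    rcases hdet s hs with h | h
    · exact Or.inl h
    · right
      rw [h, htdet]

theorem exists_sylow_gl2_good {F : Type*} [Field F] [Fintype F] (hF : Odd (Fintype.card F)) : ∃ T : Sylow 2 (Matrix.GeneralLinearGroup (Fin 2) F), (∀ t ∈ (T : Subgroup (Matrix.GeneralLinearGroup (Fin 2) F)) ⊓ (Matrix.GeneralLinearGroup.det : Matrix.GeneralLinearGroup (Fin 2) F →* Fˣ).ker, t ^ 2 ∈ ⁅(T : Subgroup (Matrix.GeneralLinearGroup (Fin 2) F)) ⊓ (Matrix.GeneralLinearGroup.det : Matrix.GeneralLinearGroup (Fin 2) F →* Fˣ).ker, (T : Subgroup (Matrix.GeneralLinearGroup (Fin 2) F)) ⊓ (Matrix.GeneralLinearGroup.det : Matrix.GeneralLinearGroup (Fin 2) F →* Fˣ).ker⁆) ∧ (4 ∣ Fintype.card F + 1 → ∃ t ∈ (T : Subgroup (Matrix.GeneralLinearGroup (Fin 2) F)), t ^ 2 = 1 ∧ ∀ s ∈ (T : Subgroup (Matrix.GeneralLinearGroup (Fin 2) F)), Matrix.GeneralLinearGroup.det s = 1 ∨ Matrix.GeneralLinearGroup.det s = Matrix.GeneralLinearGroup.det t) := by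
  have hp2 : Fact (Nat.Prime 2) := ⟨Nat.prime_two⟩
  obtain ⟨S⟩ : Nonempty (Sylow 2 (Matrix.GeneralLinearGroup (Fin 2) F)) := inferInstance
  exact ⟨S, sylow_gl2_good hF S⟩

end Cfsg.Agent.Lib.Helper17.GL2Good
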