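import Mathlib
import Cfsg.Agent.Lib.Helper16.SpinCD

/-!
Maximal totally singular subspaces: if `U₀` is totally singular and equal to its orthogonal, and
`U₁` is totally singular of the same dimension, then a product of exactly
`dim U₀ - dim (U₀ ∩ U₁)` reflections in vectors of norm one carries `U₁` to `U₀`.
Valid over any field and in any characteristic.
-/

set_option autoImplicit false
set_option linter.unusedSectionVars false

namespace Cfsg.Agent.Lib.Helper17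

open Cfsg.Agent.Lib.Helper16

section MaxTS

variable {F : Type*} [Field F] {ι : Type} [Fintype ι] [DecidableEq ι]
variable (Q : QuadraticForm F (ι → F))

/-- The linear map of an isometry. -/
noncomputable def actLin (g : ↥(Cfsg.isometryGroup F ⇑Q)) : (ι → F) →ₗ[F] (ι → F) :=
  Matrix.mulVecLin ((g : Matrix.GeneralLinearGroup ι F) : Matrix ι ι F)

theorem actLin_apply (g : ↥(Cfsg.isometryGroup F ⇑Q)) (x : ι → F) :
    actLin Q g x = cdAct Q g x := rfl

theorem actLin_injective (g : ↥(Cfsg.isometryGroup F ⇑Q)) :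
    Function.Injective (actLin Q g) := by
  intro x y h
  have h' : cdAct Q g x = cdAct Q g y := h
  calc x = cdAct Q g⁻¹ (cdAct Q g x) := (cdAct_inv_act Q g x).symm
    _ = cdAct Q g⁻¹ (cdAct Q g y) := by rw [h']
    _ = y := cdAct_inv_act Q g y

theorem finrank_map_actLin (g : ↥(Cfsg.isometryGroup F ⇑Q)) (U : Submodule F (ι → F)) :
    Module.finrank F ↥(U.map (actLin Q g)) = Module.finrank F ↥U :=
  (Submodule.equivMapOfInjective (actLin Q g) (actLin_injective Q g) U).finrank_eq.symm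

theorem actLin_one : actLin Q (1 : ↥(Cfsg.isometryGroup F ⇑Q)) = LinearMap.id :=
  LinearMap.ext fun x => by
    rw [actLin_apply, cdAct_one]
    rfl

theorem actLin_mul (g h : ↥(Cfsg.isometryGroup F ⇑Q)) :
    actLin Q (g * h) = (actLin Q g).comp (actLin Q h) :=
  LinearMap.ext fun x => by
    rw [actLin_apply, cdAct_mul]
    rfl

theorem ts_polar (U : Submodule F (ι → F)) (hU : ∀ u ∈ U, Q u = 0) (a b : ι → F)
    (ha : a ∈ U) (hb : b ∈ U) : QuadraticMap.polar ⇑Q a b = 0 := by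
  unfold QuadraticMap.polar
  rw [hU _ (U.add_mem ha hb), hU a ha, hU b hb, sub_zero, sub_zero]

/-- The reflection in `v`, or `1` when `v` is singular. -/
noncomputable def reflT (v : ι → F) : ↥(Cfsg.isometryGroup F ⇑Q) := by
  classical
  exact if h : Q v ≠ 0 then reflG Q v h else 1

theorem reflT_of (v : ι → F) (hv : Q v ≠ 0) : reflT Q v = reflG Q v hv := by
  unfold reflT
  exact dif_pos hv

theorem reflT_list_coe (vs : List (ι → F)) (hvs : ∀ v ∈ vs, Q v ≠ 0) :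
    ((((vs.map (reflT Q)).prod : ↥(Cfsg.isometryGroup F ⇑Q)) :
      Matrix.GeneralLinearGroup ι F) : Matrix ι ι F)
      = (vs.map (fun v => Cfsg.reflectionMatrix ⇑Q v)).prod := by
  induction vs with
  | nil => rfl
  | cons a l ih =>
    rw [List.map_cons, List.prod_cons, List.map_cons, List.prod_cons, isomG_mul_coe,
      ih (fun v hv => hvs v (List.mem_cons_of_mem _ hv)), reflT_of Q a (hvs a List.mem_cons_self),
      reflG_coe]

theorem mts_step (U₀ U₁ : Submodule F (ι → F)) (hU₀s : ∀ u ∈ U₀, Q u = 0)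
    (hU₁s : ∀ u ∈ U₁, Q u = 0)
    (hU₀m : ∀ x, (∀ u ∈ U₀, QuadraticMap.polar ⇑Q u x = 0) → x ∈ U₀)
    (u₁ : ι → F) (hu₁ : u₁ ∈ U₁) (hu₁' : u₁ ∉ U₀) :
    ∃ v, Q v = 1 ∧ Module.finrank F ↥(U₀ ⊓ U₁.map (actLin Q (reflT Q v)))
      = Module.finrank F ↥(U₀ ⊓ U₁) + 1 := by
  obtain ⟨u₀, hu₀, hu₀u₁⟩ : ∃ u₀ ∈ U₀, QuadraticMap.polar ⇑Q u₀ u₁ = -1 := by
    by_contra hcon
    push Not at hcon
    apply hu₁'
    apply hU₀m
    intro u hu
    by_contra hne
    apply hcon ((-(QuadraticMap.polar ⇑Q u u₁)⁻¹) • u) (U₀.smul_mem _ hu)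
    rw [QuadraticMap.polar_smul_left, smul_eq_mul, neg_mul, inv_mul_cancel₀ hne]
  have hQv : Q (u₀ - u₁) = 1 := by
    rw [cd_Q_sub, hU₀s u₀ hu₀, hU₁s u₁ hu₁, hu₀u₁]
    ring
  have hv : Q (u₀ - u₁) ≠ 0 := by
    rw [hQv]
    exact one_ne_zero
  refine ⟨u₀ - u₁, hQv, ?_⟩
  rw [reflT_of Q _ hv]
  have hact : ∀ x, cdAct Q (reflG Q (u₀ - u₁) hv) x
      = x - QuadraticMap.polar ⇑Q (u₀ - u₁) x • (u₀ - u₁) := by
    intro x
    rw [cdAct_refl Q _ (u₀ - u₁) rfl, hQv, inv_one, one_mul]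
  have hfixI : ∀ i ∈ U₀ ⊓ U₁, cdAct Q (reflG Q (u₀ - u₁) hv) i = i := by
    intro i hi
    rw [hact, QuadraticMap.polar_sub_left, ts_polar Q U₀ hU₀s u₀ i hu₀ hi.1,
      ts_polar Q U₁ hU₁s u₁ i hu₁ hi.2, sub_zero, zero_smul, sub_zero]
  have hmove : cdAct Q (reflG Q (u₀ - u₁) hv) u₁ = u₀ := by
    rw [hact, QuadraticMap.polar_sub_left, hu₀u₁, ts_polar Q U₁ hU₁s u₁ u₁ hu₁ hu₁, sub_zero,
      neg_smul, one_smul]
    abel
  have heq : U₀ ⊓ U₁.map (actLin Q (reflG Q (u₀ - u₁) hv))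
      = (U₀ ⊓ U₁) ⊔ Submodule.span F {u₀} := by
    apply le_antisymm
    · rintro y ⟨hy0, hy1⟩
      obtain ⟨x, hx, rfl⟩ := Submodule.mem_map.mp hy1
      have hy : actLin Q (reflG Q (u₀ - u₁) hv) x
          = x - QuadraticMap.polar ⇑Q (u₀ - u₁) x • (u₀ - u₁) := hact x
      have hi : x + QuadraticMap.polar ⇑Q (u₀ - u₁) x • u₁ ∈ U₀ ⊓ U₁ := by
        refine ⟨?_, U₁.add_mem hx (U₁.smul_mem _ hu₁)⟩
        have e : x + QuadraticMap.polar ⇑Q (u₀ - u₁) x • u₁
            = actLin Q (reflG Q (u₀ - u₁) hv) x + QuadraticMap.polar ⇑Q (u₀ - u₁) x • u₀ := by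
          rw [hy]
          module
        rw [e]
        exact U₀.add_mem hy0 (U₀.smul_mem _ hu₀)
      have e : actLin Q (reflG Q (u₀ - u₁) hv) x
          = (x + QuadraticMap.polar ⇑Q (u₀ - u₁) x • u₁)
            + (-(QuadraticMap.polar ⇑Q (u₀ - u₁) x)) • u₀ := by
        rw [hy]
        module
      rw [e]
      exact Submodule.add_mem _ (Submodule.mem_sup_left hi)
        (Submodule.mem_sup_right (Submodule.smul_mem _ _ (Submodule.mem_span_singleton_self u₀)))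
    · apply sup_le
      · intro i hi
        exact ⟨hi.1, Submodule.mem_map.mpr ⟨i, hi.2, hfixI i hi⟩⟩
      · rw [Submodule.span_singleton_le_iff_mem]
        exact ⟨hu₀, Submodule.mem_map.mpr ⟨u₁, hu₁, hmove⟩⟩
  rw [heq]
  have hu₀U₁ : u₀ ∉ U₁ := by
    intro h
    have h0 := ts_polar Q U₁ hU₁s u₀ u₁ h hu₁
    rw [hu₀u₁] at h0
    exact one_ne_zero (neg_eq_zero.mp h0)
  have hu₀0 : u₀ ≠ 0 := by
    rintro rfl
    exact hu₀U₁ U₁.zero_mem
  have hdisj : (U₀ ⊓ U₁) ⊓ Submodule.span F {u₀} = ⊥ := by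
    rw [eq_bot_iff]
    rintro x ⟨hx1, hx2⟩
    obtain ⟨a, rfl⟩ := Submodule.mem_span_singleton.mp hx2
    by_cases ha : a = 0
    · rw [ha, zero_smul]
      exact Submodule.zero_mem _
    · exfalso
      apply hu₀U₁
      have e : u₀ = a⁻¹ • (a • u₀) := by rw [smul_smul, inv_mul_cancel₀ ha, one_smul]
      rw [e]
      exact U₁.smul_mem _ hx1.2
  have h1 := Submodule.finrank_sup_add_finrank_inf_eq (U₀ ⊓ U₁) (Submodule.span F {u₀})
  rw [hdisj, finrank_bot, add_zero, finrank_span_singleton hu₀0] at h1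
  exact h1

/-- A product of exactly `dim U₀ - dim (U₀ ∩ U₁)` reflections in vectors of norm one
carries `U₁` to `U₀`. -/
theorem mts (U₀ : Submodule F (ι → F)) (hU₀s : ∀ u ∈ U₀, Q u = 0)
    (hU₀m : ∀ x, (∀ u ∈ U₀, QuadraticMap.polar ⇑Q u x = 0) → x ∈ U₀) :
    ∀ (r : ℕ) (U₁ : Submodule F (ι → F)), (∀ u ∈ U₁, Q u = 0) →
      Module.finrank F ↥U₁ = Module.finrank F ↥U₀ →
      Module.finrank F ↥(U₀ ⊓ U₁) + r = Module.finrank F ↥U₀ →
      ∃ vs : List (ι → F), vs.length = r ∧ (∀ v ∈ vs, Q v = 1) ∧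
        U₁.map (actLin Q ((vs.map (reflT Q)).prod)) = U₀ := by
  intro r
  induction r with
  | zero =>
    intro U₁ hU₁s hfr hr
    have h1 : U₀ ⊓ U₁ = U₁ := Submodule.eq_of_le_of_finrank_eq inf_le_right (by omega)
    have h2 : U₀ ⊓ U₁ = U₀ := Submodule.eq_of_le_of_finrank_eq inf_le_left (by omega)
    refine ⟨[], rfl, by simp, ?_⟩
    rw [List.map_nil, List.prod_nil, actLin_one, Submodule.map_id, ← h1, h2]
  | succ r ih =>
    intro U₁ hU₁s hfr hr
    obtain ⟨u₁, hu₁, hu₁'⟩ : ∃ u₁ ∈ U₁, u₁ ∉ U₀ := by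
      by_contra hcon
      push Not at hcon
      have hle : U₁ ≤ U₀ := hcon
      have h3 : U₀ ⊓ U₁ = U₁ := inf_eq_right.mpr hle
      rw [h3] at hr
      omega
    obtain ⟨v, hQv, hfr'⟩ := mts_step Q U₀ U₁ hU₀s hU₁s hU₀m u₁ hu₁ hu₁'
    have hU₁'s : ∀ u ∈ U₁.map (actLin Q (reflT Q v)), Q u = 0 := by
      intro u hu
      obtain ⟨x, hx, rfl⟩ := Submodule.mem_map.mp hu
      rw [actLin_apply, cdAct_iso]
      exact hU₁s x hx
    obtain ⟨vs, hlen, hvs, hmap⟩ := ih (U₁.map (actLin Q (reflT Q v))) hU₁'s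
      (by rw [finrank_map_actLin, hfr]) (by omega)
    refine ⟨vs ++ [v], by simp [hlen], ?_, ?_⟩
    · intro w hw
      rcases List.mem_append.mp hw with h | h
      · exact hvs w h
      · rw [List.mem_singleton] at h
        rw [h]
        exact hQv
    · rw [List.map_append, List.prod_append, List.map_singleton, List.prod_singleton,
        actLin_mul, Submodule.map_comp, hmap]

end MaxTS

end Cfsg.Agent.Lib.Helper17
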