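import Mathlib
import Cfsg.Prelude.Def_PLocal
import Cfsg.Agent.Lib.Helper17.PStabPSolv
import Cfsg.Agent.Lib.Helper17.QuadAb3

set_option autoImplicit false
set_option linter.unusedSimpArgs false
set_option linter.unusedVariables false
set_option linter.style.haveILetI false

/-!
`p`-stability (`p` odd) of the conjugation action on normal elementary abelian subgroups and
sections of groups whose Sylow `2`-subgroups are commutative.
-/

namespace Cfsg.Agent.Lib.Helper17

open Cfsg Cfsg.Agent.Lib.Helper6 Cfsg.Agent.Lib.Helper14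
open scoped commutatorElement

universe u

theorem isPStableOn_of_abSyl {X : Type u} [Group X] [Finite X] {p : ℕ} [hp : Fact p.Prime]
    (hp2 : p ≠ 2) (hab : ∀ T : Sylow 2 X, ∀ s ∈ T, ∀ t ∈ T, s * t = t * s)
    (V : Subgroup X) [hVn : V.Normal]
    (hV : IsElementaryAbelian p V) : IsPStableOn p V := by
  classical
  intro a hq
  obtain ⟨hVc, hVp⟩ := hV
  letI : CommGroup ↥V :=
    { (inferInstance : Group ↥V) with mul_comm := fun x y => hVc.is_comm.comm x y }
  obtain ⟨φ, hφ⟩ : ∃ φ : X →* MulAut ↥V, ∀ (x : X) (v : ↥V), ((φ x v : ↥V) : X) = x * v * x⁻¹ :=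
    ⟨MulAut.conjNormal, fun x v => rfl⟩
  have hAp : ∀ v : ↥V, v ^ p = 1 := by
    intro v
    apply Subtype.ext
    rw [Subgroup.coe_pow, hVp _ v.2]
    rfl
  have hqa : QuadAct φ a := by
    intro v
    apply Subtype.ext
    rw [hφ, Subgroup.coe_div, hφ, div_eq_mul_inv]
    exact quad_elem_of_comm V a hq v v.2
  obtain ⟨N, hNn, haN, hN⟩ := quad_abSyl2 hp2 hAp φ (comm_of_two_subgroup hab) a hqa
  have hNbn : (N.map (QuotientGroup.mk' (Subgroup.centralizer (V : Set X)))).Normal :=
    hNn.map _ (QuotientGroup.mk'_surjective _)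
  have hNbp : IsPGroup p (N.map (QuotientGroup.mk' (Subgroup.centralizer (V : Set X)))) := by
    rintro ⟨y, x, hx, rfl⟩
    obtain ⟨k, hk⟩ := hN x hx
    refine ⟨k, ?_⟩
    apply Subtype.ext
    rw [Subgroup.coe_pow, Subgroup.coe_one]
    show (QuotientGroup.mk' (Subgroup.centralizer (V : Set X)) x) ^ p ^ k = 1
    rw [← map_pow]
    apply (QuotientGroup.eq_one_iff _).mpr
    rw [Subgroup.mem_centralizer_iff]
    intro v hv
    have h1 : φ (x ^ p ^ k) ⟨v, hv⟩ = ⟨v, hv⟩ := by rw [map_pow, hk]; rfl
    have h2 := congrArg Subtype.val h1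
    rw [hφ] at h2
    obtain ⟨y, hy⟩ : ∃ y : X, y = x ^ p ^ k := ⟨_, rfl⟩
    rw [← hy] at h2 ⊢
    calc v * y = (y * v * y⁻¹) * y := by rw [h2]
      _ = y * v := by group
  exact Cfsg.Agent.Lib.Helper14.le_pCore p hNbn hNbp ⟨a, haN, rfl⟩


theorem isActionPStable_of_abSyl {G : Type u} [Group G] [Finite G] {p : ℕ} [hp : Fact p.Prime]
    (hp2 : p ≠ 2) (hab : ∀ T : Sylow 2 G, ∀ s ∈ T, ∀ t ∈ T, s * t = t * s) :
    IsActionPStable p G := by
  classical
  refine ⟨?_, ?_, ?_⟩
  · intro V hVn hV
    exact isPStableOn_of_abSyl hp2 hab V hV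
  · intro a hq
    obtain ⟨Φ, hΦ⟩ : ∃ Φ : Subgroup G, Φ = (frattini ↥(pCore p G)).map (pCore p G).subtype :=
      ⟨_, rfl⟩
    have hπs : Function.Surjective (QuotientGroup.mk'
        ((frattini ↥(pCore p G)).map (pCore p G).subtype)) := QuotientGroup.mk'_surjective _
    have hHbn : ((pCore p G).map (QuotientGroup.mk'
        ((frattini ↥(pCore p G)).map (pCore p G).subtype))).Normal :=
      (Cfsg.pCore_normal p G).map _ hπs
    have hquad : ⁅⁅(pCore p G).map (QuotientGroup.mk'
          ((frattini ↥(pCore p G)).map (pCore p G).subtype)),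
        Subgroup.zpowers (QuotientGroup.mk'
          ((frattini ↥(pCore p G)).map (pCore p G).subtype) a)⁆,
        Subgroup.zpowers (QuotientGroup.mk'
          ((frattini ↥(pCore p G)).map (pCore p G).subtype) a)⁆ = ⊥ := by
      rw [← MonoidHom.map_zpowers, ← Subgroup.map_commutator, ← Subgroup.map_commutator,
        eq_bot_iff]
      rintro _ ⟨y, hy, rfl⟩
      rw [Subgroup.mem_bot]
      exact (QuotientGroup.eq_one_iff y).mpr (hq hy)
    have hKp : IsPGroup p (pCore p G) := Cfsg.Agent.Lib.Helper14.pCore_isPGroup p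
    have hVea : IsElementaryAbelian p ((pCore p G).map (QuotientGroup.mk'
        ((frattini ↥(pCore p G)).map (pCore p G).subtype))) := by
      constructor
      · refine ⟨⟨?_⟩⟩
        rintro ⟨_, x, hx, rfl⟩ ⟨_, y, hy, rfl⟩
        apply Subtype.ext
        show QuotientGroup.mk' _ x * QuotientGroup.mk' _ y
          = QuotientGroup.mk' _ y * QuotientGroup.mk' _ x
        rw [← map_mul, ← map_mul]
        apply (QuotientGroup.eq).mpr
        have e : (x * y)⁻¹ * (y * x) = ⁅y⁻¹, x⁻¹⁆ := by
          rw [commutatorElement_def]; group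
        rw [e]
        have h1' : ⁅y⁻¹, x⁻¹⁆ ∈ ⁅pCore p G, pCore p G⁆ :=
          Subgroup.commutator_mem_commutator (Subgroup.inv_mem _ hy) (Subgroup.inv_mem _ hx)
        exact Cfsg.Agent.Lib.Helper18.commutator_le_map_frattini hKp h1'
      · rintro _ ⟨x, hx, rfl⟩
        rw [← map_pow]
        apply (QuotientGroup.eq_one_iff _).mpr
        have h1 := Cfsg.Agent.Lib.Helper28.pow_mem_frattini hKp (⟨x, hx⟩ : ↥(pCore p G))
        exact ⟨_, h1, rfl⟩
    have hab' := abSyl_of_surjective (QuotientGroup.mk'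
        ((frattini ↥(pCore p G)).map (pCore p G).subtype)) hπs hab
    have h1 := isPStableOn_of_abSyl hp2 hab' _ hVea (QuotientGroup.mk' _ a) hquad
    obtain ⟨f, hfdef⟩ : ∃ f : G →* (G ⧸ (frattini ↥(pCore p G)).map (pCore p G).subtype) ⧸
        Subgroup.centralizer
          (((pCore p G).map (QuotientGroup.mk'
            ((frattini ↥(pCore p G)).map (pCore p G).subtype)) :
              Subgroup (G ⧸ (frattini ↥(pCore p G)).map (pCore p G).subtype)) :
            Set (G ⧸ (frattini ↥(pCore p G)).map (pCore p G).subtype)),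
        f = (QuotientGroup.mk' _).comp (QuotientGroup.mk'
          ((frattini ↥(pCore p G)).map (pCore p G).subtype)) := ⟨_, rfl⟩
    have hfs : Function.Surjective f := hfdef ▸ (QuotientGroup.mk'_surjective _).comp hπs
    have hker : sectionKernel (pCore p G) ((frattini ↥(pCore p G)).map (pCore p G).subtype)
        = f.ker := by
      ext g
      rw [MonoidHom.mem_ker, hfdef, MonoidHom.comp_apply, QuotientGroup.mk'_apply,
        QuotientGroup.eq_one_iff]
      rfl
    refine ⟨(pCore p _).comap f, (Cfsg.pCore_normal p _).comap f, ?_, ?_, ?_⟩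
    · rw [hker]
      intro g hg
      rw [Subgroup.mem_comap, MonoidHom.mem_ker.mp hg]
      exact Subgroup.one_mem _
    · rw [hker, Subgroup.relIndex_ker, Subgroup.map_comap_eq_self_of_surjective hfs]
      exact IsPGroup.iff_card.mp (Cfsg.Agent.Lib.Helper14.pCore_isPGroup p)
    · rw [Subgroup.mem_comap, hfdef]
      exact h1
  · intro S V hVn hVle
    have habN := abSyl_subgroup
      (Subgroup.normalizer (thompsonSubgroupOf p (S : Subgroup G) : Set G)) hab
    have hVea : IsElementaryAbelian p V := by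
      have hrep : ∀ x ∈ V, ∃ s : ↥(S : Subgroup G), s ∈ omegaCenterThompson p ↥(S : Subgroup G) ∧
          (s : G) = ((x : ↥(Subgroup.normalizer
            (thompsonSubgroupOf p (S : Subgroup G) : Set G))) : G) := by
        intro x hx
        have h1 : ((x : ↥(Subgroup.normalizer
            (thompsonSubgroupOf p (S : Subgroup G) : Set G))) : G) ∈
            V.map (Subgroup.normalizer
              (thompsonSubgroupOf p (S : Subgroup G) : Set G)).subtype := ⟨x, hx, rfl⟩
        obtain ⟨s, hs, hsx⟩ := hVle h1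
        exact ⟨s, hs, hsx⟩
      constructor
      · refine ⟨⟨?_⟩⟩
        rintro ⟨x, hx⟩ ⟨y, hy⟩
        obtain ⟨s, hs, hsx⟩ := hrep x hx
        obtain ⟨t, ht, hty⟩ := hrep y hy
        apply Subtype.ext
        apply Subtype.ext
        show (x : G) * (y : G) = (y : G) * (x : G)
        rw [← hsx, ← hty]
        have h1 := (omegaCenterThompson_elem p s hs).1
        have h2 := (omegaCenterThompson_elem p t ht).1
        have h3 : s * t = t * s := ((Subgroup.mem_centralizer_iff.mp h2.2) s h1.1)
        have h4 := congrArg Subtype.val h3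
        exact h4
      · intro x hx
        obtain ⟨s, hs, hsx⟩ := hrep x hx
        apply Subtype.ext
        rw [Subgroup.coe_pow, ← hsx]
        have h1 := (omegaCenterThompson_elem p s hs).2
        have h2 := congrArg Subtype.val h1
        exact h2
    exact isPStableOn_of_abSyl hp2 habN V hVea

end Cfsg.Agent.Lib.Helper17
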