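import Mathlib
import Cfsg.Agent.Lib.Helper16.SpinPlus
import Cfsg.Agent.Lib.Helper17.MaxTS
import Cfsg.Agent.Lib.Helper17.CDChar2App

/-!
The two classes of maximal totally singular subspaces of the hyperbolic form `Σ x_i y_i`:
an isometry `g` is a product `ρ⁻¹ p` with `ρ` a product of exactly
`m - dim (U₀ ∩ g U₀)` reflections and `p` stabilising `U₀ = {y = 0}`.
-/

set_option autoImplicit false
set_option linter.unusedSectionVars false

namespace Cfsg.Agent.Lib.Helper17

open Cfsg.Agent.Lib.Helper16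

section Parity

variable {F : Type*} [Field F] {ι : Type} [Fintype ι] [DecidableEq ι]
variable (Q : QuadraticForm F (ι → F))

/-- Every product of reflections is a product of an even number of them, or becomes one after
multiplication by a fixed reflection. -/
theorem cd_parity (r₀ : ↥(Cfsg.isometryGroup F ⇑Q)) (hr₀ : r₀ ∈ cdR Q)
    (g : ↥(Cfsg.isometryGroup F ⇑Q)) (hg : g ∈ Subgroup.closure (cdR Q)) :
    g ∈ Subgroup.closure (cdP Q) ∨ g * r₀ ∈ Subgroup.closure (cdP Q) := by
  have hN := cdP_normal Q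
  have hsq : r₀ * r₀ = 1 := cd_refl_sq Q r₀ hr₀
  have hinv : r₀⁻¹ = r₀ := inv_eq_of_mul_eq_one_left hsq
  obtain ⟨v₀, hv₀, hm₀⟩ := hr₀
  induction hg using Subgroup.closure_induction with
  | mem x hx =>
    obtain ⟨v, hv, hm⟩ := hx
    right
    exact Subgroup.subset_closure ⟨v, v₀, hv, hv₀, by rw [isomG_mul_coe, hm, hm₀]⟩
  | one => exact Or.inl (Subgroup.one_mem _)
  | mul a b _ _ ha hb =>
    rcases ha with ha | ha <;> rcases hb with hb | hb
    · exact Or.inl (Subgroup.mul_mem _ ha hb)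
    · right
      rw [mul_assoc]
      exact Subgroup.mul_mem _ ha hb
    · right
      have e : a * b * r₀ = (a * r₀) * (r₀ * b * r₀⁻¹) := by
        rw [hinv]
        calc a * b * r₀ = a * (r₀ * r₀) * b * r₀ := by rw [hsq, mul_one]
          _ = (a * r₀) * (r₀ * b * r₀) := by group
      rw [e]
      exact Subgroup.mul_mem _ ha (hN.conj_mem b hb r₀)
    · left
      have e : a * b = (a * r₀) * (r₀ * (b * r₀) * r₀⁻¹) := by
        rw [hinv]
        calc a * b = a * (r₀ * r₀) * b * (r₀ * r₀) := by rw [hsq, mul_one, mul_one]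
          _ = (a * r₀) * (r₀ * (b * r₀) * r₀) := by group
      rw [e]
      exact Subgroup.mul_mem _ ha (hN.conj_mem _ hb r₀)
  | inv a _ ha =>
    rcases ha with ha | ha
    · exact Or.inl (Subgroup.inv_mem _ ha)
    · right
      have e : a⁻¹ * r₀ = r₀ * (a * r₀)⁻¹ * r₀⁻¹ := by
        rw [hinv]
        calc a⁻¹ * r₀ = (r₀ * r₀) * a⁻¹ * r₀ := by rw [hsq, one_mul]
          _ = r₀ * (r₀ * a⁻¹) * r₀ := by group
          _ = r₀ * (a * r₀)⁻¹ * r₀ := by rw [mul_inv_rev, hinv]
      rw [e]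
      exact hN.conj_mem _ (Subgroup.inv_mem _ ha) r₀

/-- A product of an even number of reflections lies in the subgroup generated by the products
of two reflections. -/
theorem reflT_list_even_mem : ∀ (n : ℕ) (vs : List (ι → F)), vs.length = 2 * n →
    (∀ v ∈ vs, Q v ≠ 0) → (vs.map (reflT Q)).prod ∈ Subgroup.closure (cdP Q) := by
  intro n
  induction n with
  | zero =>
    intro vs hlen _
    have h0 : vs = [] := List.length_eq_zero_iff.mp (by omega)
    rw [h0, List.map_nil, List.prod_nil]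
    exact Subgroup.one_mem _
  | succ n ih =>
    intro vs hlen hvs
    match vs, hlen, hvs with
    | a :: b :: rest, hlen, hvs =>
      have ha : Q a ≠ 0 := hvs a List.mem_cons_self
      have hb : Q b ≠ 0 := hvs b (List.mem_cons_of_mem _ List.mem_cons_self)
      have hrest : ∀ v ∈ rest, Q v ≠ 0 := fun v hv =>
        hvs v (List.mem_cons_of_mem _ (List.mem_cons_of_mem _ hv))
      have hlen' : rest.length = 2 * n := by
        simp only [List.length_cons] at hlen
        omega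
      rw [List.map_cons, List.map_cons, List.prod_cons, List.prod_cons, ← mul_assoc]
      refine Subgroup.mul_mem _ (Subgroup.subset_closure ⟨a, b, ha, hb, ?_⟩) (ih rest hlen' hrest)
      rw [isomG_mul_coe, reflT_of Q a ha, reflT_of Q b hb, reflG_coe, reflG_coe]
    | [], hlen, _ => simp at hlen
    | [a], hlen, _ =>
      simp only [List.length_cons, List.length_nil] at hlen
      omega

theorem reflT_list_det (vs : List (ι → F)) (hvs : ∀ v ∈ vs, Q v ≠ 0) :
    ((((vs.map (reflT Q)).prod : ↥(Cfsg.isometryGroup F ⇑Q)) :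
      Matrix.GeneralLinearGroup ι F) : Matrix ι ι F).det = (-1) ^ vs.length := by
  induction vs with
  | nil =>
    rw [List.map_nil, List.prod_nil, isomG_one_coe, Matrix.det_one, List.length_nil, pow_zero]
  | cons a l ih =>
    rw [List.map_cons, List.prod_cons, isomG_mul_coe, Matrix.det_mul,
      ih (fun v hv => hvs v (List.mem_cons_of_mem _ hv)), reflT_of Q a (hvs a List.mem_cons_self),
      reflG_coe, refl_det Q (hvs a List.mem_cons_self), List.length_cons, pow_succ]
    ring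

end Parity

section PlusClass

variable {m : ℕ} {F : Type*} [Field F]

/-- The maximal totally singular subspace `{y = 0}`. -/
def plusU0 (m : ℕ) (F : Type*) [Field F] : Submodule F (Fin m ⊕ Fin m → F) :=
  LinearMap.ker (LinearMap.funLeft F F (Sum.inr : Fin m → Fin m ⊕ Fin m))

theorem mem_plusU0 (x : Fin m ⊕ Fin m → F) : x ∈ plusU0 m F ↔ ∀ j, x (Sum.inr j) = 0 := by
  unfold plusU0
  rw [LinearMap.mem_ker]
  constructor
  · intro h j
    exact congrFun h j
  · intro h
    funext j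
    exact h j

theorem plusU0_ts : ∀ u ∈ plusU0 m F, qfPlus m F u = 0 := by
  intro u hu
  rw [mem_plusU0] at hu
  show Cfsg.quadFormPlus m F u = 0
  unfold Cfsg.quadFormPlus
  exact Finset.sum_eq_zero fun i _ => by rw [hu i, mul_zero]

theorem single_inl_mem_plusU0 (j : Fin m) :
    (Pi.single (Sum.inl j) 1 : Fin m ⊕ Fin m → F) ∈ plusU0 m F := by
  rw [mem_plusU0]
  intro k
  simp

theorem plusU0_max : ∀ x, (∀ u ∈ plusU0 m F, QuadraticMap.polar ⇑(qfPlus m F) u x = 0) →
    x ∈ plusU0 m F := by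
  intro x hx
  rw [mem_plusU0]
  intro j
  have h := hx (Pi.single (Sum.inl j) 1) (single_inl_mem_plusU0 j)
  rw [qfPlus_polar_inl] at h
  exact h

theorem plusU0_finrank : Module.finrank F ↥(plusU0 m F) = m := by
  have h := LinearMap.finrank_range_add_finrank_ker
    (LinearMap.funLeft F F (Sum.inr : Fin m → Fin m ⊕ Fin m))
  have hs : Function.Surjective (LinearMap.funLeft F F (Sum.inr : Fin m → Fin m ⊕ Fin m)) := by
    intro y
    exact ⟨Sum.elim 0 y, by funext j; rfl⟩
  rw [LinearMap.range_eq_top.mpr hs, finrank_top, Module.finrank_fintype_fun_eq_card,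
    Module.finrank_fintype_fun_eq_card, Fintype.card_sum, Fintype.card_fin] at h
  unfold plusU0
  omega

/-- An isometry stabilising `{y = 0}` has zero lower left block. -/
theorem block21_zero_of_stab (p : ↥(Cfsg.isometryGroup F ⇑(qfPlus m F)))
    (hp : ∀ x ∈ plusU0 m F, cdAct (qfPlus m F) p x ∈ plusU0 m F) :
    ((p : Matrix.GeneralLinearGroup (Fin m ⊕ Fin m) F) :
      Matrix (Fin m ⊕ Fin m) (Fin m ⊕ Fin m) F).toBlocks₂₁ = 0 := by
  ext i j
  have h := hp (Pi.single (Sum.inl j) 1) (single_inl_mem_plusU0 j)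
  rw [mem_plusU0] at h
  have h2 := h i
  unfold cdAct at h2
  rw [Matrix.mulVec_single_one] at h2
  exact h2

/-- The decomposition of an isometry relative to `{y = 0}`. -/
theorem plus_class_core (g : ↥(Cfsg.isometryGroup F ⇑(qfPlus m F))) :
    ∃ vs : List (Fin m ⊕ Fin m → F),
      vs.length = m - Module.finrank F ↥(plusU0 m F ⊓ (plusU0 m F).map (actLin (qfPlus m F) g)) ∧
      (∀ v ∈ vs, qfPlus m F v = 1) ∧
      (((((vs.map (reflT (qfPlus m F))).prod * g : ↥(Cfsg.isometryGroup F ⇑(qfPlus m F))) :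
        Matrix.GeneralLinearGroup (Fin m ⊕ Fin m) F) :
        Matrix (Fin m ⊕ Fin m) (Fin m ⊕ Fin m) F).toBlocks₂₁ = 0) := by
  have hle : Module.finrank F ↥(plusU0 m F ⊓ (plusU0 m F).map (actLin (qfPlus m F) g))
      ≤ Module.finrank F ↥(plusU0 m F) := Submodule.finrank_mono inf_le_left
  rw [plusU0_finrank] at hle
  obtain ⟨vs, hlen, hvs, hmap⟩ := mts (qfPlus m F) (plusU0 m F) plusU0_ts plusU0_max
    (m - Module.finrank F ↥(plusU0 m F ⊓ (plusU0 m F).map (actLin (qfPlus m F) g)))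
    ((plusU0 m F).map (actLin (qfPlus m F) g))
    (by
      intro u hu
      obtain ⟨x, hx, rfl⟩ := Submodule.mem_map.mp hu
      rw [actLin_apply, cdAct_iso]
      exact plusU0_ts x hx)
    (finrank_map_actLin (qfPlus m F) g _)
    (by rw [plusU0_finrank]; omega)
  refine ⟨vs, hlen, hvs, ?_⟩
  apply block21_zero_of_stab
  intro x hx
  rw [cdAct_mul, ← hmap]
  exact Submodule.mem_map.mpr ⟨cdAct (qfPlus m F) g x, Submodule.mem_map.mpr ⟨x, hx, rfl⟩, rfl⟩

theorem dicksonT_refl (v : Fin m ⊕ Fin m → F) (hv : qfPlus m F v ≠ 0) :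
    dicksonT (Cfsg.reflectionMatrix ⇑(qfPlus m F) v) = 1 := by
  have hP1 : ∀ j, Cfsg.polarVec ⇑(qfPlus m F) v (Sum.inr j) = v (Sum.inl j) := by
    intro j
    unfold Cfsg.polarVec
    rw [QuadraticMap.polar_comm, qfPlus_polar_inr]
  have hP2 : ∀ j, Cfsg.polarVec ⇑(qfPlus m F) v (Sum.inl j) = v (Sum.inr j) := by
    intro j
    unfold Cfsg.polarVec
    rw [QuadraticMap.polar_comm, qfPlus_polar_inl]
  have hB : ∀ i j, (Cfsg.reflectionMatrix ⇑(qfPlus m F) v).toBlocks₁₂ i j
      = -((qfPlus m F v)⁻¹ * (v (Sum.inl i) * v (Sum.inl j))) := by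
    intro i j
    unfold Cfsg.reflectionMatrix
    simp [Matrix.toBlocks₁₂, Matrix.vecMulVec_apply, hP1]
  have hC : ∀ i j, (Cfsg.reflectionMatrix ⇑(qfPlus m F) v).toBlocks₂₁ i j
      = -((qfPlus m F v)⁻¹ * (v (Sum.inr i) * v (Sum.inr j))) := by
    intro i j
    unfold Cfsg.reflectionMatrix
    simp [Matrix.toBlocks₂₁, Matrix.vecMulVec_apply, hP2]
  have hQ : qfPlus m F v = ∑ k : Fin m, v (Sum.inl k) * v (Sum.inr k) := rfl
  unfold dicksonT
  rw [Matrix.trace]
  simp only [Matrix.diag_apply, Matrix.mul_apply, Matrix.transpose_apply, hB, hC]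
  have e : ∀ i k : Fin m, -((qfPlus m F v)⁻¹ * (v (Sum.inl k) * v (Sum.inl i)))
        * -((qfPlus m F v)⁻¹ * (v (Sum.inr k) * v (Sum.inr i)))
      = (qfPlus m F v)⁻¹ * (qfPlus m F v)⁻¹
        * ((v (Sum.inl k) * v (Sum.inr k)) * (v (Sum.inl i) * v (Sum.inr i))) := by
    intro i k
    ring
  simp only [e, ← Finset.mul_sum, ← Finset.sum_mul]
  rw [← hQ]
  field_simp

theorem dicksonT_one : dicksonT (1 : Matrix (Fin m ⊕ Fin m) (Fin m ⊕ Fin m) F) = 0 := by
  unfold dicksonT
  have h : (1 : Matrix (Fin m ⊕ Fin m) (Fin m ⊕ Fin m) F).toBlocks₂₁ = 0 := by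
    rw [← Matrix.fromBlocks_one, Matrix.toBlocks_fromBlocks₂₁]
  rw [h, Matrix.mul_zero, Matrix.trace_zero]

theorem dicksonT_list (h2 : (2 : F) = 0) (vs : List (Fin m ⊕ Fin m → F))
    (hvs : ∀ v ∈ vs, qfPlus m F v ≠ 0) :
    dicksonT ((((vs.map (reflT (qfPlus m F))).prod : ↥(Cfsg.isometryGroup F ⇑(qfPlus m F))) :
      Matrix.GeneralLinearGroup (Fin m ⊕ Fin m) F) : Matrix (Fin m ⊕ Fin m) (Fin m ⊕ Fin m) F)
      = (vs.length : F) := by
  induction vs with
  | nil => rw [List.map_nil, List.prod_nil, isomG_one_coe, dicksonT_one, List.length_nil,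
      Nat.cast_zero]
  | cons a l ih =>
    rw [List.map_cons, List.prod_cons, dickson_mul h2,
      ih (fun v hv => hvs v (List.mem_cons_of_mem _ hv)),
      reflT_of _ a (hvs a List.mem_cons_self), reflG_coe,
      dicksonT_refl a (hvs a List.mem_cons_self), List.length_cons]
    push_cast
    ring

/-- In characteristic two, an isometry of the hyperbolic form with trivial Dickson invariant
lies in the commutator subgroup. -/
theorem mem_omega_of_dickson_zero [Fintype F] [CharP F 2] (hm : 1 ≤ m)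
    (h : Fintype.card F ≠ 2 ∨ m ≠ 2) (g : ↥(Cfsg.isometryGroup F ⇑(qfPlus m F)))
    (hD : dicksonT ((g : Matrix.GeneralLinearGroup (Fin m ⊕ Fin m) F) :
      Matrix (Fin m ⊕ Fin m) (Fin m ⊕ Fin m) F) = 0) :
    g ∈ Cfsg.Omega F ⇑(qfPlus m F) := by
  have h2 : (2 : F) = 0 := CharTwo.two_eq_zero
  have hex : Fintype.card F ≠ 2 ∨ Fintype.card (Fin m ⊕ Fin m) ≠ 4 := by
    rcases h with h | h
    · exact Or.inl h
    · right
      rw [Fintype.card_sum, Fintype.card_fin]
      omega
  have hex' : (∃ β : F, β ≠ 0 ∧ β ≠ 1) ∨ Fintype.card (Fin m ⊕ Fin m) ≠ 4 := by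
    rcases hex with h | h
    · exact Or.inl (c2_fin_hex h)
    · exact Or.inr h
  have hgen := fin_cartan_dieudonne (qfPlus m F) (qfPlus_nondeg m F) hex g
  have hQv₀ : qfPlus m F (Pi.single (Sum.inl (⟨0, hm⟩ : Fin m)) 1
      + Pi.single (Sum.inr (⟨0, hm⟩ : Fin m)) 1) = 1 := by
    rw [QuadraticMap.map_add (⇑(qfPlus m F)), qfPlus_q_inl, qfPlus_q_inr, qfPlus_polar_inl]
    simp
  have hv₀0 : qfPlus m F (Pi.single (Sum.inl (⟨0, hm⟩ : Fin m)) 1
      + Pi.single (Sum.inr (⟨0, hm⟩ : Fin m)) 1) ≠ 0 := by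
    rw [hQv₀]
    exact one_ne_zero
  have hle := c2P_le_commutator (qfPlus m F) (qfPlus_nondeg m F) c2_fin_hsq hex'
  rcases cd_parity (qfPlus m F) (reflG (qfPlus m F) _ hv₀0) ⟨_, hv₀0, rfl⟩ g hgen with h1 | h1
  · exact hle h1
  · exfalso
    have h3 := dickson_of_mem_omega h2 (hle h1)
    rw [dickson_mul h2, hD, reflG_coe, dicksonT_refl _ hv₀0, zero_add] at h3
    exact one_ne_zero h3

/-- Characteristic two: an isometry preserves the class of `{y = 0}` iff it lies in `Ω`. -/
theorem plus_class_char2 [Fintype F] [CharP F 2] (hm : 1 ≤ m)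
    (h : Fintype.card F ≠ 2 ∨ m ≠ 2) (g : ↥(Cfsg.isometryGroup F ⇑(qfPlus m F))) :
    Even (m - Module.finrank F
        ↥(plusU0 m F ⊓ (plusU0 m F).map (actLin (qfPlus m F) g))) ↔
      g ∈ Cfsg.Omega F ⇑(qfPlus m F) := by
  have h2 : (2 : F) = 0 := CharTwo.two_eq_zero
  obtain ⟨vs, hlen, hvs, hblock⟩ := plus_class_core g
  have hvs' : ∀ v ∈ vs, qfPlus m F v ≠ 0 := fun v hv => by
    rw [hvs v hv]
    exact one_ne_zero
  have hD : dicksonT ((g : Matrix.GeneralLinearGroup (Fin m ⊕ Fin m) F) :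
      Matrix (Fin m ⊕ Fin m) (Fin m ⊕ Fin m) F) = (vs.length : F) := by
    have h1 := dickson_mul h2 ((vs.map (reflT (qfPlus m F))).prod) g
    have h0 : dicksonT ((((vs.map (reflT (qfPlus m F))).prod * g :
        ↥(Cfsg.isometryGroup F ⇑(qfPlus m F))) : Matrix.GeneralLinearGroup (Fin m ⊕ Fin m) F) :
        Matrix (Fin m ⊕ Fin m) (Fin m ⊕ Fin m) F) = 0 := by
      unfold dicksonT
      rw [hblock, Matrix.mul_zero, Matrix.trace_zero]
    rw [h0, dicksonT_list h2 vs hvs'] at h1
    have h3 := CharTwo.add_self_eq_zero (vs.length : F)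
    linear_combination -h1 - h3
  rw [← hlen]
  constructor
  · intro he
    have hD0 : dicksonT ((g : Matrix.GeneralLinearGroup (Fin m ⊕ Fin m) F) :
        Matrix (Fin m ⊕ Fin m) (Fin m ⊕ Fin m) F) = 0 := by
      rw [hD]
      obtain ⟨k, hk⟩ := he
      rw [hk]
      push_cast
      rw [← two_mul, h2, zero_mul]
    exact mem_omega_of_dickson_zero hm h g hD0
  · intro hg
    have hD0 := dickson_of_mem_omega h2 hg
    rw [hD] at hD0
    exact even_iff_two_dvd.mpr ((CharP.cast_eq_zero_iff F 2 vs.length).mp hD0)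

/-- Odd characteristic: an isometry preserves the class of `{y = 0}` iff its determinant
is one. -/
theorem plus_class_odd (h2 : (2 : F) ≠ 0) (g : ↥(Cfsg.isometryGroup F ⇑(qfPlus m F))) :
    Even (m - Module.finrank F
        ↥(plusU0 m F ⊓ (plusU0 m F).map (actLin (qfPlus m F) g))) ↔
      ((g : Matrix.GeneralLinearGroup (Fin m ⊕ Fin m) F) :
        Matrix (Fin m ⊕ Fin m) (Fin m ⊕ Fin m) F).det = 1 := by
  obtain ⟨vs, hlen, hvs, hblock⟩ := plus_class_core g
  have hvs' : ∀ v ∈ vs, qfPlus m F v ≠ 0 := fun v hv => by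
    rw [hvs v hv]
    exact one_ne_zero
  obtain ⟨M, hM⟩ : ∃ M, M = ((((vs.map (reflT (qfPlus m F))).prod * g :
      ↥(Cfsg.isometryGroup F ⇑(qfPlus m F))) : Matrix.GeneralLinearGroup (Fin m ⊕ Fin m) F) :
      Matrix (Fin m ⊕ Fin m) (Fin m ⊕ Fin m) F) := ⟨_, rfl⟩
  rw [← hM] at hblock
  have hdetp : M.det = 1 := by
    obtain ⟨r1, r2, r3⟩ := plus_rel M (fun x => by rw [hM]; exact isomG_map (qfPlus m F) _ x)
    rw [hblock, Matrix.transpose_zero, Matrix.zero_mul, add_zero] at r3
    have e : M = Matrix.fromBlocks M.toBlocks₁₁ M.toBlocks₁₂ 0 M.toBlocks₂₂ := by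
      conv_lhs => rw [← Matrix.fromBlocks_toBlocks M, hblock]
    rw [e, Matrix.det_fromBlocks_zero₂₁]
    have h3 := congrArg Matrix.det r3
    rw [Matrix.det_mul, Matrix.det_transpose, Matrix.det_one] at h3
    exact h3
  rw [hM, isomG_mul_coe, Matrix.det_mul, reflT_list_det _ vs hvs'] at hdetp
  rw [← hlen]
  have hne : (-1 : F) ≠ 1 := by
    intro h
    apply h2
    linear_combination -h
  constructor
  · intro he
    rw [he.neg_one_pow, one_mul] at hdetp
    exact hdetp
  · intro hd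
    rw [hd, mul_one] at hdetp
    exact (neg_one_pow_eq_one_iff_even hne).mp hdetp

/-- `Ω` is transitive on each class of maximal totally singular subspaces. -/
theorem plus_trans [Fintype F] (hm : 1 ≤ m) (h : Fintype.card F ≠ 2 ∨ m ≠ 2)
    (U W : Submodule F (Fin m ⊕ Fin m → F)) (hU : Module.finrank F ↥U = m)
    (hW : Module.finrank F ↥W = m) (hU0 : ∀ u ∈ U, qfPlus m F u = 0)
    (hW0 : ∀ w ∈ W, qfPlus m F w = 0) (he : Even (m - Module.finrank F ↥(U ⊓ W))) :
    ∃ g : ↥(Cfsg.isometryGroup F ⇑(qfPlus m F)), g ∈ Cfsg.Omega F ⇑(qfPlus m F) ∧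
      U.map (actLin (qfPlus m F) g) = W := by
  have hWm : ∀ x, (∀ u ∈ W, QuadraticMap.polar ⇑(qfPlus m F) u x = 0) → x ∈ W := by
    intro x hx
    have hle : W ≤ LinearMap.BilinForm.orthogonal (QuadraticMap.polarBilin (qfPlus m F)) W := by
      intro w hw
      rw [LinearMap.BilinForm.mem_orthogonal_iff]
      intro n hn
      exact ts_polar (qfPlus m F) W hW0 n w hn hw
    have hfr := LinearMap.BilinForm.finrank_orthogonal (qfPlus_nondeg m F) W
    rw [Module.finrank_fintype_fun_eq_card, Fintype.card_sum, Fintype.card_fin, hW] at hfr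
    have heq : W = LinearMap.BilinForm.orthogonal (QuadraticMap.polarBilin (qfPlus m F)) W :=
      Submodule.eq_of_le_of_finrank_eq hle (by rw [hfr, hW]; omega)
    rw [heq, LinearMap.BilinForm.mem_orthogonal_iff]
    exact hx
  have hle' : Module.finrank F ↥(W ⊓ U) ≤ m :=
    (Submodule.finrank_mono inf_le_left).trans hW.le
  obtain ⟨vs, hlen, hvs, hmap⟩ := mts (qfPlus m F) W hW0 hWm
    (m - Module.finrank F ↥(W ⊓ U)) U hU0 (hU.trans hW.symm) (by omega)
  have hvs' : ∀ v ∈ vs, qfPlus m F v ≠ 0 := fun v hv => by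
    rw [hvs v hv]
    exact one_ne_zero
  refine ⟨(vs.map (reflT (qfPlus m F))).prod, ?_, hmap⟩
  have heven : Even vs.length := by
    rw [hlen, inf_comm]
    exact he
  by_cases h2 : (2 : F) = 0
  · have hchar : CharP F 2 := CharTwo.of_one_ne_zero_of_two_eq_zero one_ne_zero h2
    have hex' : (∃ β : F, β ≠ 0 ∧ β ≠ 1) ∨ Fintype.card (Fin m ⊕ Fin m) ≠ 4 := by
      rcases h with h | h
      · exact Or.inl (c2_fin_hex h)
      · right
        rw [Fintype.card_sum, Fintype.card_fin]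
        omega
    obtain ⟨n, hn⟩ := heven
    have hmem := reflT_list_even_mem (qfPlus m F) n vs (by omega) hvs'
    exact c2P_le_commutator (qfPlus m F) (qfPlus_nondeg m F) c2_fin_hsq hex' hmem
  · rw [spinor_criterion (qfPlus m F) h2 (qfPlus_nondeg m F)
      (by rw [Fintype.card_sum, Fintype.card_fin]; omega) _ vs hvs'
      (reflT_list_coe (qfPlus m F) vs hvs')]
    refine ⟨heven, ?_⟩
    have h1 : (vs.map (fun v => qfPlus m F v)).prod = 1 := by
      apply List.prod_eq_one
      intro x hx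
      obtain ⟨v, hv, rfl⟩ := List.mem_map.mp hx
      exact hvs v hv
    rw [h1]
    exact IsSquare.one

end PlusClass

end Cfsg.Agent.Lib.Helper17
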