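import Cfsg.Agent.Lib.Helper17.QdConv
import Cfsg.Agent.Lib.Helper17.QuadFrat
import Cfsg.Agent.Lib.Helper17.SL2Unip

set_option autoImplicit false
set_option maxHeartbeats 1000000
set_option linter.unusedVariables false
set_option linter.unusedSimpArgs false
set_option linter.style.haveILetI false

/-!
Recognition of `Qd(p)` as a section: a finite group in which a subgroup `L` acts on a subgroup `V`
as `SL(2, p)` acts on its natural module (`p` odd) involves `Qd(p)`.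
-/

namespace Cfsg.Agent.Lib.Helper17

open Cfsg.Agent.S2762

universe u

/-- a finite group in which a subgroup `L` normalizes a subgroup `V` and acts on it through a
surjection onto `SL(2, p)` as on the natural module (`p` odd) involves `Qd(p)`; no condition on
the kernel of the surjection or on `V ⊓ L` is needed -/
theorem involves_qd_of_module {Y : Type u} [Group Y] [Finite Y] {p : ℕ} [hp : Fact p.Prime]
    (hp2 : p ≠ 2) (V L : Subgroup Y) (hLN : L ≤ Subgroup.normalizer (V : Set Y))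
    (ρ : ↥L →* Matrix.SpecialLinearGroup (Fin 2) (ZMod p))
    (ψ : Additive ↥V ≃+ (Fin 2 → ZMod p)) (hρ : Function.Surjective ρ)
    (hnat : ∀ (l : ↥L) (v : ↥V), ∃ w : ↥V, (w : Y) = (l : Y) * (v : Y) * (l : Y)⁻¹ ∧
      ψ (Additive.ofMul w) = ((ρ l : Matrix.SpecialLinearGroup (Fin 2) (ZMod p)) :
        Matrix (Fin 2) (Fin 2) (ZMod p)).mulVec (ψ (Additive.ofMul v))) :
    Cfsg.Involves ↥(Cfsg.qd p) Y := by
  classical
  haveI : Fact (Nat.Prime 2) := ⟨Nat.prime_two⟩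
  have hVp : ∀ v : ↥V, v ^ p = 1 := by
    intro v
    have h1 : ψ (Additive.ofMul (v ^ p)) = 0 := by
      rw [ofMul_pow, map_nsmul]
      funext i
      rw [Pi.smul_apply, nsmul_eq_mul, CharP.cast_eq_zero (ZMod p) p, zero_mul]
      rfl
    have h2 : Additive.ofMul (v ^ p) = 0 := ψ.injective (h1.trans (map_zero ψ).symm)
    exact h2
  obtain ⟨Pb, hPb⟩ : ∃ Pb : Subgroup (Matrix.SpecialLinearGroup (Fin 2) (ZMod p)),
      Pb = Subgroup.zpowers negOne := ⟨_, rfl⟩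
  have hnn : (negOne : Matrix.SpecialLinearGroup (Fin 2) (ZMod p)) * negOne = 1 := by
    apply sl2_ext'
    · rw [sl2_mul_apply, negOne_00, negOne_01, negOne_10, sl2_one_00]; ring
    · rw [sl2_mul_apply, negOne_00, negOne_01, negOne_11, sl2_one_01]; ring
    · rw [sl2_mul_apply, negOne_00, negOne_10, negOne_11, sl2_one_10]; ring
    · rw [sl2_mul_apply, negOne_01, negOne_10, negOne_11, sl2_one_11]; ring
  have hPb2 : IsPGroup 2 Pb := by
    rintro ⟨x, hx⟩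
    refine ⟨1, ?_⟩
    apply Subtype.ext
    rw [hPb] at hx
    obtain ⟨k, rfl⟩ := Subgroup.mem_zpowers_iff.mp hx
    rw [Subgroup.coe_pow, Subgroup.coe_one, pow_one, pow_two]
    show negOne ^ k * negOne ^ k = 1
    rw [← (Commute.refl _).mul_zpow, hnn, one_zpow]
  have hcent : ∀ x ∈ Pb, ∀ g : Matrix.SpecialLinearGroup (Fin 2) (ZMod p), g * x = x * g := by
    intro x hx g
    rw [hPb] at hx
    obtain ⟨k, rfl⟩ := Subgroup.mem_zpowers_iff.mp hx
    have hc : Commute g negOne := (negOne_comm g).symm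
    exact hc.zpow_right k
  have hPbN : ∀ nb : Matrix.SpecialLinearGroup (Fin 2) (ZMod p),
      nb ∈ Subgroup.normalizer (Pb : Set (Matrix.SpecialLinearGroup (Fin 2) (ZMod p))) := by
    intro nb
    rw [Subgroup.mem_normalizer_iff]
    intro x
    constructor
    · intro hx
      rw [hcent x hx nb, mul_inv_cancel_right]
      exact hx
    · intro hx
      have e := hcent _ hx nb
      have e2 : x = nb * x * nb⁻¹ := by
        have e3 : nb * x = nb * (nb * x * nb⁻¹) := by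
          rw [e]
          group
        exact mul_left_cancel e3
      rw [e2]
      exact hx
  obtain ⟨P₀, hP₀, hmap, hlift⟩ := frattini_lift ρ hρ 2 Pb hPb2
  obtain ⟨t, htP, htρ⟩ : ∃ t ∈ P₀, ρ t = negOne := by
    have h1 : (negOne : Matrix.SpecialLinearGroup (Fin 2) (ZMod p)) ∈ P₀.map ρ := by
      rw [hmap, hPb]
      exact Subgroup.mem_zpowers _
    exact h1
  have hinv : ∀ v : ↥V, (t : Y) * (v : Y) * (t : Y)⁻¹ = (v : Y)⁻¹ := by
    intro v
    obtain ⟨w, hw1, hw2⟩ := hnat t v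
    rw [htρ, negOne_coe, Matrix.neg_mulVec, Matrix.one_mulVec] at hw2
    have h1 : Additive.ofMul w = Additive.ofMul v⁻¹ := by
      apply ψ.injective
      rw [hw2, ofMul_inv, map_neg]
    have h2 : w = v⁻¹ := h1
    rw [← hw1, h2]
    rfl
  have hint : ∀ u : ↥L, u ∈ Subgroup.normalizer (P₀ : Set ↥L) → (u : Y) ∈ V → u = 1 := by
    intro u huN huV
    have hc : u * t * u⁻¹ * t⁻¹ ∈ P₀ :=
      P₀.mul_mem ((Subgroup.mem_normalizer_iff.mp huN t).mp htP) (P₀.inv_mem htP)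
    obtain ⟨k, hk⟩ := hP₀ ⟨_, hc⟩
    have hk' : ((u : Y) * (t : Y) * (u : Y)⁻¹ * (t : Y)⁻¹) ^ 2 ^ k = 1 := by
      have h0 := congrArg (fun x : ↥P₀ => ((x : ↥L) : Y)) hk
      simpa using h0
    have h1 := hinv ⟨(u : Y)⁻¹, V.inv_mem huV⟩
    have h2 : (u : Y) * (t : Y) * (u : Y)⁻¹ * (t : Y)⁻¹ = (u : Y) * (u : Y) := by
      have h3 : (t : Y) * (u : Y)⁻¹ * (t : Y)⁻¹ = (u : Y) := by
        rw [h1, inv_inv]
      calc (u : Y) * (t : Y) * (u : Y)⁻¹ * (t : Y)⁻¹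
          = (u : Y) * ((t : Y) * (u : Y)⁻¹ * (t : Y)⁻¹) := by group
        _ = (u : Y) * (u : Y) := by rw [h3]
    rw [h2, ← pow_two, ← pow_mul] at hk'
    have hup : (u : Y) ^ p = 1 := by
      have h0 := congrArg Subtype.val (hVp ⟨(u : Y), huV⟩)
      rw [Subgroup.coe_pow, Subgroup.coe_one] at h0
      exact h0
    have hd1 : orderOf (u : Y) ∣ 2 * 2 ^ k := orderOf_dvd_of_pow_eq_one hk'
    have hd2 : orderOf (u : Y) ∣ p := orderOf_dvd_of_pow_eq_one hup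
    have hcop : Nat.Coprime (2 * 2 ^ k) p := by
      rw [← pow_succ']
      exact Nat.Coprime.pow_left _ ((Nat.coprime_primes Nat.prime_two hp.1).mpr (Ne.symm hp2))
    have h4 : orderOf (u : Y) = 1 := Nat.eq_one_of_dvd_coprimes hcop hd1 hd2
    exact Subtype.ext (orderOf_eq_one_iff.mp h4)
  obtain ⟨Λ, hΛdef⟩ : ∃ Λ : Subgroup Y,
      Λ = (Subgroup.normalizer (P₀ : Set ↥L)).map L.subtype := ⟨_, rfl⟩
  have hΛL : Λ ≤ L := by
    rw [hΛdef]
    exact Subgroup.map_subtype_le _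
  have hΛ : Λ ≤ Subgroup.normalizer (V : Set Y) := hΛL.trans hLN
  obtain ⟨ρΛ, hρΛ⟩ : ∃ ρΛ : ↥Λ →* Matrix.SpecialLinearGroup (Fin 2) (ZMod p),
      ∀ l : ↥Λ, ρΛ l = ρ ⟨(l : Y), hΛL l.2⟩ := ⟨ρ.comp (Subgroup.inclusion hΛL), fun l => rfl⟩
  have hρΛs : Function.Surjective ρΛ := by
    intro nb
    obtain ⟨n, hn, hnb⟩ := hlift nb (hPbN nb)
    refine ⟨⟨(n : Y), by rw [hΛdef]; exact ⟨n, hn, rfl⟩⟩, ?_⟩
    rw [hρΛ, ← hnb]
  have hΛint : ∀ l : ↥Λ, (l : Y) ∈ V → l = 1 := by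
    intro l hl
    have hl2 : (l : Y) ∈ (Subgroup.normalizer (P₀ : Set ↥L)).map L.subtype := by
      rw [← hΛdef]
      exact l.2
    obtain ⟨n, hn, hnl⟩ := hl2
    have hnl' : (n : Y) = (l : Y) := hnl
    have h1 := hint n hn (by rw [hnl']; exact hl)
    apply Subtype.ext
    rw [← hnl', h1]
    rfl
  obtain ⟨φ, hφ⟩ : ∃ φ : ↥Λ →* MulAut ↥V, φ = (V.normalizerMonoidHom).comp
      (Subgroup.inclusion hΛ) := ⟨_, rfl⟩
  have hφapp : ∀ (l : ↥Λ) (v : ↥V), ((φ l v : ↥V) : Y) = (l : Y) * (v : Y) * (l : Y)⁻¹ := by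
    intro l v
    rw [hφ]
    rfl
  obtain ⟨α, hα⟩ : ∃ α : (↥V ⋊[φ] ↥Λ) →* Y, ∀ x : ↥V ⋊[φ] ↥Λ,
      α x = (x.left : Y) * (x.right : Y) := by
    subst hφ
    exact ⟨SemidirectProduct.monoidHomSubgroup hΛ, fun x => rfl⟩
  have hαinj : Function.Injective α := by
    rw [injective_iff_map_eq_one]
    intro x hx
    rw [hα] at hx
    have h1 : ((x.right : ↥Λ) : Y) = ((x.left : ↥V) : Y)⁻¹ := by
      exact eq_inv_of_mul_eq_one_right hx
    have h2 : x.right = 1 := hΛint x.right (by rw [h1]; exact V.inv_mem x.left.2)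
    have h3 : x.left = 1 := by
      apply Subtype.ext
      rw [h2, Subgroup.coe_one, mul_one] at hx
      exact hx
    apply SemidirectProduct.ext
    · rw [h3]; rfl
    · rw [h2]; rfl
  obtain ⟨β₁, hβ₁⟩ : ∃ β₁ : ↥V →* ↥(Cfsg.qdOver (ZMod p)),
      ∀ v, β₁ v = transQ (ψ (Additive.ofMul v)) :=
    ⟨{ toFun := fun v => transQ (ψ (Additive.ofMul v))
       map_one' := by rw [ofMul_one, map_zero, transQ_zero]
       map_mul' := by
        intro a b
        rw [ofMul_mul, map_add, transQ_mul] }, fun v => rfl⟩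
  obtain ⟨β₂, hβ₂⟩ : ∃ β₂ : ↥Λ →* ↥(Cfsg.qdOver (ZMod p)),
      ∀ l, β₂ l = iotaHom (ZMod p) (ρΛ l) := ⟨(iotaHom (ZMod p)).comp ρΛ, fun l => rfl⟩
  have hβc : ∀ g, β₁.comp (φ g).toMonoidHom = (MulAut.conj (β₂ g)).toMonoidHom.comp β₁ := by
    intro g
    ext v : 1
    rw [MonoidHom.comp_apply, MonoidHom.comp_apply, MulEquiv.coe_toMonoidHom,
      MulEquiv.coe_toMonoidHom, MulAut.conj_apply, hβ₁, hβ₁, hβ₂, iota_mul_trans,
      mul_inv_cancel_right, hρΛ]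
    obtain ⟨w, hw1, hw2⟩ := hnat ⟨(g : Y), hΛL g.2⟩ v
    have e : φ g v = w := Subtype.ext (by rw [hφapp, hw1])
    rw [e, hw2]
  obtain ⟨β, hβ⟩ : ∃ β : (↥V ⋊[φ] ↥Λ) →* ↥(Cfsg.qdOver (ZMod p)),
      ∀ x : ↥V ⋊[φ] ↥Λ, β x = β₁ x.left * β₂ x.right :=
    ⟨SemidirectProduct.lift β₁ β₂ hβc, fun x => rfl⟩
  have hβs : Function.Surjective β := by
    intro q
    obtain ⟨l, hl⟩ := hρΛs (piHom (ZMod p) q)
    have hk : q * (iotaHom (ZMod p) (piHom (ZMod p) q))⁻¹ ∈ (piHom (ZMod p)).ker := by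
      rw [MonoidHom.mem_ker, map_mul, map_inv, pi_iota, mul_inv_cancel]
    obtain ⟨u, hu⟩ : ∃ u : Fin 2 → ZMod p,
        q * (iotaHom (ZMod p) (piHom (ZMod p) q))⁻¹ = transQ u := ⟨_, eq_transQ_of_mem_ker hk⟩
    refine ⟨⟨Additive.toMul (ψ.symm u), l⟩, ?_⟩
    rw [hβ, hβ₁, hβ₂, hl]
    show transQ (ψ (Additive.ofMul (Additive.toMul (ψ.symm u)))) * _ = q
    rw [ofMul_toMul, AddEquiv.apply_symm_apply, ← hu, inv_mul_cancel_right]
  have hinv1 : Cfsg.Involves ↥(Cfsg.qdOver (ZMod p)) (↥V ⋊[φ] ↥Λ) := by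
    refine involves_of_surjective (⊤ : Subgroup (↥V ⋊[φ] ↥Λ))
      (β.comp (Subgroup.topEquiv : (⊤ : Subgroup (↥V ⋊[φ] ↥Λ)) ≃* _).toMonoidHom) ?_
    intro q
    obtain ⟨x, hx⟩ := hβs q
    exact ⟨⟨x, Subgroup.mem_top x⟩, hx⟩
  exact involves_of_injective_hom α hαinj hinv1

/-- a finite group with a natural `SL(2, p)`-module configuration (`p` odd) involves `Qd(p)` -/
theorem involves_qd_of_natural {Y : Type u} [Group Y] [Finite Y] {p : ℕ} [hp : Fact p.Prime]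
    (hp2 : p ≠ 2) (V L : Subgroup Y) (h : Cfsg.IsNaturalSL2Module (ZMod p) V L) :
    Cfsg.Involves ↥(Cfsg.qd p) Y := by
  obtain ⟨hLN, ρ, ψ, hρ, hker, hnat⟩ := h
  exact involves_qd_of_module hp2 V L hLN ρ ψ hρ hnat

end Cfsg.Agent.Lib.Helper17
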