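import Cfsg.Agent.Lib.Helper17.SL2ThreeSub

set_option autoImplicit false
set_option maxHeartbeats 2000000
set_option linter.unusedVariables false
set_option linter.unusedSimpArgs false
set_option linter.style.haveILetI false

/-!
A finite subgroup of a two-dimensional special linear group of odd characteristic `p` with more
than one Sylow `p`-subgroup has generalised quaternion Sylow `2`-subgroups.
-/

namespace Cfsg.Agent.Lib.Helper17

universe u v

open scoped Pointwise

section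

variable {K : Type u} [Field K]

local notation "SL₂" => Matrix.SpecialLinearGroup (Fin 2) K

/-- two non-commuting elements of order `p` in a finite subgroup with more than one Sylow
`p`-subgroup -/
theorem exists_noncomm_p (p : ℕ) [hp : Fact p.Prime] [CharP K p]
    (H : Subgroup SL₂) [Finite H] (hH : 1 < Nat.card (Sylow p H)) :
    ∃ x y : ↥H, x ^ p = 1 ∧ y ^ p = 1 ∧ x * y ≠ y * x := by
  classical
  haveI : Nontrivial (Sylow p ↥H) := Finite.one_lt_card_iff_nontrivial.mp hH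
  obtain ⟨P₁, P₂, hP⟩ := exists_pair_ne (Sylow p ↥H)
  obtain ⟨y, hy₂, hy₁⟩ : ∃ y : ↥H, y ∈ P₂ ∧ y ∉ P₁ := by
    by_contra hcon
    push Not at hcon
    have hle : (P₂ : Subgroup ↥H) ≤ P₁ := fun y hy => hcon y hy
    have h0 := P₂.is_maximal' P₁.isPGroup' hle
    exact hP (Sylow.ext h0)
  have hpel : ∀ g : ↥H, (∃ k : ℕ, g ^ p ^ k = 1) → g ^ p = 1 := by
    rintro g ⟨k, hk⟩
    apply Subtype.ext
    rw [Subgroup.coe_pow, Subgroup.coe_one]
    apply sl2_pow_p_of_pow_pk p (g : SL₂) k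
    have h0 := congrArg Subtype.val hk
    rw [Subgroup.coe_pow, Subgroup.coe_one] at h0
    exact h0
  have hyp : y ^ p = 1 := by
    apply hpel
    obtain ⟨k, hk⟩ := P₂.isPGroup' ⟨y, hy₂⟩
    refine ⟨k, ?_⟩
    have h0 := congrArg Subtype.val hk
    rw [Subgroup.coe_pow, Subgroup.coe_one] at h0
    exact h0
  obtain ⟨x, hx₁, hxy⟩ : ∃ x : ↥H, x ∈ P₁ ∧ x * y ≠ y * x := by
    by_contra hcon
    push Not at hcon
    apply hy₁
    have hyP : IsPGroup p (Subgroup.zpowers y) :=
      P₂.isPGroup'.to_le (Subgroup.zpowers_le.mpr hy₂)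
    have hnorm : Subgroup.zpowers y ≤ Subgroup.normalizer ((P₁ : Subgroup ↥H) : Set ↥H) := by
      rw [Subgroup.zpowers_le, Subgroup.mem_normalizer_iff]
      intro g
      constructor
      · intro hg
        have e : y * g * y⁻¹ = g := by rw [← hcon g hg, mul_inv_cancel_right]
        rw [e]
        exact hg
      · intro hg
        have e0 := hcon _ hg
        have e : g = y * g * y⁻¹ := by
          have e1 : y * g * y⁻¹ * y = y * (y * g * y⁻¹) := e0
          have e2 : y * g = y * (y * g * y⁻¹) := by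
            rw [← e1]
            group
          exact mul_left_cancel e2
        rw [e]
        exact hg
    have hQ : IsPGroup p ((Subgroup.zpowers y ⊔ (P₁ : Subgroup ↥H) : Subgroup ↥H)) :=
      IsPGroup.to_sup_of_normal_right' hyP P₁.isPGroup' hnorm
    have h0 := P₁.is_maximal' hQ le_sup_right
    have hy' : y ∈ Subgroup.zpowers y ⊔ (P₁ : Subgroup ↥H) :=
      Subgroup.mem_sup_left (Subgroup.mem_zpowers y)
    rw [h0] at hy'
    exact hy'
  have hxp : x ^ p = 1 := by
    apply hpel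
    obtain ⟨k, hk⟩ := P₁.isPGroup' ⟨x, hx₁⟩
    refine ⟨k, ?_⟩
    have h0 := congrArg Subtype.val hk
    rw [Subgroup.coe_pow, Subgroup.coe_one] at h0
    exact h0
  exact ⟨x, y, hxp, hyp, hxy⟩

/-- the Sylow `2`-subgroups are not abelian -/
theorem sl2_sylow2_nonab (p : ℕ) [hp : Fact p.Prime] [CharP K p] (hp2 : p ≠ 2)
    (H : Subgroup SL₂) [Finite H] (hH : 1 < Nat.card (Sylow p H)) (S : Sylow 2 H)
    (hS : ∀ s ∈ S, ∀ t ∈ S, s * t = t * s) : False := by
  classical
  obtain ⟨x, y, hx, hy, hne⟩ := exists_noncomm_p p H hH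
  obtain ⟨G₀, hG₀⟩ : ∃ G₀ : Subgroup ↥H, G₀ = Subgroup.closure {x, y} := ⟨_, rfl⟩
  have hxG : x ∈ G₀ := by rw [hG₀]; exact Subgroup.subset_closure (by simp)
  have hyG : y ∈ G₀ := by rw [hG₀]; exact Subgroup.subset_closure (by simp)
  obtain ⟨x', hx'⟩ : ∃ x' : ↥G₀, x'.1 = x := ⟨⟨x, hxG⟩, rfl⟩
  obtain ⟨y', hy'⟩ : ∃ y' : ↥G₀, y'.1 = y := ⟨⟨y, hyG⟩, rfl⟩
  have hgen : Subgroup.closure ({x', y'} : Set ↥G₀) = ⊤ := by
    subst hG₀
    have h := Subgroup.closure_closure_coe_preimage (k := ({x, y} : Set ↥H))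
    convert h using 2
    ext w
    simp only [Set.mem_preimage, Set.mem_insert_iff, Set.mem_singleton_iff]
    constructor
    · rintro (h | h)
      · left; rw [h]; exact hx'
      · right; rw [h]; exact hy'
    · rintro (h | h)
      · left; exact Subtype.ext (h.trans hx'.symm)
      · right; exact Subtype.ext (h.trans hy'.symm)
  obtain ⟨ι₀, hι₀⟩ : ∃ ι₀ : ↥G₀ →* SL₂, ∀ g, ι₀ g = (g.1 : SL₂) :=
    ⟨H.subtype.comp G₀.subtype, fun g => rfl⟩
  have hι₀inj : Function.Injective ι₀ := by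
    intro s t h
    rw [hι₀, hι₀] at h
    exact Subtype.ext (Subtype.ext h)
  have hxp : x' ^ p = 1 := Subtype.ext (by rw [Subgroup.coe_pow, hx', hx]; rfl)
  have hyp : y' ^ p = 1 := Subtype.ext (by rw [Subgroup.coe_pow, hy', hy]; rfl)
  have hne' : x' * y' ≠ y' * x' := by
    intro h
    apply hne
    have h0 := congrArg Subtype.val h
    rw [Subgroup.coe_mul, Subgroup.coe_mul, hx', hy'] at h0
    exact h0
  obtain ⟨T⟩ : Nonempty (Sylow 2 ↥G₀) := inferInstance
  apply sl2_sylow2_noncomm p hp2 ι₀ hι₀inj x' y' hxp hyp hne' hgen T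
  have hT' : IsPGroup 2 ((T : Subgroup ↥G₀).map G₀.subtype) := T.isPGroup'.map _
  obtain ⟨Q, hQ⟩ := hT'.exists_le_sylow
  obtain ⟨g, hg⟩ := MulAction.exists_smul_eq ↥H S Q
  have hQab : ∀ s ∈ Q, ∀ t ∈ Q, s * t = t * s := by
    intro s hs t ht
    rw [← hg] at hs ht
    have hs' : s ∈ MulAut.conj g • (S : Subgroup ↥H) := hs
    have ht' : t ∈ MulAut.conj g • (S : Subgroup ↥H) := ht
    obtain ⟨s₀, hs₀, rfl⟩ := (Subgroup.mem_smul_pointwise_iff_exists _ _ _).mp hs'
    obtain ⟨t₀, ht₀, rfl⟩ := (Subgroup.mem_smul_pointwise_iff_exists _ _ _).mp ht'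
    rw [← smul_mul', ← smul_mul', hS s₀ hs₀ t₀ ht₀]
  intro s hs t ht
  have h1 := hQab (s : ↥H) (hQ ⟨s, hs, rfl⟩) (t : ↥H) (hQ ⟨t, ht, rfl⟩)
  exact Subtype.ext h1

/-- a finite subgroup of a two-dimensional special linear group of odd characteristic `p` with
more than one Sylow `p`-subgroup has generalised quaternion Sylow `2`-subgroups -/
theorem sl2_sylow2_quat (p : ℕ) [hp : Fact p.Prime] [CharP K p] (hp2 : p ≠ 2)
    (H : Subgroup SL₂) [Finite H] (hH : 1 < Nat.card (Sylow p H)) (S : Sylow 2 H) :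
    ∃ k : ℕ, 1 ≤ k ∧ Nonempty ((S : Subgroup H) ≃* QuaternionGroup (2 ^ k)) := by
  classical
  have h2ne : (2 : K) ≠ 0 := by
    intro h
    have h3 : ((2 : ℕ) : K) = 0 := by exact_mod_cast h
    rw [CharP.cast_eq_zero_iff K p] at h3
    exact hp2 ((Nat.prime_dvd_prime_iff_eq hp.1 Nat.prime_two).mp h3)
  haveI : Fact (Nat.Prime 2) := ⟨Nat.prime_two⟩
  have hval : ∀ s : ↥(S : Subgroup ↥H), s ^ 2 = 1 → s ≠ 1 → ((s : ↥H) : SL₂) = negOne := by
    intro s hs hs1
    apply sl2_sq_one h2ne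
    · have h0 := congrArg (fun w : ↥(S : Subgroup ↥H) => ((w : ↥H) : SL₂)) hs
      simp only [Subgroup.coe_pow, Subgroup.coe_one] at h0
      rw [← pow_two]
      exact h0
    · intro h
      apply hs1
      exact Subtype.ext (Subtype.ext h)
  have hU : Cfsg.Agent.Lib.Lead.UniqP 2 ↥(S : Subgroup ↥H) := by
    intro s t hs ht hs1
    by_cases ht1 : t = 1
    · rw [ht1]
      exact one_mem _
    · have e : t = s := by
        apply Subtype.ext
        apply Subtype.ext
        rw [hval s hs hs1, hval t ht ht1]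
      rw [e]
      exact Subgroup.mem_zpowers s
  have hnab : ¬ (∀ s t : ↥(S : Subgroup ↥H), s * t = t * s) := by
    intro hab
    apply sl2_sylow2_nonab p hp2 H hH S
    intro s hs t ht
    have h0 := congrArg Subtype.val (hab ⟨s, hs⟩ ⟨t, ht⟩)
    exact h0
  rcases Cfsg.Agent.Lib.Lead.uniqP_cyclic_or_quaternion 2 S.isPGroup' hU with hc | ⟨-, n, ⟨e⟩⟩
  · exfalso
    apply hnab
    intro s t
    obtain ⟨c, hc⟩ := hc.exists_generator
    obtain ⟨i, rfl⟩ := Subgroup.mem_zpowers_iff.mp (hc s)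
    obtain ⟨j, rfl⟩ := Subgroup.mem_zpowers_iff.mp (hc t)
    rw [← zpow_add, ← zpow_add, add_comm]
  · rcases Nat.eq_zero_or_pos n with hn | hn
    · exfalso
      apply hnab
      subst hn
      have hcard : Nat.card ↥(S : Subgroup ↥H) = 2 ^ 2 := by
        rw [Nat.card_congr e.toEquiv, Nat.card_eq_fintype_card, QuaternionGroup.card]
        norm_num
      haveI := IsPGroup.isMulCommutative_of_card_eq_prime_sq hcard
      exact fun a b => mul_comm' a b
    · exact ⟨n, hn, ⟨e⟩⟩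

end

end Cfsg.Agent.Lib.Helper17
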