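import Cfsg.Agent.Lib.Helper17.SL2Unip
import Cfsg.Agent.Lib.Helper17.SL2Three

set_option autoImplicit false
set_option maxHeartbeats 2000000
set_option linter.unusedVariables false
set_option linter.unusedSimpArgs false
set_option linter.style.haveILetI false

/-!
Characteristic three: a finite subgroup of a two-dimensional special linear group with two
non-commuting elements of order three contains a copy of `SL(2, 3)`; together with the case of
larger characteristic this gives the subgroup theorem for all odd characteristics.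
-/

namespace Cfsg.Agent.Lib.Helper17

universe u v

section

variable {K : Type u} [Field K]

local notation "SL₂" => Matrix.SpecialLinearGroup (Fin 2) K

/-- the minimal case in characteristic three -/
theorem three_min [CharP K 3] {G : Type v} [Group G] [Finite G] (ι : G →* SL₂)
    (hι : Function.Injective ι) (x₀ y₀ : G) (a₀ b₀ : K) (ha : a₀ ≠ 0) (hb : b₀ ≠ 0)
    (hx : ι x₀ = uu a₀) (hy : ι y₀ = ll b₀)
    (hmin : ∀ R : Subgroup G, R ≠ ⊤ → ∀ v w : G, v ∈ R → w ∈ R → v ^ 3 = 1 → w ^ 3 = 1 →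
      v * w = w * v) :
    ∃ f : Matrix.SpecialLinearGroup (Fin 2) (ZMod 3) →* G, Function.Injective f := by
  classical
  haveI : Fact (Nat.Prime 3) := ⟨Nat.prime_three⟩
  have h2ne : (2 : K) ≠ 0 := by
    intro h
    have h3 : ((2 : ℕ) : K) = 0 := by exact_mod_cast h
    rw [CharP.cast_eq_zero_iff K 3] at h3
    norm_num at h3
  have h3K : ((3 : ℕ) : K) = 0 := CharP.cast_eq_zero K 3
  have hx3 : x₀ ^ 3 = 1 := by
    apply hι
    rw [map_pow, hx, uu_pow, h3K, zero_mul, uu_zero, map_one]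
  have hy3 : y₀ ^ 3 = 1 := by
    apply hι
    rw [map_pow, hy, ll_pow, h3K, zero_mul, ll_zero, map_one]
  have hne : x₀ * y₀ ≠ y₀ * x₀ := by
    intro h
    have h1 : uu a₀ * ll b₀ = ll b₀ * uu a₀ := by rw [← hx, ← hy, ← map_mul, ← map_mul, h]
    have h2 := ((comm_uu_iff a₀ ha (ll b₀)).mp h1).1
    rw [ll_10] at h2
    exact hb h2
  have hcube : ∀ (g : G) (k : ℕ), g ^ 3 ^ k = 1 → g ^ 3 = 1 := by
    intro g k h
    apply hι
    rw [map_pow, map_one]
    exact sl2_pow_p_of_pow_pk 3 (ι g) k (by rw [← map_pow, h, map_one])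
  obtain ⟨H', ψ, hψ⟩ := exists_hom_of_involves (dickson_three ι hι x₀ y₀ hx3 hy3 hne)
  have h1ne : (1 : ZMod 3) ≠ 0 := one_ne_zero
  have hH' : H' = ⊤ := by
    by_contra hne'
    obtain ⟨h₁, hh₁⟩ := hψ (uu 1)
    obtain ⟨h₂, hh₂⟩ := hψ (ll 1)
    have key : ∀ h : ↥H', ∃ (h' : ↥H') (m : ℕ), ¬ 3 ∣ m ∧ (h' : G) ^ 3 = 1 ∧
        ψ h' = ψ h ^ m := by
      intro h
      obtain ⟨e, m, hm, hem⟩ :=
        Nat.exists_eq_pow_mul_and_not_dvd (orderOf_pos h).ne' 3 (by norm_num)
      refine ⟨h ^ m, m, hm, ?_, map_pow ψ h m⟩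
      have h1 : (h ^ m) ^ 3 ^ e = 1 := by
        rw [← pow_mul, mul_comm, ← hem, pow_orderOf_eq_one]
      apply hcube _ e
      have h0 := congrArg Subtype.val h1
      rw [Subgroup.coe_pow, Subgroup.coe_one] at h0
      exact h0
    obtain ⟨h₁', m₁, hm₁, h₁3, hψ₁⟩ := key h₁
    obtain ⟨h₂', m₂, hm₂, h₂3, hψ₂⟩ := key h₂
    have hc := hmin H' hne' (h₁' : G) (h₂' : G) h₁'.2 h₂'.2 h₁3 h₂3
    have hc' : h₁' * h₂' = h₂' * h₁' := Subtype.ext hc
    have hc'' := congrArg ψ hc'
    rw [map_mul, map_mul, hψ₁, hψ₂, hh₁, hh₂, uu_pow, ll_pow, mul_one, mul_one] at hc''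
    have hm₁' : ((m₁ : ℕ) : ZMod 3) ≠ 0 := by
      rw [Ne, ZMod.natCast_eq_zero_iff]
      exact hm₁
    have hm₂' : ((m₂ : ℕ) : ZMod 3) ≠ 0 := by
      rw [Ne, ZMod.natCast_eq_zero_iff]
      exact hm₂
    have h0 := ((comm_uu_iff _ hm₁' _).mp hc'').1
    rw [ll_10] at h0
    exact hm₂' h0
  subst hH'
  obtain ⟨ψ', hψ'⟩ : ∃ ψ' : G →* Matrix.SpecialLinearGroup (Fin 2) (ZMod 3),
      Function.Surjective ψ' := by
    refine ⟨ψ.comp ((MonoidHom.id G).codRestrict ⊤ (fun _ => Subgroup.mem_top _)), ?_⟩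
    intro s
    obtain ⟨h, rfl⟩ := hψ s
    exact ⟨(h : G), rfl⟩
  have hKne : ψ'.ker ≠ ⊤ := by
    intro h
    obtain ⟨g, hg⟩ := hψ' (uu 1)
    have h0 : g ∈ ψ'.ker := by rw [h]; trivial
    rw [MonoidHom.mem_ker, hg] at h0
    have h1 := congrArg (fun s : Matrix.SpecialLinearGroup (Fin 2) (ZMod 3) => s.1 0 1) h0
    simp only [uu_01, sl2_one_01] at h1
    exact h1ne h1
  have hconj3 : ∀ u g : G, u ^ 3 = 1 → (g * u * g⁻¹) ^ 3 = 1 := by
    intro u g hu
    rw [conj_pow, hu, mul_one, mul_inv_cancel]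
  have hi : ∀ k : G, ψ' k = 1 → k ^ 3 = 1 → k = 1 := by
    intro k hk hk3
    have hmemk : ∀ g : G, g * k * g⁻¹ ∈ ψ'.ker := by
      intro g
      rw [MonoidHom.mem_ker, map_mul, map_mul, hk, mul_one, map_inv, mul_inv_cancel]
    have c1 := hmin ψ'.ker hKne k (x₀ * k * x₀⁻¹) (MonoidHom.mem_ker.mpr hk) (hmemk x₀) hk3
      (hconj3 k x₀ hk3)
    have c2 := hmin ψ'.ker hKne k (y₀ * k * y₀⁻¹) (MonoidHom.mem_ker.mpr hk) (hmemk y₀) hk3
      (hconj3 k y₀ hk3)
    have c1' := congrArg ι c1
    have c2' := congrArg ι c2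
    simp only [map_mul, map_inv] at c1' c2'
    rw [hx] at c1'
    rw [hy] at c2'
    have m10 := conj_uu_comm h2ne a₀ ha (ι k) c1'
    have m01 := conj_ll_comm h2ne b₀ hb (ι k) c2'
    have hM3 : ι k ^ 3 = 1 := by rw [← map_pow, hk3, map_one]
    have hu := unip_eq_uu (ι k) (sl2_p_upper 3 (ι k) hM3 m10)
    rw [m01, uu_zero] at hu
    exact hι (by rw [hu, map_one])
  have hii : ∀ k u : G, ψ' k = 1 → u ^ 3 = 1 → k * u = u * k := by
    intro k u hk hu
    have hR : ψ'.ker ⊔ Subgroup.zpowers u ≠ ⊤ := by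
      intro hR
      obtain ⟨g₁, hg₁⟩ := hψ' (uu 1)
      obtain ⟨g₂, hg₂⟩ := hψ' (ll 1)
      have hrep : ∀ g : G, ∃ j : ℤ, ψ' g = ψ' u ^ j := by
        intro g
        have hg : g ∈ ψ'.ker ⊔ Subgroup.zpowers u := by rw [hR]; trivial
        obtain ⟨y, hy, z, hz, rfl⟩ := Subgroup.mem_sup_of_normal_left.mp hg
        obtain ⟨j, rfl⟩ := Subgroup.mem_zpowers_iff.mp hz
        exact ⟨j, by rw [map_mul, MonoidHom.mem_ker.mp hy, one_mul, map_zpow]⟩
      obtain ⟨j₁, hj₁⟩ := hrep g₁
      obtain ⟨j₂, hj₂⟩ := hrep g₂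
      have hcomm : uu (1 : ZMod 3) * ll 1 = ll 1 * uu 1 := by
        rw [← hg₁, ← hg₂, hj₁, hj₂]
        exact (Commute.zpow_zpow_self (ψ' u) j₁ j₂).eq
      have h0 := ((comm_uu_iff _ h1ne _).mp hcomm).1
      rw [ll_10] at h0
      exact h1ne h0
    have hkR : k ∈ ψ'.ker ⊔ Subgroup.zpowers u :=
      Subgroup.mem_sup_left (MonoidHom.mem_ker.mpr hk)
    have huR : u ∈ ψ'.ker ⊔ Subgroup.zpowers u :=
      Subgroup.mem_sup_right (Subgroup.mem_zpowers u)
    have hc := hmin _ hR u (k * u * k⁻¹) huR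
      (Subgroup.mul_mem _ (Subgroup.mul_mem _ hkR huR) (Subgroup.inv_mem _ hkR)) hu
      (hconj3 u k hu)
    obtain ⟨c, hcdef⟩ : ∃ c : G, c = (k * u * k⁻¹) * u⁻¹ := ⟨_, rfl⟩
    have hcker : ψ' c = 1 := by
      rw [hcdef, map_mul, map_mul, map_mul, map_inv, map_inv, hk]
      group
    have hc3 : c ^ 3 = 1 := by
      have hcm : Commute (k * u * k⁻¹) u⁻¹ :=
        Commute.inv_right (show Commute (k * u * k⁻¹) u from hc.symm)
      rw [hcdef, hcm.mul_pow, hconj3 u k hu, inv_pow, hu, inv_one, one_mul]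
    have hc1 := hi c hcker hc3
    rw [hcdef, mul_inv_eq_one] at hc1
    calc k * u = (k * u * k⁻¹) * k := by group
      _ = u * k := by rw [hc1]
  have hx₁3 : (y₀ * x₀ * y₀⁻¹) ^ 3 = 1 := hconj3 x₀ y₀ hx3
  have hscal : ∀ g : G, g * x₀ = x₀ * g → g * (y₀ * x₀ * y₀⁻¹) = (y₀ * x₀ * y₀⁻¹) * g →
      ι g = 1 ∨ ι g = negOne := by
    intro g h1 h2
    apply scalar_of_comm a₀ b₀ ha hb (ι g)
    · rw [← hx, ← map_mul, ← map_mul, h1]
    · have h0 := congrArg ι h2
      simp only [map_mul, map_inv] at h0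
      rw [hx, hy] at h0
      exact h0.symm
  have hker : ∀ k : G, ψ' k = 1 → k = 1 := by
    intro k hk
    by_contra hk1
    have hkx := hii k x₀ hk hx3
    have hkx' := hii k (y₀ * x₀ * y₀⁻¹) hk hx₁3
    have hιk : ι k = negOne := by
      rcases hscal k hkx hkx' with h | h
      · exfalso
        exact hk1 (hι (by rw [h, map_one]))
      · exact h
    have hkcent : ∀ g : G, k * g = g * k := by
      intro g
      apply hι
      rw [map_mul, map_mul, hιk]
      exact negOne_comm (ι g)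
    have hk2 : k * k = 1 := by
      apply hι
      rw [map_mul, hιk, map_one]
      apply sl2_ext' <;>
        simp only [sl2_mul_apply, negOne_00, negOne_01, negOne_10, negOne_11, sl2_one_00,
          sl2_one_01, sl2_one_10, sl2_one_11] <;> ring
    obtain ⟨w, hw⟩ := hψ' negOne
    have hwcomm : ∀ u : G, u ^ 3 = 1 → w * u = u * w := by
      intro u hu
      obtain ⟨c, hcdef⟩ : ∃ c : G, c = u * w * u⁻¹ * w⁻¹ := ⟨_, rfl⟩
      have hcker : ψ' c = 1 := by
        rw [hcdef, map_mul, map_mul, map_mul, map_inv, map_inv, hw, ← negOne_comm (ψ' u)]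
        group
      have hcx := hii c x₀ hcker hx3
      have hcx' := hii c (y₀ * x₀ * y₀⁻¹) hcker hx₁3
      have hc1 : c = 1 := by
        rcases hscal c hcx hcx' with h | h
        · exact hι (by rw [h, map_one])
        · exfalso
          have hck : c = k := hι (by rw [h, hιk])
          have e1 : u * w = k * w * u := by
            rw [← hck, hcdef]
            group
          have e2 : u * u * w = w * (u * u) := by
            calc u * u * w = u * (u * w) := by group
              _ = u * (k * w * u) := by rw [e1]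
              _ = (u * k) * w * u := by group
              _ = (k * u) * w * u := by rw [hkcent u]
              _ = k * (u * w) * u := by group
              _ = k * (k * w * u) * u := by rw [e1]
              _ = (k * k) * w * (u * u) := by group
              _ = w * (u * u) := by rw [hk2, one_mul]
          have hu' : u * u * u = 1 := by
            have h0 := hu
            rw [pow_succ, pow_two] at h0
            exact h0
          have e3 : u * u * u * w = k * w * (u * u * u) := by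
            calc u * u * u * w = u * (u * u * w) := by group
              _ = u * (w * (u * u)) := by rw [e2]
              _ = (u * w) * (u * u) := by group
              _ = (k * w * u) * (u * u) := by rw [e1]
              _ = k * w * (u * u * u) := by group
          rw [hu', one_mul, mul_one] at e3
          have e5 : k = 1 := by
            have e6 : k * w = 1 * w := by rw [one_mul]; exact e3.symm
            exact mul_right_cancel e6
          exact hk1 e5
      rw [hcdef, mul_inv_eq_one] at hc1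
      calc w * u = (u * w * u⁻¹) * u := by rw [hc1]
        _ = u * w := by group
    have hιw := hscal w (hwcomm x₀ hx3) (hwcomm _ hx₁3)
    have hψw1 : ψ' w = 1 := by
      rcases hιw with h | h
      · have e : w = 1 := hι (by rw [h, map_one])
        rw [e, map_one]
      · have e : w = k := hι (by rw [h, hιk])
        rw [e, hk]
    rw [hw] at hψw1
    have h0 := congrArg (fun s : Matrix.SpecialLinearGroup (Fin 2) (ZMod 3) => s.1 0 0) hψw1
    simp only [negOne_00, sl2_one_00] at h0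
    have h2 : (2 : ZMod 3) = 0 := by linear_combination -h0
    have h3 : ((2 : ℕ) : ZMod 3) = 0 := by exact_mod_cast h2
    rw [ZMod.natCast_eq_zero_iff] at h3
    norm_num at h3
  have hinj : Function.Injective ψ' := (injective_iff_map_eq_one ψ').mpr hker
  exact ⟨(MulEquiv.ofBijective ψ' ⟨hinj, hψ'⟩).symm.toMonoidHom,
    (MulEquiv.ofBijective ψ' ⟨hinj, hψ'⟩).symm.injective⟩

/-- the subgroup theorem in characteristic three -/
theorem dickson_three_sub [CharP K 3] :
    ∀ (n : ℕ) (G : Type v) [Group G] [Finite G] (ι : G →* SL₂), Function.Injective ι →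
      Nat.card G = n → ∀ x y : G, x ^ 3 = 1 → y ^ 3 = 1 → x * y ≠ y * x →
      ∃ f : Matrix.SpecialLinearGroup (Fin 2) (ZMod 3) →* G, Function.Injective f := by
  haveI : Fact (Nat.Prime 3) := ⟨Nat.prime_three⟩
  intro n
  induction n using Nat.strong_induction_on with
  | _ n ih =>
  intro G _ _ ι hι hn x y hx hy hne
  by_cases hmin : ∀ R : Subgroup G, R ≠ ⊤ → ∀ v w : G, v ∈ R → w ∈ R → v ^ 3 = 1 → w ^ 3 = 1 →
      v * w = w * v
  · obtain ⟨g, a₀, b₀, ha, hb, hgx, hgy⟩ := sl2_normal_form 3 (ι x) (ι y)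
      (by rw [← map_pow, hx, map_one]) (by rw [← map_pow, hy, map_one])
      (fun h => hne (hι (by rw [map_mul, map_mul, h])))
    obtain ⟨ι', hι'def⟩ : ∃ ι' : G →* SL₂, ∀ w, ι' w = g * ι w * g⁻¹ :=
      ⟨(MulAut.conj g).toMonoidHom.comp ι, fun w => rfl⟩
    have hι' : Function.Injective ι' := by
      intro s t h
      rw [hι'def, hι'def] at h
      exact hι (mul_left_cancel (mul_right_cancel h))
    exact three_min ι' hι' x y a₀ b₀ ha hb (by rw [hι'def, hgx]) (by rw [hι'def, hgy]) hmin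
  · push Not at hmin
    obtain ⟨R, hR, v, w, hv, hw, hvp, hwp, hvw⟩ := hmin
    have hlt : Nat.card R < n := by
      rw [← hn]
      exact lt_of_le_of_ne (Subgroup.card_le_card_group R)
        (fun h => hR (Subgroup.eq_top_of_card_eq R h))
    obtain ⟨f, hf⟩ := ih (Nat.card R) hlt ↥R (ι.comp R.subtype)
      (hι.comp R.subtype_injective) rfl ⟨v, hv⟩ ⟨w, hw⟩ (Subtype.ext hvp) (Subtype.ext hwp)
      (fun h => hvw (congrArg Subtype.val h))
    exact ⟨R.subtype.comp f, R.subtype_injective.comp hf⟩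

/-- The subgroup theorem: a finite group embedded in a two-dimensional special linear group of
odd characteristic `p`, with two non-commuting elements of order `p`, contains a copy of
`SL(2, p)`. -/
theorem dickson_sub (p : ℕ) [hp : Fact p.Prime] [CharP K p] (hp2 : p ≠ 2)
    (G : Type v) [Group G] [Finite G] (ι : G →* SL₂) (hι : Function.Injective ι)
    (x y : G) (hx : x ^ p = 1) (hy : y ^ p = 1) (hne : x * y ≠ y * x) :
    ∃ f : Matrix.SpecialLinearGroup (Fin 2) (ZMod p) →* G, Function.Injective f := by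
  by_cases hp3 : p = 3
  · subst hp3
    exact dickson_three_sub _ G ι hι rfl x y hx hy hne
  · exact dickson_lite p hp2 hp3 _ G ι hι rfl x y hx hy hne

/-- a finite subgroup of a two-dimensional special linear group of odd characteristic `p` with
more than one Sylow `p`-subgroup contains a copy of `SL(2, p)` -/
theorem dickson_subgroup (p : ℕ) [hp : Fact p.Prime] [CharP K p] (hp2 : p ≠ 2)
    (H : Subgroup SL₂) [Finite H] (hH : 1 < Nat.card (Sylow p H)) :
    ∃ K₀ : Subgroup SL₂, K₀ ≤ H ∧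
      Nonempty (K₀ ≃* Matrix.SpecialLinearGroup (Fin 2) (ZMod p)) := by
  classical
  haveI : Nontrivial (Sylow p ↥H) := Finite.one_lt_card_iff_nontrivial.mp hH
  obtain ⟨P₁, P₂, hP⟩ := exists_pair_ne (Sylow p ↥H)
  obtain ⟨y, hy₂, hy₁⟩ : ∃ y : ↥H, y ∈ P₂ ∧ y ∉ P₁ := by
    by_contra hcon
    push Not at hcon
    have hle : (P₂ : Subgroup ↥H) ≤ P₁ := fun y hy => hcon y hy
    have h0 := P₂.is_maximal' P₁.isPGroup' hle
    exact hP (Sylow.ext h0)
  have hpel : ∀ g : ↥H, (∃ k : ℕ, g ^ p ^ k = 1) → g ^ p = 1 := by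
    rintro g ⟨k, hk⟩
    apply Subtype.ext
    rw [Subgroup.coe_pow, Subgroup.coe_one]
    apply sl2_pow_p_of_pow_pk p (g : SL₂) k
    have h0 := congrArg Subtype.val hk
    rw [Subgroup.coe_pow, Subgroup.coe_one] at h0
    exact h0
  have hyp : y ^ p = 1 := by
    apply hpel
    obtain ⟨k, hk⟩ := P₂.isPGroup' ⟨y, hy₂⟩
    refine ⟨k, ?_⟩
    have h0 := congrArg Subtype.val hk
    rw [Subgroup.coe_pow, Subgroup.coe_one] at h0
    exact h0
  obtain ⟨x, hx₁, hxy⟩ : ∃ x : ↥H, x ∈ P₁ ∧ x * y ≠ y * x := by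
    by_contra hcon
    push Not at hcon
    apply hy₁
    have hyP : IsPGroup p (Subgroup.zpowers y) :=
      P₂.isPGroup'.to_le (Subgroup.zpowers_le.mpr hy₂)
    have hnorm : Subgroup.zpowers y ≤ Subgroup.normalizer ((P₁ : Subgroup ↥H) : Set ↥H) := by
      rw [Subgroup.zpowers_le, Subgroup.mem_normalizer_iff]
      intro g
      constructor
      · intro hg
        have e : y * g * y⁻¹ = g := by rw [← hcon g hg, mul_inv_cancel_right]
        rw [e]
        exact hg
      · intro hg
        have e0 := hcon _ hg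
        have e : g = y * g * y⁻¹ := by
          have e1 : y * g * y⁻¹ * y = y * (y * g * y⁻¹) := e0
          have e2 : y * g = y * (y * g * y⁻¹) := by
            rw [← e1]
            group
          exact mul_left_cancel e2
        rw [e]
        exact hg
    have hQ : IsPGroup p ((Subgroup.zpowers y ⊔ (P₁ : Subgroup ↥H) : Subgroup ↥H)) :=
      IsPGroup.to_sup_of_normal_right' hyP P₁.isPGroup' hnorm
    have h0 := P₁.is_maximal' hQ le_sup_right
    have hy' : y ∈ Subgroup.zpowers y ⊔ (P₁ : Subgroup ↥H) :=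
      Subgroup.mem_sup_left (Subgroup.mem_zpowers y)
    rw [h0] at hy'
    exact hy'
  have hxp : x ^ p = 1 := by
    apply hpel
    obtain ⟨k, hk⟩ := P₁.isPGroup' ⟨x, hx₁⟩
    refine ⟨k, ?_⟩
    have h0 := congrArg Subtype.val hk
    rw [Subgroup.coe_pow, Subgroup.coe_one] at h0
    exact h0
  obtain ⟨f, hf⟩ := dickson_sub p hp2 ↥H H.subtype H.subtype_injective x y hxp hyp hxy
  have hinj : Function.Injective (H.subtype.comp f) := fun s t h => hf (H.subtype_injective h)
  refine ⟨(H.subtype.comp f).range, ?_, ?_⟩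
  · rintro _ ⟨s, rfl⟩
    exact (f s).2
  · exact ⟨(MonoidHom.ofInjective hinj).symm⟩

end

end Cfsg.Agent.Lib.Helper17
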