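import Mathlib
import Cfsg.Agent.Lib.Helper1.ThompsonPC
import Cfsg.Agent.Lib.Helper17.ThA1

set_option autoImplicit false

/-!
Hypotheses and statement of Thompson's normal `p`-complement theorem for the abelian-version
Thompson subgroup, and their transport along subgroups, conjugation and quotients by normal
`p'`-subgroups (adapted from the elementary abelian version in `Lib/Helper1/ThompsonPC.lean`).
-/

namespace Cfsg.Agent.Lib.Helper17

open Cfsg
open Cfsg.Agent.Lib.Helper1

universe u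

variable {G : Type u} [Group G]

/-- The hypotheses of Thompson's normal `p`-complement theorem for the `p`-subgroup `S`. -/
def ThHypA (p : ℕ) (S : Subgroup G) : Prop :=
  FrobS p (Subgroup.normalizer ((thompsonSubgroupAOf S : Subgroup G) : Set G)) ∧
  FrobS p (Subgroup.centralizer ((S ⊓ Subgroup.centralizer (S : Set G) : Subgroup G) : Set G))

theorem ThHypA.map_conj [Finite G] {p : ℕ} [Fact p.Prime] {S : Subgroup G} (h : ThHypA p S) (g : G) :
    ThHypA p (S.map (MulAut.conj g).toMonoidHom) := by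
  obtain ⟨h1, h2⟩ := h
  constructor
  · rw [thompsonSubgroupAOf_eq_of_eq_map (MulAut.conj g).toMonoidHom (MulAut.conj g).injective
      S _ rfl, Cfsg.Agent.Lib.Helper14.normalizer_map_conj]
    exact h1.map _
  · rw [Cfsg.Agent.Lib.Helper14.centralizer_map_conj S g, ← Cfsg.Agent.Lib.Helper14.map_conj_inf,
      Cfsg.Agent.Lib.Helper14.centralizer_map_conj]
    exact h2.map _

theorem ThHypA.sylow [Finite G] {p : ℕ} [Fact p.Prime] {P : Sylow p G}
    (h : ThHypA p (P : Subgroup G)) (P' : Sylow p G) : ThHypA p (P' : Subgroup G) := by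
  obtain ⟨g, hg⟩ := MulAction.exists_smul_eq G P P'
  rw [← hg, Cfsg.Agent.Lib.Helper6.sylow_smul_eq_map]
  exact h.map_conj g

/-- The statement of Thompson's theorem for a group. -/
def ThStmtA (p : ℕ) (G' : Type u) [Group G'] : Prop :=
  ∀ P : Sylow p G', ThHypA p (P : Subgroup G') → FrobCond p G'

theorem frobS_of_thStmtA [Finite G] {p : ℕ} [Fact p.Prime] (L S : Subgroup G) (hth : ThStmtA p L)
    (hSL : S ≤ L) (hS : IsPGroup p S) (hidx : ¬ p ∣ S.relIndex L) (h : ThHypA p S) :
    FrobS p L := by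
  obtain ⟨P, hP⟩ := exists_sylow_subtype_eq hSL hS hidx
  rw [← frobCond_subtype_iff]
  apply hth P
  obtain ⟨h1, h2⟩ := h
  constructor
  · apply FrobS.of_map_injective L.subtype L.subtype_injective
    refine h1.mono ?_
    have e : thompsonSubgroupAOf S = (thompsonSubgroupAOf (P : Subgroup L)).map L.subtype :=
      thompsonSubgroupAOf_eq_of_eq_map L.subtype L.subtype_injective (P : Subgroup L) S hP.symm
    rw [e]
    exact Subgroup.le_normalizer_map L.subtype
  · apply FrobS.of_map_injective L.subtype L.subtype_injective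
    refine h2.mono ?_
    rintro _ ⟨c, hc, rfl⟩
    rw [SetLike.mem_coe, Subgroup.mem_centralizer_iff] at hc
    rw [Subgroup.mem_centralizer_iff]
    intro z hz
    obtain ⟨hzS, hzC⟩ := Subgroup.mem_inf.mp hz
    rw [← hP] at hzS
    obtain ⟨z', hz', rfl⟩ := hzS
    have hz'' : z' ∈ (P : Subgroup L) ⊓ Subgroup.centralizer ((P : Subgroup L) : Set L) := by
      refine Subgroup.mem_inf.mpr ⟨hz', ?_⟩
      rw [Subgroup.mem_centralizer_iff] at hzC ⊢
      intro y hy
      apply Subtype.ext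
      exact hzC y (by rw [← hP]; exact ⟨y, hy, rfl⟩)
    exact congrArg Subtype.val (hc z' hz'')

theorem ThHypA.quotient [Finite G] {p : ℕ} [Fact p.Prime] (O : Subgroup G) [O.Normal]
    (hO : (Nat.card O).Coprime p) {P : Subgroup G} (hP : IsPGroup p P) (h : ThHypA p P) :
    ThHypA p (P.map (QuotientGroup.mk' O)) := by
  obtain ⟨h1, h2⟩ := h
  have hOP : ∀ X : Subgroup G, IsPGroup p X → ∀ x ∈ X, QuotientGroup.mk' O x = 1 → x = 1 := by
    intro X hX x hx hx1
    have hxO : x ∈ O := (QuotientGroup.eq_one_iff x).mp hx1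
    have h3 : O ⊓ X = ⊥ := by
      obtain ⟨j, hj⟩ := IsPGroup.iff_card.mp hX
      apply inf_eq_bot_of_coprime_card
      rw [hj]
      exact (Nat.Coprime.pow_right j hO).symm
    have h4 : x ∈ O ⊓ X := Subgroup.mem_inf.mpr ⟨hxO, hx⟩
    rw [h3, Subgroup.mem_bot] at h4
    exact h4
  constructor
  · rw [thompsonSubgroupAOf_map_of_injOn (QuotientGroup.mk' O) P (hOP P hP)]
    have hJp : IsPGroup p (thompsonSubgroupAOf P) :=
      hP.to_le (thompsonSubgroupAOf_le P)
    exact (h1.map (QuotientGroup.mk' O)).mono (normalizer_map_mk_le O hO _ hJp)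
  · obtain ⟨Z, hZdef⟩ : ∃ Z, Z = P ⊓ Subgroup.centralizer (P : Set G) := ⟨_, rfl⟩
    rw [← hZdef] at h2
    have hZp : IsPGroup p Z := hP.to_le (hZdef ▸ inf_le_left)
    refine (h2.map (QuotientGroup.mk' O)).mono ?_
    intro gb hgb
    have hZle : Z.map (QuotientGroup.mk' O) ≤ P.map (QuotientGroup.mk' O) ⊓
        Subgroup.centralizer ((P.map (QuotientGroup.mk' O) : Subgroup (G ⧸ O)) : Set (G ⧸ O)) := by
      rintro _ ⟨z, hz, rfl⟩
      rw [hZdef] at hz
      obtain ⟨hzP, hzC⟩ := Subgroup.mem_inf.mp hz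
      refine Subgroup.mem_inf.mpr ⟨Subgroup.mem_map_of_mem _ hzP, ?_⟩
      rw [Subgroup.mem_centralizer_iff] at hzC ⊢
      rintro _ ⟨y, hy, rfl⟩
      rw [← map_mul, ← map_mul, hzC y hy]
    have hgb' : gb ∈ Subgroup.centralizer
        ((Z.map (QuotientGroup.mk' O) : Subgroup (G ⧸ O)) : Set (G ⧸ O)) :=
      Subgroup.centralizer_le (SetLike.coe_subset_coe.mpr hZle) hgb
    have hgbN := normalizer_map_mk_le O hO Z hZp (Subgroup.centralizer_le_normalizer _ hgb')
    obtain ⟨g, hg, rfl⟩ := hgbN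
    refine ⟨g, ?_, rfl⟩
    rw [SetLike.mem_coe] at hg
    rw [SetLike.mem_coe, Subgroup.mem_centralizer_iff]
    intro z hz
    have h3 : g * z * g⁻¹ ∈ Z := (Subgroup.mem_normalizer_iff.mp hg z).mp hz
    have h4 : g * z * g⁻¹ * z⁻¹ ∈ Z := Z.mul_mem h3 (Z.inv_mem hz)
    have h5 : QuotientGroup.mk' O (g * z * g⁻¹ * z⁻¹) = 1 := by
      rw [Subgroup.mem_centralizer_iff] at hgb'
      have h6 := hgb' _ (Subgroup.mem_map_of_mem (QuotientGroup.mk' O) hz)
      simp only [map_mul, map_inv]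
      rw [← h6]
      group
    have h7 := hOP Z hZp _ h4 h5
    have h8 : z * g = (g * z * g⁻¹ * z⁻¹)⁻¹ * (g * z) := by group
    rw [h8, h7, inv_one, one_mul]

end Cfsg.Agent.Lib.Helper17
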