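import Mathlib
import Cfsg.Agent.Lib.Helper1.ThompsonNPC
import Cfsg.Agent.Lib.Helper17.ThA5

set_option autoImplicit false
set_option linter.style.haveILetI false

/-!
Thompson's normal `p`-complement theorem for the abelian-version Thompson subgroup, for `p` odd
or `S₄`-free groups, by induction on the group order (induction adapted from
`Lib/Helper1/ThompsonMain.lean`).
-/

namespace Cfsg.Agent.Lib.Helper17

open Cfsg
open Cfsg.Agent.Lib.Helper1

universe u

set_option maxHeartbeats 1600000 in
theorem thompson_allA (p : ℕ) [Fact p.Prime] :
    ∀ (n : ℕ) (G : Type u) [Group G] [Finite G], Nat.card G ≤ n →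
      (p ≠ 2 ∨ ¬ Cfsg.Involves (Equiv.Perm (Fin 4)) G) → ThStmtA p G := by
  have hp : p.Prime := Fact.out
  intro n
  induction n using Nat.strong_induction_on with
  | _ n IH =>
    intro G _ _ hn hS4 P hyp
    have ih : ∀ L : Subgroup G, Nat.card L < Nat.card G → ThStmtA p L :=
      fun L hL => IH (Nat.card L) (by omega) L le_rfl
        (hS4.imp id (fun h hL' => h (involves_of_subgroup L hL')))
    have ihq : ∀ (N : Subgroup G) [N.Normal], N ≠ ⊥ → ThStmtA p (G ⧸ N) := by
      intro N _ hN
      refine IH (Nat.card (G ⧸ N)) ?_ (G ⧸ N) le_rfl
        (hS4.imp id (fun h hL' => h (involves_of_quotient N hL')))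
      have h1 : Nat.card G = Nat.card (G ⧸ N) * Nat.card N :=
        Subgroup.card_eq_card_quotient_mul_card_subgroup N
      have h2 : 1 < Nat.card N := by
        haveI : Nontrivial N := (Subgroup.nontrivial_iff_ne_bot _).mpr hN
        exact Finite.one_lt_card
      have h3 : 0 < Nat.card (G ⧸ N) := Nat.card_pos
      nlinarith
    have claimA : ∀ (μ : ℕ) (H : Subgroup G), IsPGroup p H → H ≠ ⊥ →
        (Nat.card G - (Nat.card (Subgroup.normalizer (H : Set G))).factorization p) *
          (Nat.card G + 1) + (Nat.card G - Nat.card H) ≤ μ →
        FrobS p (Subgroup.normalizer (H : Set G)) := by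
      intro μ
      induction μ using Nat.strong_induction_on with
      | _ μ IHμ =>
        intro H hHp hH1 hμ
        have hfle : ∀ X : Subgroup G, (Nat.card X).factorization p ≤ Nat.card G :=
          fun X => (Nat.factorization_lt p Nat.card_pos.ne').le.trans (Subgroup.card_le_card_group X)
        have IH' : ∀ K : Subgroup G, IsPGroup p K → K ≠ ⊥ →
            ((Nat.card (Subgroup.normalizer (H : Set G))).factorization p <
                (Nat.card (Subgroup.normalizer (K : Set G))).factorization p ∨
              ((Nat.card (Subgroup.normalizer (H : Set G))).factorization p ≤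
                (Nat.card (Subgroup.normalizer (K : Set G))).factorization p ∧
                Nat.card H < Nat.card K)) →
            FrobS p (Subgroup.normalizer (K : Set G)) := by
          intro K hKp hK1 hlt
          refine IHμ _ ?_ K hKp hK1 le_rfl
          have hfH := hfle (Subgroup.normalizer (H : Set G))
          have hfK := hfle (Subgroup.normalizer (K : Set G))
          have hcH := Subgroup.card_le_card_group H
          have hcK := Subgroup.card_le_card_group K
          generalize (Nat.card (Subgroup.normalizer (H : Set G))).factorization p = fH at *
          generalize (Nat.card (Subgroup.normalizer (K : Set G))).factorization p = fK at *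
          generalize Nat.card H = cH at *
          generalize Nat.card K = cK at *
          generalize Nat.card G = N at *
          rcases hlt with h | ⟨h1, h2⟩
          · have h3 : (N - fK + 1) * (N + 1) ≤ (N - fH) * (N + 1) :=
              Nat.mul_le_mul_right _ (by omega)
            have h4 : N - cK ≤ N := Nat.sub_le _ _
            nlinarith
          · have h3 : (N - fK) * (N + 1) ≤ (N - fH) * (N + 1) :=
              Nat.mul_le_mul_right _ (by omega)
            omega
        by_cases hNtop : Subgroup.normalizer (H : Set G) = ⊤
        · haveI : H.Normal := Subgroup.normalizer_eq_top_iff.mp hNtop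
          rw [hNtop, frobS_top_iff]
          apply thompson_coreA hS4 ih ihq P hyp H hHp hH1
          intro K hKp hlt hPK
          apply IH' K hKp _ (Or.inr ⟨_, hlt⟩)
          · rintro rfl
            rw [Subgroup.card_bot] at hlt
            have : 0 < Nat.card H := Nat.card_pos
            omega
          · have h1 : Nat.card (P : Subgroup G) ∣ Nat.card (Subgroup.normalizer (K : Set G)) :=
              Subgroup.card_dvd_of_le hPK
            rw [P.card_eq_multiplicity] at h1
            have h2 := (hp.pow_dvd_iff_le_factorization Nat.card_pos.ne').mp h1
            refine le_trans ?_ h2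
            rw [hNtop, Subgroup.card_top]
        · obtain ⟨S, hHS, hSN, hSp, hSidx⟩ := Cfsg.Agent.Lib.Helper14.exists_relSylow_ge hHp
            (Subgroup.le_normalizer : H ≤ Subgroup.normalizer (H : Set G))
          have hS1 : S ≠ ⊥ := fun h => hH1 (le_bot_iff.mp (h ▸ hHS))
          have hThS : ThHypA p S := by
            by_cases hidx : p ∣ S.index
            · obtain ⟨P₂, hSP₂⟩ := hSp.exists_le_sylow
              have hSne : S ≠ (P₂ : Subgroup G) := by
                intro h
                apply P₂.not_dvd_index
                rw [← h]
                exact hidx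
              have hSlt : S < (P₂ : Subgroup G) := lt_of_le_of_ne hSP₂ hSne
              obtain ⟨x, hxP₂, hxN, hxS⟩ :=
                Cfsg.Agent.Lib.Helper18.exists_mem_normalizer_not_mem P₂.isPGroup' hSlt
              obtain ⟨T, hTdef⟩ : ∃ T : Subgroup G,
                  T = (P₂ : Subgroup G) ⊓ Subgroup.normalizer (S : Set G) := ⟨_, rfl⟩
              have hST : S < T := by
                refine lt_of_le_of_ne (hTdef ▸ le_inf hSP₂ Subgroup.le_normalizer) ?_
                intro h
                apply hxS
                rw [h, hTdef]
                exact Subgroup.mem_inf.mpr ⟨hxP₂, hxN⟩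
              have hTp : IsPGroup p T := P₂.isPGroup'.to_le (hTdef ▸ inf_le_left)
              have hTJ : T ≤ Subgroup.normalizer
                  ((thompsonSubgroupAOf S : Subgroup G) : Set G) :=
                (hTdef ▸ inf_le_right : T ≤ Subgroup.normalizer (S : Set G)).trans
                  (normalizer_le_normalizer_thompsonSubgroupAOf S)
              have hJ1 : thompsonSubgroupAOf S ≠ ⊥ := thompsonSubgroupAOf_ne_bot hS1
              have hJp : IsPGroup p (thompsonSubgroupAOf S) :=
                hSp.to_le (thompsonSubgroupAOf_le S)
              constructor
              · apply IH' _ hJp hJ1 (Or.inl ?_)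
                obtain ⟨j, hj⟩ := IsPGroup.iff_card.mp hSp
                obtain ⟨i, hi⟩ := IsPGroup.iff_card.mp hTp
                have h1 : S.relIndex (Subgroup.normalizer (H : Set G)) * Nat.card S =
                    Nat.card (Subgroup.normalizer (H : Set G)) :=
                  Cfsg.Agent.Lib.Helper6.relIndex_mul_card_of_le hSN
                have hr0 : S.relIndex (Subgroup.normalizer (H : Set G)) ≠ 0 := by
                  intro h0
                  rw [h0, zero_mul] at h1
                  exact Nat.card_pos.ne' h1.symm
                have h2 : (Nat.card (Subgroup.normalizer (H : Set G))).factorization p = j := by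
                  rw [← h1, hj, Nat.factorization_mul hr0 (pow_pos hp.pos j).ne',
                    Nat.Prime.factorization_pow hp]
                  simp [Nat.factorization_eq_zero_of_not_dvd hSidx]
                have h3 : j < i := by
                  have := card_lt_of_lt hST
                  rw [hj, hi] at this
                  exact (Nat.pow_lt_pow_iff_right hp.one_lt).mp this
                have h4 : Nat.card T ∣ Nat.card (Subgroup.normalizer
                    ((thompsonSubgroupAOf S : Subgroup G) : Set G)) := Subgroup.card_dvd_of_le hTJ
                rw [hi] at h4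
                have h5 := (hp.pow_dvd_iff_le_factorization Nat.card_pos.ne').mp h4
                omega
              · have hP₂N : S = (P₂ : Subgroup G) ⊓ Subgroup.normalizer (H : Set G) :=
                  Cfsg.Agent.Lib.Helper14.eq_of_le_of_relIndex (le_inf hSP₂ hSN) inf_le_right
                    (P₂.isPGroup'.to_le inf_le_left) hSidx
                refine ((hyp.sylow P₂).2).mono ?_
                apply Subgroup.centralizer_le
                intro z hz
                obtain ⟨hz1, hz2⟩ := Subgroup.mem_inf.mp hz
                have hzCH : z ∈ Subgroup.centralizer (H : Set G) :=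
                  Subgroup.centralizer_le (SetLike.coe_subset_coe.mpr (hHS.trans hSP₂)) hz2
                have hzS : z ∈ S := by
                  rw [hP₂N]
                  exact Subgroup.mem_inf.mpr ⟨hz1, Subgroup.centralizer_le_normalizer _ hzCH⟩
                exact Subgroup.mem_inf.mpr
                  ⟨hzS, Subgroup.centralizer_le (SetLike.coe_subset_coe.mpr hSP₂) hz2⟩
            · obtain ⟨P₂, hP₂⟩ := exists_sylow_eq hSp hidx
              rw [← hP₂]
              exact hyp.sylow P₂
          have hlt : Nat.card (Subgroup.normalizer (H : Set G)) < Nat.card G := by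
            apply lt_of_le_of_ne (Subgroup.card_le_card_group _)
            intro h
            exact hNtop ((Subgroup.card_eq_iff_eq_top _).mp h)
          exact frobS_of_thStmtA _ S (ih _ hlt) hSN hSp hSidx hThS
    intro Q hQ g hg hcop
    by_cases hQ1 : Q = ⊥
    · rw [hQ1, Subgroup.mem_centralizer_iff]
      intro h hh
      rw [SetLike.mem_coe, Subgroup.mem_bot] at hh
      rw [hh, one_mul, mul_one]
    · exact claimA _ Q hQ hQ1 le_rfl Q Subgroup.le_normalizer hQ g hg hg hcop


/-- **Thompson's normal `p`-complement theorem** (abelian-version `J`): if `p` is odd or `S₄` is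
not involved in `G`, and `N_G(J(P))` and `C_G(Z(P))` have normal `p`-complements, then so does
`G`. -/
theorem thompson_normal_p_complement_A {G : Type u} [Group G] [Finite G] {p : ℕ} [Fact p.Prime]
    (hS4 : p ≠ 2 ∨ ¬ Cfsg.Involves (Equiv.Perm (Fin 4)) G) (P : Sylow p G)
    (h1 : HasNormalPComplement p
      (Subgroup.normalizer (thompsonSubgroupAOf (P : Subgroup G) : Set G)))
    (h2 : HasNormalPComplement p
      (Subgroup.centralizer (((P : Subgroup G) ⊓ Subgroup.centralizer (P : Set G)) : Set G))) :
    HasNormalPComplement p G := by
  rw [hasNormalPComplement_subgroup_iff] at h1 h2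
  rw [hasNormalPComplement_iff_frobCond]
  exact thompson_allA p (Nat.card G) G le_rfl hS4 P ⟨h1, h2⟩

end Cfsg.Agent.Lib.Helper17
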