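import Mathlib
import Cfsg.Prelude.Def_PLocal
import Cfsg.Agent.Lib.Helper17.PStabPSolv
import Cfsg.Agent.Lib.Helper17.SylowNormal
import Cfsg.Agent.Lib.Helper27.Thompson
import Cfsg.Agent.Lib.Helper2.SL23Sec
import Cfsg.Agent.S0607
import Cfsg.Agent.S4227

set_option autoImplicit false
set_option linter.unusedSimpArgs false
set_option linter.unusedVariables false
set_option linter.style.haveILetI false

/-!
The Thompson factorization for solvable groups with trivial `p'`-core, `p` odd (with abelian Sylow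
`2`-subgroups when `p = 3`): `G = N_G(J(P)) C_G(Ω₁(Z(P)))`.
-/

namespace Cfsg.Agent.Lib.Helper17

open Cfsg Cfsg.Agent.Lib.Helper6 Cfsg.Agent.Lib.Helper14 Cfsg.Agent.Lib.Helper27
open scoped commutatorElement

universe u

theorem isPStableOn_of_psolv_free {X : Type u} [Group X] [Finite X] {p : ℕ} [hp : Fact p.Prime]
    (hp2 : p ≠ 2)
    (hfree : ¬ (p = 3 ∧ Cfsg.Involves (Matrix.SpecialLinearGroup (Fin 2) (ZMod 3)) X))
    (hsol : IsPSolvable p X) (V : Subgroup X) [hVn : V.Normal]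
    (hV : IsElementaryAbelian p V) : IsPStableOn p V := by
  classical
  intro a hq
  obtain ⟨hVc, hVp⟩ := hV
  letI : CommGroup ↥V :=
    { (inferInstance : Group ↥V) with mul_comm := fun x y => hVc.is_comm.comm x y }
  obtain ⟨φ, hφ⟩ : ∃ φ : X →* MulAut ↥V, ∀ (x : X) (v : ↥V), ((φ x v : ↥V) : X) = x * v * x⁻¹ :=
    ⟨MulAut.conjNormal, fun x v => rfl⟩
  have hAp : ∀ v : ↥V, v ^ p = 1 := by
    intro v
    apply Subtype.ext
    rw [Subgroup.coe_pow, hVp _ v.2]
    rfl
  have hqa : QuadAct φ a := by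
    intro v
    apply Subtype.ext
    rw [hφ, Subgroup.coe_div, hφ, div_eq_mul_inv]
    exact quad_elem_of_comm V a hq v v.2
  by_contra hcon
  have hyp : ∀ N : Subgroup X, N.Normal → a ∈ N → ¬ (∀ x ∈ N, ∃ k : ℕ, φ x ^ p ^ k = 1) := by
    intro N hNn haN hN
    apply hcon
    have hNbn : (N.map (QuotientGroup.mk' (Subgroup.centralizer (V : Set X)))).Normal :=
      hNn.map _ (QuotientGroup.mk'_surjective _)
    have hNbp : IsPGroup p (N.map (QuotientGroup.mk' (Subgroup.centralizer (V : Set X)))) := by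
      rintro ⟨y, x, hx, rfl⟩
      obtain ⟨k, hk⟩ := hN x hx
      refine ⟨k, ?_⟩
      apply Subtype.ext
      rw [Subgroup.coe_pow, Subgroup.coe_one]
      show (QuotientGroup.mk' (Subgroup.centralizer (V : Set X)) x) ^ p ^ k = 1
      rw [← map_pow]
      apply (QuotientGroup.eq_one_iff _).mpr
      rw [Subgroup.mem_centralizer_iff]
      intro v hv
      have h1 : φ (x ^ p ^ k) ⟨v, hv⟩ = ⟨v, hv⟩ := by rw [map_pow, hk]; rfl
      have h2 := congrArg Subtype.val h1
      rw [hφ] at h2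
      obtain ⟨y, hy⟩ : ∃ y : X, y = x ^ p ^ k := ⟨_, rfl⟩
      rw [← hy] at h2 ⊢
      calc v * y = (y * v * y⁻¹) * y := by rw [h2]
        _ = y * v := by group
    exact Cfsg.Agent.Lib.Helper14.le_pCore p hNbn hNbp ⟨a, haN, rfl⟩
  exact hfree (quad_psolv hp2 hAp φ hsol a hqa hyp)

open Cfsg.Agent.Lib.Helper2 in
/-- A group involving `SL(2,3)` has a nonabelian Sylow `2`-subgroup. -/
theorem not_comm_sylow_two_of_involves_sl23 {G : Type*} [Group G] [Finite G]
    (h : Cfsg.Involves (Matrix.SpecialLinearGroup (Fin 2) (ZMod 3)) G) :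
    ∃ T : Sylow 2 G, ¬ IsMulCommutative T := by
  classical
  obtain ⟨K, f, hf⟩ := exists_hom_of_involves h
  obtain ⟨α₂, hα₂a, hα₂x⟩ := Cfsg.Agent.Lib.Helper3.exists_quat_hom (n := 2) sI sJ orderOf_sI
    (by decide) (by decide)
  have hα₂inj := Cfsg.Agent.Lib.Helper3.quat_hom_injective (n := 2) sI sJ orderOf_sI sJ_not_mem
    α₂ hα₂a hα₂x
  have f1 : α₂ (QuaternionGroup.a 1) = sI := by
    rw [hα₂a]
    have : ((1 : ZMod (2 * 2))).val = 1 := by decide
    rw [this, pow_one]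
  have f2 : α₂ (QuaternionGroup.xa 0) = sJ := by
    rw [hα₂x]
    have : ((0 : ZMod (2 * 2))).val = 0 := by decide
    rw [this, pow_zero, mul_one]
  have hT₀ : IsPGroup 2 α₂.range := by
    apply IsPGroup.of_card (n := 3)
    rw [← Nat.card_congr (MonoidHom.ofInjective hα₂inj).toEquiv, card_quat_two]
    norm_num
  haveI : Fact (Nat.Prime 2) := ⟨Nat.prime_two⟩
  have hsurj : Function.Surjective (f.subgroupComap α₂.range) :=
    f.subgroupComap_surjective_of_surjective α₂.range hf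
  obtain ⟨TK⟩ : Nonempty (Sylow 2 ↥(α₂.range.comap f)) := inferInstance
  have htop : ((TK.mapSurjective hsurj : Sylow 2 ↥α₂.range) : Subgroup ↥α₂.range) = ⊤ :=
    ((TK.mapSurjective hsurj).is_maximal' (hT₀.to_subgroup ⊤) le_top).symm
  have hlift : ∀ s ∈ α₂.range, ∃ u : ↥(α₂.range.comap f),
      u ∈ (TK : Subgroup ↥(α₂.range.comap f)) ∧ f (u : ↥K) = s := by
    intro s hs
    have h1 : (⟨s, hs⟩ : ↥α₂.range) ∈
        ((TK.mapSurjective hsurj : Sylow 2 ↥α₂.range) : Subgroup ↥α₂.range) := by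
      rw [htop]; trivial
    rw [Sylow.coe_mapSurjective] at h1
    obtain ⟨u, hu, hus⟩ := h1
    exact ⟨u, hu, congrArg Subtype.val hus⟩
  obtain ⟨u, hu, hfu⟩ := hlift sI ⟨_, f1⟩
  obtain ⟨v, hv, hfv⟩ := hlift sJ ⟨_, f2⟩
  have hWp : IsPGroup 2 (((TK : Subgroup ↥(α₂.range.comap f)).map
      (α₂.range.comap f).subtype).map K.subtype) := (TK.isPGroup'.map _).map _
  obtain ⟨T, hT⟩ := hWp.exists_le_sylow
  refine ⟨T, ?_⟩
  intro hcomm
  have huT : (((u : ↥K) : G)) ∈ (T : Subgroup G) := hT ⟨(u : ↥K), ⟨u, hu, rfl⟩, rfl⟩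
  have hvT : (((v : ↥K) : G)) ∈ (T : Subgroup G) := hT ⟨(v : ↥K), ⟨v, hv, rfl⟩, rfl⟩
  have h1 : (⟨_, huT⟩ : ↥(T : Subgroup G)) * ⟨_, hvT⟩ = ⟨_, hvT⟩ * ⟨_, huT⟩ :=
    hcomm.is_comm.comm _ _
  have h2 : (((u : ↥K) : G)) * ((v : ↥K) : G) = ((v : ↥K) : G) * ((u : ↥K) : G) :=
    congrArg Subtype.val h1
  have h3 : (u : ↥K) * (v : ↥K) = (v : ↥K) * (u : ↥K) := Subtype.ext h2
  have h4 := congrArg f h3
  rw [map_mul, map_mul, hfu, hfv] at h4
  exact absurd h4 (by decide)

set_option maxHeartbeats 1600000 in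
theorem thompson_fact_solvable {G : Type u} [Group G] [Finite G] {p : ℕ} [hp : Fact p.Prime]
    (hp2 : p ≠ 2) (hs : Group.IsSolvable G) (h3 : p = 3 → ∀ T : Sylow 2 G, IsMulCommutative T)
    (hF : ∀ N : Subgroup G, N.Normal → Nat.Coprime (Nat.card N) p → N = ⊥) (P : Sylow p G)
    (g : G) :
    ∃ a ∈ Subgroup.normalizer (thompsonSubgroupOf p (P : Subgroup G) : Set G),
      ∃ c ∈ Subgroup.centralizer {x : G | x ∈ (P : Subgroup G) ∧
        (∀ y ∈ (P : Subgroup G), x * y = y * x) ∧ x ^ p = 1}, g = a * c := by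
  classical
  have hpp : p.Prime := hp.out
  have hsol : IsPSolvable p G := Cfsg.Agent.S4227.psolv_of_solv p hpp _ G hs rfl
  have hO : pPrimeCore p G = ⊥ :=
    hF _ inferInstance (Cfsg.Agent.Lib.Helper14.pPrimeCore_coprime p)
  have hcQ := centralizer_pCore_le_of_isPSolvable hsol hO
  have hQP : pCore p G ≤ (P : Subgroup G) :=
    (Cfsg.Agent.Lib.Helper14.pCore_isPGroup p).le_sylow_of_normal P
  obtain ⟨Z₀, hZ₀⟩ : ∃ Z₀ : Set G, Z₀ = {x : G | x ∈ (P : Subgroup G) ∧
      (∀ y ∈ (P : Subgroup G), x * y = y * x) ∧ x ^ p = 1} := ⟨_, rfl⟩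
  rw [← hZ₀]
  have hZ₀Q : ∀ x ∈ Z₀, x ∈ pCore p G := by
    intro x hx
    rw [hZ₀] at hx
    apply hcQ
    rw [Subgroup.mem_centralizer_iff]
    intro y hy
    exact (hx.2.1 y (hQP hy)).symm
  obtain ⟨E, hE⟩ : ∃ E : Subgroup G, ∀ x, x ∈ E ↔
      x ∈ pCore p G ∧ (∀ y ∈ pCore p G, x * y = y * x) ∧ x ^ p = 1 :=
    ⟨{ carrier := {x | x ∈ pCore p G ∧ (∀ y ∈ pCore p G, x * y = y * x) ∧ x ^ p = 1}
       one_mem' := ⟨Subgroup.one_mem _, fun y _ => by rw [one_mul, mul_one], one_pow p⟩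
       mul_mem' := by
         rintro x y ⟨hx1, hx2, hx3⟩ ⟨hy1, hy2, hy3⟩
         refine ⟨Subgroup.mul_mem _ hx1 hy1, ?_, ?_⟩
         · intro z hz
           rw [mul_assoc, hy2 z hz, ← mul_assoc, hx2 z hz, mul_assoc]
         · have hc : Commute x y := hx2 y hy1
           rw [hc.mul_pow, hx3, hy3, one_mul]
       inv_mem' := by
         rintro x ⟨hx1, hx2, hx3⟩
         refine ⟨Subgroup.inv_mem _ hx1, ?_, by rw [inv_pow, hx3, inv_one]⟩
         intro z hz
         have h0 := hx2 z hz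
         calc x⁻¹ * z = x⁻¹ * (z * x) * x⁻¹ := by group
           _ = x⁻¹ * (x * z) * x⁻¹ := by rw [h0]
           _ = z * x⁻¹ := by group }, fun x => Iff.rfl⟩
  have hEn : E.Normal := by
    constructor
    intro x hx k
    rw [hE] at hx ⊢
    obtain ⟨hx1, hx2, hx3⟩ := hx
    refine ⟨(Cfsg.pCore_normal p G).conj_mem x hx1 k, ?_, ?_⟩
    · intro z hz
      have hz' : k⁻¹ * z * k ∈ pCore p G := by
        have h0 := (Cfsg.pCore_normal p G).conj_mem z hz k⁻¹
        rwa [inv_inv] at h0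
      have h0 := hx2 _ hz'
      calc k * x * k⁻¹ * z = k * (x * (k⁻¹ * z * k)) * k⁻¹ := by group
        _ = k * ((k⁻¹ * z * k) * x) * k⁻¹ := by rw [h0]
        _ = z * (k * x * k⁻¹) := by group
    · rw [conj_pow, hx3, mul_one, mul_inv_cancel]
  obtain ⟨V, hV⟩ : ∃ V : Subgroup G, V = Subgroup.normalClosure Z₀ := ⟨_, rfl⟩
  have hVn : V.Normal := hV ▸ Subgroup.normalClosure_normal
  have hVE : V ≤ E := by
    rw [hV]
    apply Subgroup.normalClosure_le_normal
    intro x hx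
    rw [SetLike.mem_coe, hE]
    have hx' := hx
    rw [hZ₀] at hx'
    exact ⟨hZ₀Q x hx, fun y hy => hx'.2.1 y (hQP hy), hx'.2.2⟩
  have hZ₀V : Z₀ ⊆ V := hV ▸ Subgroup.subset_normalClosure
  have hVea : IsElementaryAbelian p V := by
    constructor
    · refine ⟨⟨?_⟩⟩
      rintro ⟨x, hx⟩ ⟨y, hy⟩
      apply Subtype.ext
      exact ((hE x).mp (hVE hx)).2.1 y ((hE y).mp (hVE hy)).1
    · intro x hx
      exact ((hE x).mp (hVE hx)).2.2
  -- normal subgroups acting as `p`-groups centralize `V`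
  have hcl1 : ∀ N : Subgroup G, N.Normal →
      IsPGroup p (N.map (QuotientGroup.mk' (Subgroup.centralizer (V : Set G)))) →
      N ≤ Subgroup.centralizer (V : Set G) := by
    intro N hNn hNp
    have hdec : ∀ n ∈ N, ∃ u ∈ (P : Subgroup G), ∃ c ∈ Subgroup.centralizer (V : Set G),
        n = u * c := by
      intro n hn
      haveI : (N.map (QuotientGroup.mk' (Subgroup.centralizer (V : Set G)))).Normal :=
        hNn.map _ (QuotientGroup.mk'_surjective _)
      have h1 := hNp.le_sylow_of_normal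
        (P.mapSurjective (QuotientGroup.mk'_surjective (Subgroup.centralizer (V : Set G))))
      have h2 := h1 (Subgroup.mem_map_of_mem _ hn)
      rw [Sylow.coe_mapSurjective] at h2
      obtain ⟨u, hu, hun⟩ := h2
      refine ⟨u, hu, u⁻¹ * n, ?_, by group⟩
      have h3 : (QuotientGroup.mk' (Subgroup.centralizer (V : Set G))) (u⁻¹ * n) = 1 := by
        rw [map_mul, map_inv, hun, inv_mul_cancel]
      exact (QuotientGroup.eq_one_iff _).mp h3
    have hNZ : ∀ n ∈ N, ∀ z ∈ Z₀, n * z = z * n := by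
      intro n hn z hz
      obtain ⟨u, hu, c, hc, rfl⟩ := hdec n hn
      have h1 : u * z = z * u := by
        have hz' := hz
        rw [hZ₀] at hz'
        exact (hz'.2.1 u hu).symm
      have h2 : c * z = z * c := ((Subgroup.mem_centralizer_iff.mp hc) z (hZ₀V hz)).symm
      rw [mul_assoc, h2, ← mul_assoc, h1, mul_assoc]
    have hle : V ≤ Subgroup.centralizer (N : Set G) := by
      rw [hV]
      apply Subgroup.normalClosure_le_normal
      intro z hz
      rw [SetLike.mem_coe, Subgroup.mem_centralizer_iff]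
      intro m hm
      exact hNZ m hm z hz
    intro n hn
    rw [Subgroup.mem_centralizer_iff]
    intro v hv
    exact ((Subgroup.mem_centralizer_iff.mp (hle hv)) n hn).symm
  have hfree : ¬ (p = 3 ∧ Cfsg.Involves (Matrix.SpecialLinearGroup (Fin 2) (ZMod 3)) G) := by
    rintro ⟨hp3, hinv⟩
    obtain ⟨T, hT⟩ := not_comm_sylow_two_of_involves_sl23 hinv
    exact hT (h3 hp3 T)
  have hstab : IsPStableOn p V := isPStableOn_of_psolv_free hp2 hfree hsol V hVea
  have hquadC : ∀ a : G, ⁅⁅V, Subgroup.zpowers a⁆, Subgroup.zpowers a⁆ = ⊥ →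
      a ∈ Subgroup.centralizer (V : Set G) := by
    intro a ha
    have h1 := hstab a ha
    have hNp : IsPGroup p (((pCore p (G ⧸ Subgroup.centralizer (V : Set G))).comap
        (QuotientGroup.mk' (Subgroup.centralizer (V : Set G)))).map
          (QuotientGroup.mk' (Subgroup.centralizer (V : Set G)))) := by
      rw [Subgroup.map_comap_eq_self_of_surjective (QuotientGroup.mk'_surjective _)]
      exact Cfsg.Agent.Lib.Helper14.pCore_isPGroup p
    have h2 := hcl1 ((pCore p (G ⧸ Subgroup.centralizer (V : Set G))).comap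
      (QuotientGroup.mk' (Subgroup.centralizer (V : Set G)))) inferInstance hNp
    exact h2 h1
  have hmaxC : ∀ A ∈ maxElementaryAbelianSubgroups p G,
      A ≤ Subgroup.centralizer (V : Set G) := by
    intro A hA
    obtain ⟨h1, h2, h3⟩ := Cfsg.Agent.S0607.result V hVea A hA
    obtain ⟨A₀, hA₀⟩ : ∃ A₀ : Subgroup G, A₀ =
        ⁅V, A⁆ ⊔ (A ⊓ Subgroup.centralizer ((⁅V, A⁆ : Subgroup G) : Set G)) := ⟨_, rfl⟩
    rw [← hA₀] at h1 h2 h3
    have h4 : A₀ ≤ Subgroup.centralizer (V : Set G) := by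
      intro a ha
      apply hquadC
      rw [eq_bot_iff, ← h2]
      have hz : Subgroup.zpowers a ≤ A₀ := by rw [Subgroup.zpowers_le]; exact ha
      exact Subgroup.commutator_mono (Subgroup.commutator_mono le_rfl hz) hz
    have h5 : ⁅V, A₀⁆ = ⊥ := by
      rw [Subgroup.commutator_eq_bot_iff_le_centralizer]
      intro v hv
      rw [Subgroup.mem_centralizer_iff]
      intro a ha
      exact ((Subgroup.mem_centralizer_iff.mp (h4 ha)) v hv).symm
    have h6 : ⁅V, A⁆ = ⊥ := by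
      by_contra hne
      exact h3 hne h5
    rw [Subgroup.commutator_eq_bot_iff_le_centralizer] at h6
    intro a ha
    rw [Subgroup.mem_centralizer_iff]
    intro v hv
    exact ((Subgroup.mem_centralizer_iff.mp (h6 hv)) a ha).symm
  -- `J(P) ≤ C`
  have hJC : thompsonSubgroupOf p (P : Subgroup G) ≤ Subgroup.centralizer (V : Set G) := by
    rw [thompsonSubgroupOf_eq_sSup]
    apply sSup_le
    intro A hA
    obtain ⟨hAP, hAe, hAmax⟩ := hA
    apply hmaxC
    refine ⟨hAe, ?_⟩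
    intro B hB
    have hBp : IsPGroup p B := by
      intro b
      refine ⟨1, ?_⟩
      apply Subtype.ext
      rw [pow_one, Subgroup.coe_pow, hB.2 _ b.2]
      rfl
    obtain ⟨Q, hQ⟩ := hBp.exists_le_sylow
    obtain ⟨k, hk⟩ := MulAction.exists_smul_eq G P Q
    have hxP : ∀ x ∈ (Q : Subgroup G), k⁻¹ * x * k ∈ (P : Subgroup G) := by
      intro x hx
      rw [← hk, Sylow.coe_subgroup_smul, Subgroup.mem_pointwise_smul_iff_inv_smul_mem] at hx
      simpa [MulAut.smul_def, MulAut.conj_inv_apply] using hx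
    have hBle : cj k⁻¹ B ≤ (P : Subgroup G) := by
      rw [cj_le_iff, inv_inv]
      intro x hx
      rw [mem_cj]
      exact hxP x (hQ hx)
    have h1 := hAmax _ hBle (isElementaryAbelian_cj k⁻¹ hB)
    rwa [card_cj] at h1
  obtain ⟨a, ha, c, hc, rfl⟩ := frattini_sylow_inf_normal P (Subgroup.centralizer (V : Set G)) g
  refine ⟨a, ?_, c, Subgroup.centralizer_le hZ₀V hc, rfl⟩
  have h1 : cj a ((P : Subgroup G) ⊓ Subgroup.centralizer (V : Set G)) =
      (P : Subgroup G) ⊓ Subgroup.centralizer (V : Set G) := cj_eq_self_of_mem_normalizer ha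
  have h2 : thompsonSubgroupOf p (P : Subgroup G) ≤ cj a (P : Subgroup G) := by
    have h3 : thompsonSubgroupOf p (P : Subgroup G) ≤
        (P : Subgroup G) ⊓ Subgroup.centralizer (V : Set G) :=
      le_inf (thompsonSubgroupOf_le p _) hJC
    rw [← h1] at h3
    exact h3.trans (cj_mono inf_le_left)
  have h4 := thompsonSubgroupOf_eq_of_le_cj p (P : Subgroup G) a h2
  rw [Subgroup.mem_normalizer_iff]
  intro x
  constructor
  · intro hx
    rw [← h4]
    exact conj_mem_cj hx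
  · intro hx
    rw [← h4, mem_cj] at hx
    have e : a⁻¹ * (a * x * a⁻¹) * a = x := by group
    rw [e] at hx
    exact hx

end Cfsg.Agent.Lib.Helper17
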